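import Cfsg.Agent.H8.Wr5
import Cfsg.Prelude.Def_G2

/-! The split octonions: norm form, automorphisms and centralizers of involutions. -/

set_option autoImplicit false

namespace Cfsg.Agent.H8

open Subgroup Function Module QuadraticMap H13 Cfsg.Lie

variable {F : Type*} [Field F]

theorem zornMul_eq (x y : Fin 8 → F) : zornMul x y =
    ![x 0 * y 0 + (x 1 * y 4 + x 2 * y 5 + x 3 * y 6),
      x 0 * y 1 + y 7 * x 1 - (x 5 * y 6 - x 6 * y 5),
      x 0 * y 2 + y 7 * x 2 - (x 6 * y 4 - x 4 * y 6),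
      x 0 * y 3 + y 7 * x 3 - (x 4 * y 5 - x 5 * y 4),
      y 0 * x 4 + x 7 * y 4 + (x 2 * y 3 - x 3 * y 2),
      y 0 * x 5 + x 7 * y 5 + (x 3 * y 1 - x 1 * y 3),
      y 0 * x 6 + x 7 * y 6 + (x 1 * y 2 - x 2 * y 1),
      x 4 * y 1 + x 5 * y 2 + x 6 * y 3 + x 7 * y 7] := rfl

/-- The octonion product as a bilinear map. -/
def zM : (Fin 8 → F) →ₗ[F] (Fin 8 → F) →ₗ[F] (Fin 8 → F) :=
  LinearMap.mk₂ F zornMul
    (fun _ _ _ => funext fun i => by fin_cases i <;> simp [zornMul_eq] <;> ring)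
    (fun _ _ _ => funext fun i => by fin_cases i <;> simp [zornMul_eq] <;> ring)
    (fun _ _ _ => funext fun i => by fin_cases i <;> simp [zornMul_eq] <;> ring)
    (fun _ _ _ => funext fun i => by fin_cases i <;> simp [zornMul_eq] <;> ring)

theorem zM_apply (x y : Fin 8 → F) : zM x y = zornMul x y := rfl

/-- The norm form. -/
def zN (F : Type*) [Field F] : QuadraticForm F (Fin 8 → F) :=
  proj 0 7 - (proj 1 4 + proj 2 5 + proj 3 6)

theorem zN_apply (x : Fin 8 → F) : zN F x = x 0 * x 7 - (x 1 * x 4 + x 2 * x 5 + x 3 * x 6) := rfl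

theorem polar_zN (x y : Fin 8 → F) : polar (zN F) x y = x 0 * y 7 + x 7 * y 0 -
    (x 1 * y 4 + x 4 * y 1 + x 2 * y 5 + x 5 * y 2 + x 3 * y 6 + x 6 * y 3) := by
  simp only [polar, zN_apply, Pi.add_apply]; ring

/-- The identity element. -/
def zO (F : Type*) [Field F] : Fin 8 → F := ![1, 0, 0, 0, 0, 0, 0, 1]

theorem zO_ne_zero : zO F ≠ 0 := fun h => by simpa [zO] using congrFun h 0

theorem nd_zN : ND (zN F) := fun x h => by
  have h0 := h (Pi.single 0 1); have h1 := h (Pi.single 1 1); have h2 := h (Pi.single 2 1)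
  have h3 := h (Pi.single 3 1); have h4 := h (Pi.single 4 1); have h5 := h (Pi.single 5 1)
  have h6 := h (Pi.single 6 1); have h7 := h (Pi.single 7 1)
  simp [polar_zN] at h0 h1 h2 h3 h4 h5 h6 h7
  funext i
  fin_cases i <;> simpa

theorem zM_one_left (x : Fin 8 → F) : zM (zO F) x = x :=
  funext fun i => by fin_cases i <;> simp [zM_apply, zornMul_eq, zO]

theorem zM_one_right (x : Fin 8 → F) : zM x (zO F) = x :=
  funext fun i => by fin_cases i <;> simp [zM_apply, zornMul_eq, zO]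

theorem zM_self (x : Fin 8 → F) : zM x x = polar (zN F) (zO F) x • x - zN F x • zO F :=
  funext fun i => by fin_cases i <;> simp [zM_apply, zornMul_eq, zO, polar_zN, zN_apply] <;> ring

theorem zN_mul (x y : Fin 8 → F) : zN F (zM x y) = zN F x * zN F y := by
  simp [zM_apply, zornMul_eq, zN_apply]; ring

theorem zM_zM (x v : Fin 8 → F) : zM (zM x v) v = polar (zN F) (zO F) v • zM x v - zN F v • x :=
  funext fun i => by fin_cases i <;> simp [zM_apply, zornMul_eq, zO, polar_zN, zN_apply] <;> ring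

theorem polar_triple₁ (x y t : Fin 8 → F) : polar (zN F) (zM (zM x y) t) x =
    zN F x * (polar (zN F) (zO F) t * polar (zN F) (zO F) y - polar (zN F) y t) := by
  simp [zM_apply, zornMul_eq, zO, polar_zN, zN_apply]; ring

theorem polar_triple₂ (x y t : Fin 8 → F) : polar (zN F) (zM (zM x y) t) y =
    zN F y * polar (zN F) x t - polar (zN F) (zO F) y * polar (zN F) x (zM y t) +
      polar (zN F) x y * polar (zN F) (zO F) (zM y t) := by
  simp [zM_apply, zornMul_eq, zO, polar_zN, zN_apply]; ring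

theorem polar_triple₃ (x y t : Fin 8 → F) : polar (zN F) (zM (zM x y) t) t =
    zN F t * (polar (zN F) (zO F) x * polar (zN F) (zO F) y - polar (zN F) x y) := by
  simp [zM_apply, zornMul_eq, zO, polar_zN, zN_apply]; ring

/-- The automorphism group of the octonions. -/
def AutO (F : Type*) [Field F] : Subgroup ((Fin 8 → F) ≃ₗ[F] (Fin 8 → F)) where
  carrier := {g | ∀ x y, g (zM x y) = zM (g x) (g y)}
  one_mem' _ _ := rfl
  mul_mem' {a b} ha hb x y := by
    rw [LinearEquiv.mul_apply, LinearEquiv.mul_apply, LinearEquiv.mul_apply, hb, ha]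
  inv_mem' {a} ha x y := a.injective (by
    rw [ha]
    exact (a.apply_symm_apply _).trans (by
      rw [show a (a⁻¹ x) = x from a.apply_symm_apply x, show a (a⁻¹ y) = y from a.apply_symm_apply y]))

/-- The group `G₂` as a group of linear maps. -/
noncomputable def g2Equiv (F : Type*) [Field F] : G2 F ≃* AutO F :=
  ((H12.glEq (Fin 8) F).subgroupMap (G2 F)).trans (MulEquiv.subgroupCongr (by
    rw [show G2 F = (AutO F).comap (H12.glEq (Fin 8) F : _ →* _) from Subgroup.ext fun _ => Iff.rfl]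
    exact map_comap_eq_self_of_surjective (H12.glEq (Fin 8) F).surjective _))

theorem AutO_one (g : AutO F) : g.1 (zO F) = zO F := by
  have h1 := g.2 (zO F) (g.1.symm (zO F))
  rw [zM_one_left, g.1.apply_symm_apply, zM_one_right] at h1
  exact h1.symm

theorem AutO_le : AutO F ≤ OG (zN F) := fun g hg x => by
  have h0 := AutO_one ⟨g, hg⟩
  have h1 := hg x x
  rw [zM_self, zM_self, map_sub, map_smul, map_smul, h0] at h1
  have h2 : (polar (zN F) (zO F) x - polar (zN F) (zO F) (g x)) • g x =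
      (zN F x - zN F (g x)) • zO F := by
    rw [sub_smul, sub_smul]
    linear_combination (exp := 1) h1
  by_cases h : polar (zN F) (zO F) x - polar (zN F) (zO F) (g x) = 0
  · rw [h, zero_smul, eq_comm, smul_eq_zero_iff_left zO_ne_zero, sub_eq_zero] at h2
    exact h2.symm
  · obtain ⟨c, hc⟩ : ∃ c : F, g x = c • zO F :=
      ⟨_, by rw [eq_inv_smul_iff₀ h |>.2 h2, smul_smul]⟩
    rw [hc, g.injective (hc.trans (by rw [map_smul, h0]))]

/-- The `-1` eigenspace. -/
def negS (z : AutO F) : Submodule F (Fin 8 → F) where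
  carrier := {x | z.1 x = -x}
  add_mem' {a b} ha hb := by
    change z.1 (a + b) = _
    rw [map_add, ha, hb, neg_add]
  zero_mem' := by simp
  smul_mem' c a ha := by
    change z.1 (c • a) = _
    rw [map_smul, ha, smul_neg]

/-- The fixed space. -/
def posS (z : AutO F) : Submodule F (Fin 8 → F) where
  carrier := {x | z.1 x = x}
  add_mem' {a b} ha hb := by
    change z.1 (a + b) = _
    rw [map_add, ha, hb]
  zero_mem' := by simp
  smul_mem' c a ha := by
    change z.1 (c • a) = _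
    rw [map_smul, ha]

variable {z : AutO F}

theorem polar_pos_neg (h2 : (2 : F) ≠ 0) {x y : Fin 8 → F} (hx : x ∈ posS z) (hy : y ∈ negS z) :
    polar (zN F) x y = 0 := by
  have h1 := OG_polar (⟨z.1, AutO_le z.2⟩ : OG (zN F)) x y
  rw [show z.1 x = x from hx, show z.1 y = -y from hy, polar_neg_right] at h1
  exact (mul_eq_zero.1 (by linear_combination -h1 : (2 : F) * polar (zN F) x y = 0)).resolve_left h2

theorem exists_pos_neg (h2 : (2 : F) ≠ 0) (hz : z * z = 1) (x : Fin 8 → F) :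
    ∃ a ∈ posS z, ∃ b ∈ negS z, x = a + b := by
  have h1 : z.1 (z.1 x) = x := by
    rw [← LinearEquiv.mul_apply, ← coe_mul, hz]; rfl
  refine ⟨(2 : F)⁻¹ • (x + z.1 x), Submodule.smul_mem _ _ ?_, (2 : F)⁻¹ • (x - z.1 x),
    Submodule.smul_mem _ _ ?_, ?_⟩
  · change z.1 _ = _
    rw [map_add, h1, add_comm]
  · change z.1 _ = _
    rw [map_sub, h1, neg_sub]
  · rw [← smul_add, add_add_sub_cancel, ← two_smul F x, inv_smul_smul₀ h2]

theorem nd_negS (h2 : (2 : F) ≠ 0) (hz : z * z = 1) : ND ((zN F).restrict (negS z)) :=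
  fun x h => Subtype.ext (nd_zN _ fun y => by
    obtain ⟨a, ha, b, hb, rfl⟩ := exists_pos_neg h2 hz y
    rw [polar_add_right, polar_comm, polar_pos_neg h2 ha x.2, zero_add]
    exact h ⟨b, hb⟩)

theorem zM_eq_zero (h2 : (2 : F) ≠ 0) {v : Fin 8 → F} (hv : v ∈ negS z) (h0 : zN F v ≠ 0)
    {x : Fin 8 → F} (h : zM x v = 0) : x = 0 := by
  have h1 := zM_zM x v
  rw [h, map_zero, LinearMap.zero_apply, smul_zero, zero_sub, eq_comm, neg_eq_zero,
    smul_eq_zero_iff_right h0] at h1
  exact h1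

theorem exists_aniso (h2 : (2 : F) ≠ 0) (hz : z * z = 1) (h1 : z ≠ 1) :
    ∃ v ∈ negS z, zN F v ≠ 0 := by
  haveI : Nontrivial (negS z) := Submodule.nontrivial_iff_ne_bot.2 fun h => h1 (by
    ext1; ext1 x
    obtain ⟨a, ha, b, hb, rfl⟩ := exists_pos_neg h2 hz x
    rw [h, Submodule.mem_bot] at hb
    rw [hb, add_zero]
    exact ha)
  obtain ⟨v, hv⟩ := (nd_negS h2 hz).exists_ne_zero
  exact ⟨v, v.2, hv⟩

theorem finrank_negS (h2 : (2 : F) ≠ 0) (hz : z * z = 1) (h1 : z ≠ 1) :
    finrank F (negS z) = 4 := by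
  obtain ⟨v, hv, h0⟩ := exists_aniso h2 hz h1
  have hi : Injective (zM.flip v : (Fin 8 → F) →ₗ[F] _) :=
    (injective_iff_map_eq_zero _).2 fun _ => zM_eq_zero h2 hv h0
  have h3 : finrank F (posS z) ≤ finrank F (negS z) := by
    rw [(Submodule.equivMapOfInjective _ hi _).finrank_eq]
    refine Submodule.finrank_mono ?_
    rintro _ ⟨x, hx, rfl⟩
    change z.1 (zM x v) = -zM x v
    rw [z.2, show z.1 x = x from hx, show z.1 v = -v from hv, map_neg]
  have h4 : finrank F (negS z) ≤ finrank F (posS z) := by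
    rw [(Submodule.equivMapOfInjective _ hi _).finrank_eq]
    refine Submodule.finrank_mono ?_
    rintro _ ⟨x, hx, rfl⟩
    change z.1 (zM x v) = zM x v
    rw [z.2, show z.1 x = -x from hx, show z.1 v = -v from hv]
    simp
  have h5 := Submodule.finrank_add_eq_of_isCompl (U := posS z) (W := negS z) ⟨?_, ?_⟩
  · rw [finrank_fin_fun] at h5
    omega
  · refine Submodule.disjoint_def.2 fun x hx hx' => ?_
    have : x = -x := (show z.1 x = x from hx).symm.trans hx'
    rwa [eq_neg_iff_add_eq_zero, ← two_smul F x, smul_eq_zero_iff_right h2] at this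
  · refine codisjoint_iff_le_sup.2 fun x _ => ?_
    obtain ⟨a, ha, b, hb, rfl⟩ := exists_pos_neg h2 hz x
    exact Submodule.add_mem_sup ha hb

theorem apply_mem_negS (g : centralizer {z}) {x : Fin 8 → F} (hx : x ∈ negS z) :
    g.1.1 x ∈ negS z := by
  change z.1 _ = _
  rw [← LinearEquiv.mul_apply, ← coe_mul, g.2 z rfl, coe_mul, LinearEquiv.mul_apply,
    show z.1 x = -x from hx, map_neg]

/-- The action of the centralizer of `z` on the `-1` eigenspace. -/
def resW (z : AutO F) : centralizer {z} →* OG ((zN F).restrict (negS z)) where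
  toFun g := resOG (negS z) ⟨g.1.1, AutO_le g.1.2⟩ fun w =>
    ⟨fun h => by simpa using apply_mem_negS g⁻¹ h, apply_mem_negS g⟩
  map_one' := OG_ext fun _ => rfl
  map_mul' _ _ := OG_ext fun _ => rfl

theorem resW_apply (g : centralizer {z}) (w : negS z) : ((resW z g).1 w : Fin 8 → F) = g.1.1 w :=
  rfl

theorem resW_injective (h2 : (2 : F) ≠ 0) (hz : z * z = 1) (h1 : z ≠ 1) : Injective (resW z) := by
  rw [injective_iff_map_eq_one]
  intro g hg
  obtain ⟨v, hv, h0⟩ := exists_aniso h2 hz h1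
  have h3 : ∀ w ∈ negS z, g.1.1 w = w := fun w hw => by
    rw [← resW_apply g ⟨w, hw⟩, hg]; rfl
  ext1; ext1; ext1 x
  obtain ⟨a, ha, b, hb, rfl⟩ := exists_pos_neg h2 hz x
  have h4 : zM a v ∈ negS z := by
    change z.1 (zM a v) = -zM a v
    rw [z.2, show z.1 a = a from ha, show z.1 v = -v from hv, map_neg]
  have h5 : g.1.1 a = a := sub_eq_zero.1 (zM_eq_zero h2 hv h0 (by
    rw [map_sub, LinearMap.sub_apply, ← h3 _ h4, g.1.2, h3 v hv, sub_self]))
  rw [map_add, h5, h3 b hb]
  rfl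

theorem resW_ne_refl (h2 : (2 : F) ≠ 0) (hz : z * z = 1) (h1 : z ≠ 1) (g : centralizer {z})
    {v : negS z} (hv : (zN F).restrict (negS z) v ≠ 0) : resW z g ≠ refl _ v := fun hg => by
  have hW := nd_negS h2 hz
  have hG : Good ((zN F).restrict (negS z)) := good_of_two_ne_zero h2
  obtain ⟨b, hb, hε⟩ : ∃ b : Basis (Fin 4) F (negS z), OB ((zN F).restrict (negS z)) b ∧
      ∀ (_ : Unit) i, ∃ ε : ℤˣ, (refl ((zN F).restrict (negS z)) v).1 (b i) = ε • b i := by
    rw [← finrank_negS h2 hz h1]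
    exact hW.exists_OB h2 (g := fun _ : Unit => refl _ v) (fun _ _ => rfl) fun _ => refl_mul_self v
  choose ε hε using hε ()
  have h3 : ∏ i, ε i = -1 := by
    have h4 : (dickson hW hG).comp hb.sgns = sgnProd (Fin 4) := signs_hom_ext fun i => by
      rw [MonoidHom.comp_apply, hb.sgns_single, dickson_refl _ _ (hb.ne i)]
      fin_cases i <;> rfl
    rw [← dickson_refl hW hG hv, ← OG_ext_basis b fun i => (hb.sgns_apply ε i).trans (hε i).symm]
    exact (DFunLike.congr_fun h4 ε).symm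
  have hg' : ∀ i, g.1.1 (b i) = ((ε i : ℤ) : F) • (b i : Fin 8 → F) := fun i => by
    rw [← resW_apply, hg, hε, Int.cast_smul_eq_zsmul]; rfl
  have ht : ∀ i, polar (zN F) (zO F) (b i) = 0 := fun i => polar_pos_neg h2 (AutO_one z) (b i).2
  have ho : ∀ i j, i ≠ j → polar (zN F) (b i) (b j) = 0 := hb.orth
  have hw : zM (zM (b 0).1 (b 1).1) (b 2).1 ∈ negS z := by
    change z.1 _ = _
    rw [z.2, z.2, show z.1 (b 0) = _ from (b 0).2, show z.1 (b 1) = _ from (b 1).2,
      show z.1 (b 2) = _ from (b 2).2]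
    simp
  have h5 : polar (zN F) (zM (zM (b 0).1 (b 1).1) (b 2).1) (b 3) ≠ 0 := fun h => by
    have h6 : (⟨_, hw⟩ : negS z) = 0 := hW _ fun y => by
      have h7 : (polarBilin ((zN F).restrict (negS z))) ⟨_, hw⟩ = 0 := b.ext fun i => by
        change polar (zN F) (zM (zM (b 0).1 (b 1).1) (b 2).1) (b i) = 0
        fin_cases i
        · exact (polar_triple₁ _ _ _).trans (by rw [ht, ho 1 2 (by decide)]; ring)
        · exact (polar_triple₂ _ _ _).trans (by rw [ht, ho 0 2 (by decide), ho 0 1 (by decide)]; ring)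
        · exact (polar_triple₃ _ _ _).trans (by rw [ht, ho 0 1 (by decide)]; ring)
        · exact h
      exact DFunLike.congr_fun h7 y
    have h8 := congrArg (zN F) (congrArg Subtype.val h6)
    rw [zN_mul, zN_mul] at h8
    exact mul_ne_zero (mul_ne_zero (hb.ne 0) (hb.ne 1)) (hb.ne 2) (h8.trans (map_zero _))
  have h9 := OG_polar (⟨g.1.1, AutO_le g.1.2⟩ : OG (zN F)) (zM (zM (b 0).1 (b 1).1) (b 2).1) (b 3)
  dsimp only at h9
  rw [g.1.2, g.1.2, hg', hg', hg', hg'] at h9
  simp only [map_smul, LinearMap.smul_apply, polar_smul_left, polar_smul_right, smul_eq_mul] at h9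
  have h10 : ((ε 0 : ℤ) : F) * (ε 1 : ℤ) * (ε 2 : ℤ) * (ε 3 : ℤ) = -1 := by
    rw [Fin.prod_univ_four] at h3
    exact_mod_cast congrArg (fun u : ℤˣ => ((u : ℤ) : F)) h3
  refine mul_ne_zero h2 h5 ?_
  linear_combination (-1) * h9 + polar (zN F) (zM (zM (b 0).1 (b 1).1) (b 2).1) (b 3) * h10

end Cfsg.Agent.H8
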