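import Mathlib
import Cfsg.Agent.H5.Clifford3
import Cfsg.Agent.H9.EAMod
import Cfsg.Agent.H8.Basic

/-! Average dimension of fixed spaces of a solvable linear group, and degrees of primitive
characters versus class sizes. -/

set_option autoImplicit false
set_option linter.dupNamespace false

universe u v

namespace Cfsg.Agent.H8

open Module Subgroup LinearMap
open scoped commutatorElement

section lin
variable {K : Type*} [Field K]

theorem finrank_ker_le_add {V : Type*} [AddCommGroup V] [Module K V] [FiniteDimensional K V]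
    (W : Submodule K V) (f : End K V) (h : ∀ v ∈ W, f v ∈ W) :
    finrank K (ker f) ≤ finrank K (ker (f.restrict h)) + finrank K (ker (W.mapQ W f h)) := by
  let φ : ker f →ₗ[K] ker (W.mapQ W f h) := (W.mkQ.comp (ker f).subtype).codRestrict _ fun v => by
    simp [mem_ker.1 v.2]
  let ψ : ker φ →ₗ[K] ker (f.restrict h) := (((ker f).subtype.comp (ker φ).subtype).codRestrict W
    fun v => (Submodule.Quotient.mk_eq_zero W).1 (congrArg Subtype.val (mem_ker.1 v.2))).codRestrict
      _ fun v => Subtype.ext v.1.2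
  have h1 := φ.finrank_range_add_finrank_ker
  have h2 := Submodule.finrank_le (range φ)
  have h3 := ψ.finrank_le_finrank_of_injective fun a b h =>
    Subtype.ext (Subtype.ext (congrArg (fun x => x.1.1) h))
  omega

theorem finrank_add_le_of_disjoint {V : Type*} [AddCommGroup V] [Module K V]
    [FiniteDimensional K V] {A B : Submodule K V} (h : ∀ v ∈ A, v ∈ B → v = 0) :
    finrank K A + finrank K B ≤ finrank K V :=
  Submodule.finrank_add_finrank_le_of_disjoint (Submodule.disjoint_def.2 h)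

variable {M : Type*} [CommGroup M] [Fintype M]

theorem avg_fix_irr {V : Type*} [AddCommGroup V] [Module K V] [FiniteDimensional K V]
    (hM : (Fintype.card M : K) ≠ 0) (α : M ≃* M) (σ : M →* End K V) (f : End K V)
    (h0 : ∑ m, σ m = 0) (hf : ∀ m, f * σ m = σ (α m) * f)
    (hirr : ∀ W : Submodule K V, (∀ v ∈ W, f v ∈ W) → (∀ m, ∀ v ∈ W, σ m v ∈ W) →
      W = ⊥ ∨ W = ⊤) :
    2 * ∑ m, finrank K (ker (f * σ m - 1)) ≤ Fintype.card M * finrank K V := by
  classical
  rcases subsingleton_or_nontrivial V with hV | hV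
  · simp [finrank_zero_of_subsingleton]
  have hfv : ∀ m v, f (σ m v) = σ (α m) (f v) := fun m v => DFunLike.congr_fun (hf m) v
  have hσ : ∀ a b v, σ a (σ b v) = σ (a * b) v := fun a b v => by rw [map_mul]; rfl
  have hk : ∀ m v, v ∈ ker (f * σ m - 1) ↔ f (σ m v) = v := fun m v => by
    simp [sub_eq_zero]
  rcases hirr (ker f) (fun v hv => by simp [mem_ker.1 hv])
    (fun m v hv => by rw [mem_ker, hfv, mem_ker.1 hv, map_zero]) with hinj | hinj
  swap
  · have : ∀ m, ker (f * σ m - 1) = ⊥ := fun m => eq_bot_iff.2 fun v hv => by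
      rw [hk, ker_eq_top.1 hinj] at hv; exact hv.symm
    rw [Finset.sum_eq_zero fun m _ => by rw [this m, finrank_bot]]
    exact Nat.zero_le _
  replace hinj := ker_eq_bot.1 hinj
  let Fx : Subgroup M → Submodule K V := fun S => ⨅ m ∈ S, ker (σ m - 1)
  have hFx : ∀ S v, v ∈ Fx S ↔ ∀ m ∈ S, σ m v = v := fun S v => by
    simp [Fx, sub_eq_zero]
  let St : V → Subgroup M := fun v =>
    { carrier := {m | σ m v = v}
      mul_mem' := fun {a b} ha hb => by
        show σ (a * b) v = v
        rw [← hσ, show σ b v = v from hb, show σ a v = v from ha]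
      one_mem' := by simp
      inv_mem' := fun {a} ha => by
        show σ a⁻¹ v = v
        conv_lhs => rw [← show σ a v = v from ha, hσ]
        simp }
  have hFx' : ∀ S v, v ∈ Fx S ↔ S ≤ St v := hFx
  obtain ⟨S, hS, hmax⟩ := (wellFounded_gt (α := Subgroup M)).has_min {S | Fx S ≠ ⊥} ⟨⊥, by
    obtain ⟨v, hv⟩ := exists_ne (0 : V)
    exact (Submodule.ne_bot_iff _).2 ⟨v, (hFx' _ _).2 bot_le, hv⟩⟩
  have hmax' : ∀ v T, v ∈ Fx S → v ∈ Fx T → ¬ T ≤ S → v = 0 := fun v T h1 h2 h3 => by
    by_contra h4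
    exact hmax (S ⊔ T) ((Submodule.ne_bot_iff _).2
      ⟨v, (hFx' _ _).2 (sup_le ((hFx' _ _).1 h1) ((hFx' _ _).1 h2)), h4⟩)
      (left_lt_sup.2 h3)
  have hcard : ∀ T : Subgroup M, (Nat.card T : K) ≠ 0 := fun T h => hM (by
    rw [← Nat.card_eq_fintype_card, ← T.card_mul_index, Nat.cast_mul, h, zero_mul])
  have hfF : ∀ v ∈ Fx S, f v ∈ Fx (S.map α.toMonoidHom) := fun v hv => (hFx _ _).2 (by
    rintro _ ⟨m, hm, rfl⟩
    exact (hfv m v).symm.trans (congrArg f ((hFx _ _).1 hv m hm)))
  have hσF : ∀ m, ∀ v ∈ Fx S, σ m v ∈ Fx S := fun m v hv => (hFx _ _).2 fun a ha => by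
    rw [hσ, mul_comm, ← hσ, (hFx _ _).1 hv a ha]
  by_cases hα : S.map α.toMonoidHom ≤ S
  · have hα' : S.map α.toMonoidHom = S := eq_of_le_of_card_ge hα
      (card_map_of_injective α.injective).ge
    have h1 : Fx S = ⊤ := (hirr _ (fun v hv => hα' ▸ hfF v hv) hσF).resolve_left hS
    have h2 : S ≠ ⊤ := by
      rintro rfl
      obtain ⟨v, hv⟩ := exists_ne (0 : V)
      have h3 := DFunLike.congr_fun h0 v
      rw [LinearMap.sum_apply, Finset.sum_congr rfl fun m _ =>
        (hFx _ _).1 (h1 ▸ Submodule.mem_top (x := v)) m (mem_top m), Finset.sum_const,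
        ← Nat.cast_smul_eq_nsmul K] at h3
      exact hv ((smul_eq_zero.1 h3).resolve_left hM)
    obtain ⟨m, hm⟩ : ∃ m, m ∉ S := by
      by_contra! h; exact h2 (eq_top_iff.2 fun m _ => h m)
    rw [two_mul]
    nth_rw 2 [← Equiv.sum_comp (Equiv.mulRight m)]
    rw [← Finset.sum_add_distrib, ← smul_eq_mul, ← Finset.card_univ]
    refine Finset.sum_le_card_nsmul _ _ _ fun a _ => finrank_add_le_of_disjoint fun v h3 h4 => ?_
    rw [hk] at h3 h4
    have h5 : σ m v = v := by
      have := congrArg (σ a⁻¹) (hinj (h4.trans h3.symm))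
      rwa [hσ, hσ, Equiv.coe_mulRight, inv_mul_cancel_left, inv_mul_cancel, map_one] at this
    exact hmax' v (zpowers m) (h1 ▸ Submodule.mem_top) ((hFx' _ _).2 (zpowers_le.2 h5))
      (fun h => hm (h (mem_zpowers m)))
  let E : End K V := ∑ m : S, σ m
  have hE : ∀ m, E * σ m = σ m * E := fun m => by
    simp only [E, Finset.sum_mul, Finset.mul_sum, ← map_mul, mul_comm]
  have hE1 : ∀ v ∈ Fx S, E v = (Nat.card S : K) • v := fun v hv => by
    rw [LinearMap.sum_apply, Finset.sum_congr rfl fun (m : S) _ => (hFx _ _).1 hv m m.2,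
      Finset.sum_const, Nat.cast_smul_eq_nsmul, Nat.card_eq_fintype_card, Finset.card_univ]
  have hE2 : range E ≤ Fx S := by
    rintro _ ⟨v, rfl⟩
    refine (hFx _ _).2 fun a ha => ?_
    simp only [E, LinearMap.sum_apply, map_sum, hσ]
    exact Equiv.sum_comp (Equiv.mulLeft (⟨a, ha⟩ : S)) fun m : S => σ m v
  have h1 : 2 * finrank K (Fx S) ≤ finrank K V := by
    have := finrank_add_le_of_disjoint (A := Fx S) (B := (Fx S).map f) (by
      rintro _ h1 ⟨v, hv, rfl⟩
      exact hmax' _ _ h1 (hfF v hv) hα)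
    rw [← (Submodule.equivMapOfInjective f hinj _).finrank_eq] at this
    omega
  have hpow : ∀ (i : ℕ) m, ∃ m', f ^ i * σ m = σ m' * f ^ i := fun i => by
    induction i with
    | zero => exact fun m => ⟨m, by simp⟩
    | succ i ih =>
      intro m
      obtain ⟨m', h⟩ := ih (α m)
      exact ⟨m', by rw [pow_succ, mul_assoc, hf, ← mul_assoc, h, mul_assoc]⟩
  have hU : (⨅ i : ℕ, ker (E * f ^ i)) = ⊥ := by
    refine (hirr _ (fun v hv => ?_) fun m v hv => ?_).resolve_right fun h => ?_
    · simp only [Submodule.mem_iInf, mem_ker] at hv ⊢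
      exact fun i => by simpa [pow_succ] using hv (i + 1)
    · simp only [Submodule.mem_iInf, mem_ker] at hv ⊢
      intro i
      obtain ⟨m', h⟩ := hpow i m
      rw [← End.mul_apply, mul_assoc, h, ← mul_assoc, hE, mul_assoc, End.mul_apply, hv, map_zero]
    · obtain ⟨v, hv, hv0⟩ := (Submodule.ne_bot_iff _).1 hS
      have := (Submodule.mem_iInf _).1 (h ▸ Submodule.mem_top (x := v)) 0
      rw [pow_zero, mul_one, mem_ker, hE1 v hv] at this
      exact hv0 ((smul_eq_zero.1 this).resolve_left (hcard S))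
  rw [Finset.mul_sum, ← smul_eq_mul, ← Finset.card_univ]
  refine Finset.sum_le_card_nsmul _ _ _ fun a _ => ?_
  have h2 := finrank_add_le_of_disjoint (A := ker (f * σ a - 1)) (B := ker E) fun v h2 h3 => by
    rw [hk, hfv] at h2
    have h4 : f v = σ (α a)⁻¹ v := by
      conv_rhs => rw [← h2, hσ]
      simp
    have h5 : ∀ i : ℕ, ∃ m, (f ^ i) v = σ m v := fun i => by
      induction i with
      | zero => exact ⟨1, by simp⟩
      | succ i ih =>
        obtain ⟨m, h⟩ := ih
        exact ⟨_, by rw [pow_succ', End.mul_apply, h, hfv, h4, hσ]⟩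
    rw [← Submodule.mem_bot K, ← hU, Submodule.mem_iInf]
    intro i
    obtain ⟨m, h⟩ := h5 i
    rw [mem_ker, End.mul_apply, h, ← End.mul_apply, hE, End.mul_apply, mem_ker.1 h3, map_zero]
  have h3 := E.finrank_range_add_finrank_ker
  have h4 := Submodule.finrank_mono hE2
  omega

theorem avg_fix (hM : (Fintype.card M : K) ≠ 0) (α : M ≃* M) (n : ℕ) :
    ∀ (V : Type v) [AddCommGroup V] [Module K V] [FiniteDimensional K V] (σ : M →* End K V)
      (f : End K V), finrank K V = n → ∑ m, σ m = 0 → (∀ m, f * σ m = σ (α m) * f) →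
      2 * ∑ m, finrank K (ker (f * σ m - 1)) ≤ Fintype.card M * finrank K V := by
  induction n using Nat.strong_induction_on with
  | _ n ih =>
  intro V _ _ _ σ f hn h0 hf
  by_cases hirr : ∀ W : Submodule K V, (∀ v ∈ W, f v ∈ W) → (∀ m, ∀ v ∈ W, σ m v ∈ W) →
      W = ⊥ ∨ W = ⊤
  · exact avg_fix_irr hM α σ f h0 hf hirr
  push Not at hirr
  obtain ⟨W, h1, h2, h3, h4⟩ := hirr
  let σ₁ : M →* End K W :=
    { toFun m := (σ m).restrict (h2 m)
      map_one' := by ext; simp
      map_mul' _ _ := by ext; simp }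
  let σ₂ : M →* End K (V ⧸ W) :=
    { toFun m := W.mapQ W (σ m) (h2 m)
      map_one' := by ext; simp
      map_mul' _ _ := by ext; simp }
  have h5 := W.finrank_quotient_add_finrank
  have h6 := Submodule.finrank_lt h4
  have h7 : finrank K W ≠ 0 := fun h => h3 (Submodule.finrank_eq_zero.1 h)
  have k1 := ih _ (hn ▸ h6) W σ₁ (f.restrict h1) rfl (by
    ext v; simpa [σ₁] using DFunLike.congr_fun h0 v.1) fun m => by
    ext v; exact DFunLike.congr_fun (hf m) v.1
  have k2 := ih _ (by omega) (V ⧸ W) σ₂ (W.mapQ W f h1) rfl (by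
    ext v
    have := congrArg W.mkQ (DFunLike.congr_fun h0 v)
    simpa [σ₂] using this) fun m => by
    ext v; exact congrArg W.mkQ (DFunLike.congr_fun (hf m) v)
  have k3 : ∑ m, finrank K (ker (f * σ m - 1)) ≤ ∑ m, (finrank K (ker (f.restrict h1 * σ₁ m - 1))
      + finrank K (ker (W.mapQ W f h1 * σ₂ m - 1))) := Finset.sum_le_sum fun m _ => by
    have := finrank_ker_le_add W (f * σ m - 1) fun v hv => W.sub_mem (h1 _ (h2 m v hv)) hv
    rwa [show (f * σ m - 1).restrict _ = f.restrict h1 * σ₁ m - 1 from by ext; rfl,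
      show W.mapQ W (f * σ m - 1) _ = W.mapQ W f h1 * σ₂ m - 1 from by ext; rfl] at this
  rw [Finset.sum_add_distrib] at k3
  rw [← h5, mul_add]
  omega

end lin

theorem avg_fix_solvable {G : Type*} [Group G] [Fintype G] [Group.IsSolvable G] {p : ℕ}
    [hp : Fact p.Prime] {V : Type*} [AddCommGroup V] [Module (ZMod p) V] [Finite V]
    (ρ : G →* End (ZMod p) V) (h1 : ρ.ker ≠ ⊤)
    (hirr : ∀ W : Submodule (ZMod p) V, (∀ g, ∀ v ∈ W, ρ g v ∈ W) → W = ⊥ ∨ W = ⊤) :
    2 * ∑ g, finrank (ZMod p) (ker (ρ g - 1)) ≤ Fintype.card G * finrank (ZMod p) V := by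
  classical
  let σ : G ⧸ ρ.ker →* End (ZMod p) V := QuotientGroup.lift _ ρ fun _ h => h
  have hσ : Function.Injective σ := (injective_iff_map_eq_one σ).2 fun x hx => by
    obtain ⟨x, rfl⟩ := QuotientGroup.mk_surjective x
    exact (QuotientGroup.eq_one_iff x).2 hx
  haveI : Nontrivial (G ⧸ ρ.ker) := QuotientGroup.nontrivial_iff.2 h1
  obtain ⟨M, hM, hc, q, hq, hqM⟩ := H2.exists_isMinNormal_of_isSolvable (G := G ⧸ ρ.ker)
  haveI := hM.normal
  haveI := Fact.mk hq
  haveI : Fintype M := Fintype.ofFinite M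
  have hm : ∀ a b v, σ a (σ b v) = σ (a * b) v := fun a b v => by rw [map_mul]; rfl
  have hfix : ∀ v : V, (∀ m : M, σ m v = v) → v = 0 := fun v hv => by
    rcases hirr (⨅ m : M, ker (σ m - 1)) (fun g v hv => by
      simp only [Submodule.mem_iInf, mem_ker, LinearMap.sub_apply, End.one_apply, sub_eq_zero] at hv ⊢
      intro m
      have := congrArg (σ g) (hv ⟨(g : G ⧸ ρ.ker)⁻¹ * m * (g : G ⧸ ρ.ker)⁻¹⁻¹,
        hM.normal.conj_mem _ m.2 _⟩)
      simp only [hm, inv_inv, mul_assoc, mul_inv_cancel_left] at this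
      rwa [← hm] at this) with h | h
    · rw [← Submodule.mem_bot (ZMod p), ← h]
      simpa [sub_eq_zero] using hv
    · refine absurd (eq_bot_iff.2 fun m hm => hσ (LinearMap.ext fun w => ?_)) hM.ne_bot
      have := (Submodule.mem_iInf _).1 (h ▸ Submodule.mem_top (x := w)) ⟨m, hm⟩
      rw [mem_ker, LinearMap.sub_apply, sub_eq_zero] at this
      rw [map_one]; exact this
  have hqp : (Fintype.card M : ZMod p) ≠ 0 := fun h => by
    obtain ⟨k, hk⟩ := hqM.exists_card_eq
    rw [← Nat.card_eq_fintype_card, hk, ZMod.natCast_eq_zero_iff] at h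
    obtain rfl := (Nat.prime_dvd_prime_iff_eq hp.out hq).1 (hp.out.dvd_of_dvd_pow h)
    letI : MulAction M V :=
      { smul m v := σ m v
        one_smul v := DFunLike.congr_fun (map_one σ) v
        mul_smul a b v := (hm a b v).symm }
    haveI : Nontrivial V := not_subsingleton_iff_nontrivial.1 fun _ =>
      h1 (eq_top_iff.2 fun g _ => Subsingleton.elim _ _)
    obtain ⟨v, hv, h0⟩ := hqM.exists_fixed_point_of_prime_dvd_card_of_fixed_point V
      (by rw [Module.natCard_eq_pow_finrank (K := ZMod p), Nat.card_zmod]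
          exact dvd_pow_self _ finrank_pos.ne') (a := 0) fun m => map_zero (σ m)
    exact h0 (hfix v hv).symm
  letI : CommGroup M := { (inferInstance : Group M) with mul_comm := hc.1.1 }
  have key := fun g : G => avg_fix hqp (MulAut.conjNormal (g : G ⧸ ρ.ker)) _ V (σ.comp M.subtype)
    (ρ g) rfl (LinearMap.ext fun v => hfix _ fun a => by
      simp only [LinearMap.sum_apply, map_sum, MonoidHom.comp_apply, hm]
      exact Equiv.sum_comp (Equiv.mulLeft a) fun m : M => σ m v) fun m => by
    show σ g * σ m = σ (g * m * (g : G ⧸ ρ.ker)⁻¹) * σ g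
    rw [← map_mul, ← map_mul, inv_mul_cancel_right]
  have h2 := Finset.sum_le_card_nsmul Finset.univ _ _ fun g _ => key g
  rw [← Finset.mul_sum, Finset.sum_comm, Finset.sum_congr rfl (g := fun _ =>
    ∑ g, finrank (ZMod p) (ker (ρ g - 1))) fun m _ => ?_, Finset.sum_const, Finset.card_univ,
    Finset.card_univ, smul_eq_mul, smul_eq_mul] at h2
  · refine Nat.le_of_mul_le_mul_left ?_ (Fintype.card_pos (α := M))
    linarith
  obtain ⟨x, hx⟩ := QuotientGroup.mk_surjective m.1
  rw [← Equiv.sum_comp (Equiv.mulRight x) fun g => finrank (ZMod p) (ker (ρ g - 1))]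
  refine Finset.sum_congr rfl fun g _ => ?_
  rw [Equiv.coe_mulRight, map_mul, show ρ x = (σ.comp M.subtype) m from congrArg σ hx]

theorem relIndex_ne_zero_of_finite {G : Type*} [Group G] [Finite G] {H K : Subgroup G} :
    H.relIndex K ≠ 0 := index_ne_zero_of_finite

theorem relIndex_dvd_relIndex_of_normal {G : Type*} [Group G] [Finite G] (C : Subgroup G)
    {L T : Subgroup G} [L.Normal] (h : L ≤ T) : C.relIndex L ∣ C.relIndex T := by
  have h1 := relIndex_mul_relIndex (C ⊓ L) (C ⊓ T) T (inf_le_inf_left C h) inf_le_right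
  have h2 := relIndex_mul_relIndex (C ⊓ L) L T inf_le_right h
  obtain ⟨k, h3⟩ := relIndex_dvd_index_of_normal (L.subgroupOf T) ((C ⊓ T).subgroupOf T)
  rw [relIndex_subgroupOf inf_le_right] at h3
  rw [show C ⊓ L = L ⊓ (C ⊓ T) by rw [inf_left_comm, inf_eq_left.2 h], inf_relIndex_right,
    inf_relIndex_right] at h1
  rw [inf_relIndex_right, show L.relIndex T = _ from h3,
    show C ⊓ L = L ⊓ (C ⊓ T) by rw [inf_left_comm, inf_eq_left.2 h], ← h1] at h2
  refine ⟨k, Nat.eq_of_mul_eq_mul_left (Nat.pos_of_ne_zero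
    (relIndex_ne_zero_of_finite (H := L) (K := C ⊓ T))) ?_⟩
  rw [← h2]; ring

theorem avg_relIndex {G Q : Type*} [Group G] [Fintype G] [Group.IsSolvable G] [Group Q] [Finite Q]
    (π : G →* Q) (hπ : Function.Surjective π) {V : Subgroup Q} (hV : H2.IsMinNormal V)
    (hsq : IsSquare (Nat.card V)) {p : ℕ} [hp : Fact p.Prime] :
    Fintype.card G * (Nat.card V).factorization p ≤
      2 * ∑ g, ((centralizer {π g}).relIndex V).factorization p := by
  haveI := hV.normal
  haveI := Group.isSolvable_of_surjective hπ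
  obtain ⟨hc, q, hq, hqV⟩ := hV.exists_prime_of_isSolvable inferInstance
  haveI := Fact.mk hq
  by_cases hpq : p = q
  swap
  · obtain ⟨k, hk⟩ := (H2.isPGroup_of_forall_pow_eq_one hqV).exists_card_eq
    rw [hk, hq.factorization_pow, Finsupp.single_eq_of_ne hpq]
    exact Nat.zero_le _
  subst hpq
  have hE : IsElementaryAbelian p V := ⟨hc, hqV⟩
  let ρ : G →* End (ZMod p) (H9.EAMod hE) :=
    (H9.eaRep hE (H := ⊤) le_normalizer_of_normal).comp (π.codRestrict ⊤ fun _ => mem_top _)
  have hρ : ∀ g v, (ρ g v).val = π g * v.val * (π g)⁻¹ := fun _ _ => rfl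
  have hcard : ∀ W : Submodule (ZMod p) (H9.EAMod hE), Nat.card W = p ^ finrank (ZMod p) W :=
    fun W => by rw [Module.natCard_eq_pow_finrank (K := ZMod p), Nat.card_zmod]
  have hcV : Nat.card V = p ^ finrank (ZMod p) (H9.EAMod hE) := by
    rw [← H9.EAMod.card_eq (hV := hE), Module.natCard_eq_pow_finrank (K := ZMod p), Nat.card_zmod]
  have key := avg_fix_solvable ρ (fun h => by
    obtain ⟨x, hx, h1⟩ := (ne_bot_iff_exists_ne_one.1 hV.ne_bot).imp fun x h => And.intro x.2 h
    have h2 : zpowers (x : Q) = V := hV.eq_of_le ⟨by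
      rintro _ ⟨k, rfl⟩ y
      obtain ⟨g, rfl⟩ := hπ y
      have := hρ g (H9.EAMod.mk hE x hx)
      rw [show ρ g = 1 from (h ▸ mem_top g : g ∈ ρ.ker)] at this
      exact ⟨k, by rw [← conj_zpow, ← show (x : Q) = π g * x * (π g)⁻¹ from this]⟩⟩
      (zpowers_le.2 hx) (by simpa using h1)
    rw [← h2, Nat.card_zpowers, orderOf_eq_prime (hqV _ hx) (by simpa using h1)] at hsq
    exact hq.not_isSquare hsq) fun W hW => by
    rcases hV.min (H9.EAMod.toSubgroup W) ⟨by
      rintro _ ⟨v, hv, rfl⟩ y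
      obtain ⟨g, rfl⟩ := hπ y
      exact ⟨_, hW g v hv, hρ g v⟩⟩ (H9.EAMod.toSubgroup_le W) with h | h
    · exact .inl (eq_bot_iff.2 fun v hv => H9.EAMod.val_eq_one_iff.1
        (mem_bot.1 (h ▸ H9.EAMod.val_mem_toSubgroup.2 hv)))
    · exact .inr (eq_top_iff.2 fun v _ => H9.EAMod.val_mem_toSubgroup.1 (h.symm ▸ v.val_mem))
  have h3 : ∀ g, ((centralizer {π g}).relIndex V).factorization p +
      finrank (ZMod p) (ker (ρ g - 1)) = finrank (ZMod p) (H9.EAMod hE) := fun g => by
    have h4 : ker (ρ g - 1) = H9.EAMod.ofSubgroup hE (centralizer {π g} ⊓ V) := by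
      ext v
      rw [mem_ker, LinearMap.sub_apply, sub_eq_zero, ← H9.EAMod.val_injective.eq_iff, hρ,
        H9.EAMod.mem_ofSubgroup, mem_inf, mem_centralizer_singleton_iff, mul_inv_eq_iff_eq_mul]
      exact ⟨fun h => ⟨h.symm, v.val_mem⟩, fun h => h.1.symm⟩
    have h5 := hcard (ker (ρ g - 1))
    have h6 := ((centralizer {π g}).subgroupOf V).index_mul_card
    rw [← inf_subgroupOf_right, Nat.card_congr (subgroupOfEquivOfLe inf_le_right).toEquiv,
      ← H9.EAMod.card_ofSubgroup (hV := hE) inf_le_right, ← h4, h5, hcV,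
      inf_subgroupOf_right] at h6
    have h7 := congrArg (fun n => n.factorization p) h6
    simp only [Nat.factorization_mul index_ne_zero_of_finite (pow_ne_zero _ hq.ne_zero),
      hq.factorization_pow, Finsupp.add_apply, Finsupp.single_eq_same] at h7
    exact h7
  have h8 := Finset.sum_congr (s₁ := Finset.univ) rfl fun g _ => h3 g
  rw [Finset.sum_add_distrib, Finset.sum_const, Finset.card_univ, smul_eq_mul] at h8
  rw [hcV, hq.factorization_pow, Finsupp.single_eq_same]
  omega

open H4 H5 in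
theorem avg_class_primitive {G : Type*} [Group G] [Fintype G] [Group.IsSolvable G] {χ : G → ℂ}
    (hχ : IsIrrCharacter G χ) (hprim : ∀ (H : Subgroup G) (θ : H → ℂ), IsCharacter H θ →
      indFun H θ = χ → H = ⊤) {p : ℕ} [hp : Fact p.Prime] (K : Subgroup G) :
    ∀ [K.Normal] [Fintype K] (θ : K → ℂ), IsIrrCharacter K θ →
      classInner (fun k : K => χ k) θ ≠ 0 → Fintype.card G * (charDegree θ).factorization p ≤
        ∑ g : G, ((centralizer {g}).relIndex K).factorization p := by
  induction K using WellFoundedLT.induction with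
  | _ K ih =>
  intro _ _ θ hθ h1
  have hinv : ∀ (N : Subgroup G) [N.Normal] [Fintype N] (φ : N → ℂ), IsIrrCharacter N φ →
      classInner (fun k : N => χ k) φ ≠ 0 → ∀ g n, φ ((NEmb.ofNormal N).act g n) = φ n :=
    fun N _ _ φ hφ h => (NEmb.inertia_eq_top_iff _).1 (by
      by_contra h2
      obtain ⟨T, h3, -, ψ, h4, h5⟩ :=
        (NEmb.ofNormal N).exists_indFun_of_not_invariant hχ hφ h h2
      exact h3 (hprim T ψ h4.isCharacter h5))
  rcases eq_or_ne K ⊥ with rfl | hK
  · rw [charDegree_eq_of_apply_one (n := 1) (by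
      simpa using degree_eq_one_of_comm (fun _ _ => Subsingleton.elim _ _) hθ)]
    simp
  obtain ⟨L, hL, -, hLK, hch⟩ := exists_chief_below (bot_lt_iff_ne_bot.2 hK)
  haveI : Fintype L := Fintype.ofFinite L
  obtain ⟨φ, hφ, h2⟩ := exists_irr_under_hom (inclusion hLK.le) hθ
  have h3 : classInner (fun k : L => χ k) φ ≠ 0 := inner_comp_ne_zero_of_constituent
    (inclusion hLK.le) (hχ.isCharacter.comp K.subtype) hθ h1 hφ.isCharacter h2
  have h4 := ih L hLK φ hφ h3
  have h5 : ∀ g : G, ((centralizer {g}).relIndex L).factorization p +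
      ((centralizer {QuotientGroup.mk' L g}).relIndex
        (K.map (QuotientGroup.mk' L))).factorization p ≤
      ((centralizer {g}).relIndex K).factorization p := fun g => by
    rw [← relIndex_comap, ← Finsupp.add_apply,
      ← Nat.factorization_mul relIndex_ne_zero_of_finite relIndex_ne_zero_of_finite]
    refine Nat.factorization_le_factorization_of_dvd_right ?_
      (mul_ne_zero relIndex_ne_zero_of_finite relIndex_ne_zero_of_finite)
      relIndex_ne_zero_of_finite
    set D := (centralizer {QuotientGroup.mk' L g}).comap (QuotientGroup.mk' L)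
    have k1 : centralizer {g} ≤ D := fun x hx => mem_centralizer_singleton_iff.2 (by
      rw [← map_mul, ← map_mul, mem_centralizer_singleton_iff.1 hx])
    have k2 : L ≤ D := fun x hx => by
      show (x : G ⧸ L) ∈ centralizer {QuotientGroup.mk' L g}
      rw [(QuotientGroup.eq_one_iff x).2 hx]; exact one_mem _
    rw [← inf_relIndex_right D K, ← inf_relIndex_right (centralizer {g}) K, ← relIndex_mul_relIndex _ (D ⊓ K) K
      (inf_le_inf_right K k1) inf_le_right]
    refine Nat.mul_dvd_mul_right ?_ _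
    rw [← inf_relIndex_right, show centralizer {g} ⊓ L = centralizer {g} ⊓ K ⊓ L by
      rw [inf_assoc, inf_eq_right.2 hLK.le], inf_relIndex_right]
    exact relIndex_dvd_relIndex_of_normal _ (le_inf k2 hLK.le)
  have h6 := Finset.sum_le_sum (s := Finset.univ) fun g _ => h5 g
  rw [Finset.sum_add_distrib] at h6
  have hd := coe_charDegree hφ.isCharacter
  rcases going_down_sub K L hLK.le hch (commutator_le_of_chief (N := ⊥) inferInstance bot_le hLK
    hch) hθ (hinv K θ hθ h1) hφ h2 with h | ⟨e, h, he⟩ | ⟨h, -⟩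
  · rw [charDegree_eq_of_apply_one ((h 1).trans hd.symm)]
    omega
  · have h7 : Nat.card (K.map (QuotientGroup.mk' L)) = e ^ 2 := by
      rw [he, ← relIndex_bot_left, ← relIndex_comap, MonoidHom.comap_bot, QuotientGroup.ker_mk']
    have he0 : e ≠ 0 := by
      rintro rfl; exact relIndex_ne_zero_of_finite (he.symm.trans rfl)
    have h8 := avg_relIndex (p := p) (QuotientGroup.mk' L) (QuotientGroup.mk'_surjective L)
      (V := K.map (QuotientGroup.mk' L)) ⟨inferInstance, fun h => hLK.not_ge (by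
        rwa [Subgroup.map_eq_bot_iff, QuotientGroup.ker_mk'] at h), fun M hM h => by
        rcases hch (M.comap (QuotientGroup.mk' L)) (hM.comap _) (fun x hx => by
          show (x : G ⧸ L) ∈ M
          rw [(QuotientGroup.eq_one_iff x).2 hx]; exact one_mem _)
          ((comap_mono h).trans (by
            rw [comap_map_eq, QuotientGroup.ker_mk', sup_eq_left.2 hLK.le])) with h | h
        · exact .inl (comap_injective (QuotientGroup.mk'_surjective L) (by
            rw [h, MonoidHom.comap_bot, QuotientGroup.ker_mk']))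
        · exact .inr (by
            rw [← h, map_comap_eq_self_of_surjective (QuotientGroup.mk'_surjective L)])⟩
      ⟨e, h7.trans (sq e)⟩
    rw [charDegree_eq_of_apply_one (n := e * charDegree φ) (by
      rw [Nat.cast_mul, hd]; exact h 1), Nat.factorization_mul he0
        (show charDegree φ ≠ 0 from irr_charDegree_ne_zero ⟨φ, hφ⟩), Finsupp.add_apply, mul_add]
    rw [h7, Nat.factorization_pow, Finsupp.smul_apply, smul_eq_mul, mul_left_comm] at h8
    omega
  · refine absurd (fun k hk => ?_) hLK.not_ge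
    have : (⟨k, hk⟩ : K) ∈ (NEmb.ofLeNormal hLK.le).inertia φ := fun n => hinv L φ hφ h3 k n
    rwa [h] at this

open H4 H5 in
theorem exists_class_primitive {G : Type*} [Group G] [Fintype G] [Group.IsSolvable G] {χ : G → ℂ}
    (hχ : IsIrrCharacter G χ) (hprim : ∀ (H : Subgroup G) (θ : H → ℂ), IsCharacter H θ →
      indFun H θ = χ → H = ⊤) (p : ℕ) [hp : Fact p.Prime] :
    ∃ g : G, (charDegree χ).factorization p ≤ (centralizer {g}).index.factorization p := by
  classical
  have h1 : IsIrrCharacter (⊤ : Subgroup G) fun k => χ k := hχ.comp_equiv topEquiv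
  have h2 := avg_class_primitive (p := p) hχ hprim ⊤ _ h1 (by rw [h1.classInner_self]; simp)
  by_contra! h
  refine h2.not_gt ?_
  rw [← smul_eq_mul, ← Finset.card_univ, ← Finset.sum_const]
  exact Finset.sum_lt_sum_of_nonempty Finset.univ_nonempty fun g _ => by
    rw [relIndex_top_right]; exact h g

end Cfsg.Agent.H8
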