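import Cfsg.Agent.H8.AvgFix
import Cfsg.Agent.H1.Cores
import Cfsg.Agent.H8.Deg1

/-! Primitive characters of metanilpotent groups whose order has two prime divisors. -/

set_option autoImplicit false
set_option linter.dupNamespace false

namespace Cfsg.Agent.H8

open Subgroup
open scoped commutatorElement

open H4 H5 in
theorem avg_class_primitive' {G : Type*} [Group G] [Fintype G] [Group.IsSolvable G] {χ : G → ℂ}
    (hχ : IsIrrCharacter G χ) (hprim : ∀ (H : Subgroup G) (θ : H → ℂ), IsCharacter H θ →
      indFun H θ = χ → H = ⊤) {p : ℕ} [hp : Fact p.Prime] (A : Subgroup G)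
    (hA : ∀ (L : Subgroup G) [L.Normal] (V : Subgroup (G ⧸ L)), H2.IsMinNormal V →
      p ∣ Nat.card V → ∀ a ∈ A, QuotientGroup.mk' L a ∈ centralizer (V : Set (G ⧸ L)))
    (K : Subgroup G) :
    ∀ [K.Normal] [Fintype K] (θ : K → ℂ), IsIrrCharacter K θ →
      classInner (fun k : K => χ k) θ ≠ 0 → ∃ d : G → ℕ, (∀ g, ∀ a ∈ A, d (g * a) = d g) ∧
        Fintype.card G * (charDegree θ).factorization p ≤ ∑ g, d g ∧
        ∀ g, d g ≤ ((centralizer {g}).relIndex K).factorization p := by
  induction K using WellFoundedLT.induction with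
  | _ K ih =>
  intro _ _ θ hθ h1
  have hinv : ∀ (N : Subgroup G) [N.Normal] [Fintype N] (φ : N → ℂ), IsIrrCharacter N φ →
      classInner (fun k : N => χ k) φ ≠ 0 → ∀ g n, φ ((NEmb.ofNormal N).act g n) = φ n :=
    fun N _ _ φ hφ h => (NEmb.inertia_eq_top_iff _).1 (by
      by_contra h2
      obtain ⟨T, h3, -, ψ, h4, h5⟩ :=
        (NEmb.ofNormal N).exists_indFun_of_not_invariant hχ hφ h h2
      exact h3 (hprim T ψ h4.isCharacter h5))
  rcases eq_or_ne K ⊥ with rfl | hK
  · rw [charDegree_eq_of_apply_one (n := 1) (by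
      simpa using degree_eq_one_of_comm (fun _ _ => Subsingleton.elim _ _) hθ)]
    exact ⟨0, by simp⟩
  obtain ⟨L, hL, -, hLK, hch⟩ := exists_chief_below (bot_lt_iff_ne_bot.2 hK)
  haveI : Fintype L := Fintype.ofFinite L
  obtain ⟨φ, hφ, h2⟩ := exists_irr_under_hom (inclusion hLK.le) hθ
  have h3 : classInner (fun k : L => χ k) φ ≠ 0 := inner_comp_ne_zero_of_constituent
    (inclusion hLK.le) (hχ.isCharacter.comp K.subtype) hθ h1 hφ.isCharacter h2
  obtain ⟨d, hd1, h4, hd2⟩ := ih L hLK φ hφ h3
  have h5 : ∀ g : G, ((centralizer {g}).relIndex L).factorization p +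
      ((centralizer {QuotientGroup.mk' L g}).relIndex
        (K.map (QuotientGroup.mk' L))).factorization p ≤
      ((centralizer {g}).relIndex K).factorization p := fun g => by
    rw [← relIndex_comap, ← Finsupp.add_apply,
      ← Nat.factorization_mul relIndex_ne_zero_of_finite relIndex_ne_zero_of_finite]
    refine Nat.factorization_le_factorization_of_dvd_right ?_
      (mul_ne_zero relIndex_ne_zero_of_finite relIndex_ne_zero_of_finite)
      relIndex_ne_zero_of_finite
    set D := (centralizer {QuotientGroup.mk' L g}).comap (QuotientGroup.mk' L)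
    have k1 : centralizer {g} ≤ D := fun x hx => mem_centralizer_singleton_iff.2 (by
      rw [← map_mul, ← map_mul, mem_centralizer_singleton_iff.1 hx])
    have k2 : L ≤ D := fun x hx => by
      show (x : G ⧸ L) ∈ centralizer {QuotientGroup.mk' L g}
      rw [(QuotientGroup.eq_one_iff x).2 hx]; exact one_mem _
    rw [← inf_relIndex_right D K, ← inf_relIndex_right (centralizer {g}) K, ← relIndex_mul_relIndex _ (D ⊓ K) K
      (inf_le_inf_right K k1) inf_le_right]
    refine Nat.mul_dvd_mul_right ?_ _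
    rw [← inf_relIndex_right, show centralizer {g} ⊓ L = centralizer {g} ⊓ K ⊓ L by
      rw [inf_assoc, inf_eq_right.2 hLK.le], inf_relIndex_right]
    exact relIndex_dvd_relIndex_of_normal _ (le_inf k2 hLK.le)
  have hd := coe_charDegree hφ.isCharacter
  rcases going_down_sub K L hLK.le hch (commutator_le_of_chief (N := ⊥) inferInstance bot_le hLK
    hch) hθ (hinv K θ hθ h1) hφ h2 with h | ⟨e, h, he⟩ | ⟨h, -⟩
  · rw [charDegree_eq_of_apply_one ((h 1).trans hd.symm)]
    exact ⟨d, hd1, h4, fun g => by have := h5 g; have := hd2 g; omega⟩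
  · have h7 : Nat.card (K.map (QuotientGroup.mk' L)) = e ^ 2 := by
      rw [he, ← relIndex_bot_left, ← relIndex_comap, MonoidHom.comap_bot, QuotientGroup.ker_mk']
    have he0 : e ≠ 0 := by
      rintro rfl; exact relIndex_ne_zero_of_finite (he.symm.trans rfl)
    have hV : H2.IsMinNormal (K.map (QuotientGroup.mk' L)) := ⟨inferInstance, fun h => hLK.not_ge (by
        rwa [Subgroup.map_eq_bot_iff, QuotientGroup.ker_mk'] at h), fun M hM h => by
        rcases hch (M.comap (QuotientGroup.mk' L)) (hM.comap _) (fun x hx => by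
          show (x : G ⧸ L) ∈ M
          rw [(QuotientGroup.eq_one_iff x).2 hx]; exact one_mem _)
          ((comap_mono h).trans (by
            rw [comap_map_eq, QuotientGroup.ker_mk', sup_eq_left.2 hLK.le])) with h | h
        · exact .inl (comap_injective (QuotientGroup.mk'_surjective L) (by
            rw [h, MonoidHom.comap_bot, QuotientGroup.ker_mk']))
        · exact .inr (by
            rw [← h, map_comap_eq_self_of_surjective (QuotientGroup.mk'_surjective L)])⟩
    have h8 := avg_relIndex (p := p) (QuotientGroup.mk' L) (QuotientGroup.mk'_surjective L) hV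
      ⟨e, h7.trans (sq e)⟩
    refine ⟨fun g => d g + ((centralizer {QuotientGroup.mk' L g}).relIndex
      (K.map (QuotientGroup.mk' L))).factorization p, fun g a ha => ?_, ?_,
      fun g => by have := h5 g; have := hd2 g; dsimp only; omega⟩
    · dsimp only
      rw [hd1 g a ha]
      congr 1
      by_cases hpV : p ∣ Nat.card (K.map (QuotientGroup.mk' L))
      · rw [← inf_relIndex_right, ← inf_relIndex_right (centralizer {QuotientGroup.mk' L g})]
        congr 3
        ext v
        refine and_congr_left fun hv => ?_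
        refine mem_centralizer_singleton_iff.trans (Iff.trans ?_ mem_centralizer_singleton_iff.symm)
        rw [map_mul, mul_assoc, ← hA L _ hV hpV a ha v hv, ← mul_assoc, ← mul_assoc, mul_left_inj]
      · rw [Nat.factorization_eq_zero_of_not_dvd fun h => hpV (h.trans (relIndex_dvd_card _ _)),
          Nat.factorization_eq_zero_of_not_dvd fun h => hpV (h.trans (relIndex_dvd_card _ _))]
    rw [Finset.sum_add_distrib]
    rw [charDegree_eq_of_apply_one (n := e * charDegree φ) (by
      rw [Nat.cast_mul, hd]; exact h 1), Nat.factorization_mul he0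
        (show charDegree φ ≠ 0 from irr_charDegree_ne_zero ⟨φ, hφ⟩), Finsupp.add_apply, mul_add]
    rw [h7, Nat.factorization_pow, Finsupp.smul_apply, smul_eq_mul, mul_left_comm] at h8
    omega
  · refine absurd (fun k hk => ?_) hLK.not_ge
    have : (⟨k, hk⟩ : K) ∈ (NEmb.ofLeNormal hLK.le).inertia φ := fun n => hinv L φ hφ h3 k n
    rwa [h] at this

theorem fitting_sup_sylow_normal {G : Type*} [Group G] [Finite G] {F : Subgroup G} [F.Normal]
    (h : Group.IsNilpotent (G ⧸ F)) {p : ℕ} [Fact p.Prime] (P : Sylow p G) :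
    (F ⊔ (P : Subgroup G)).Normal := by
  have h1 : ((P.mapSurjective (QuotientGroup.mk'_surjective F) : Sylow p (G ⧸ F)) :
    Subgroup (G ⧸ F)).Normal := inferInstance
  have h2 := h1.comap (QuotientGroup.mk' F)
  rwa [Sylow.coe_mapSurjective, comap_map_eq, QuotientGroup.ker_mk', sup_comm] at h2

open H4 H5 in
theorem exists_coset_class_primitive {G : Type*} [Group G] [Fintype G] [Group.IsSolvable G]
    {χ : G → ℂ} (hχ : IsIrrCharacter G χ) (hprim : ∀ (H : Subgroup G) (θ : H → ℂ),
      IsCharacter H θ → indFun H θ = χ → H = ⊤) {F : Subgroup G} [F.Normal]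
    (hF : Group.IsNilpotent F) (h : Group.IsNilpotent (G ⧸ F)) {p : ℕ} [hp : Fact p.Prime]
    (P : Sylow p G) : ∃ g : G, ∀ a ∈ F ⊔ (P : Subgroup G),
      (charDegree χ).factorization p ≤ (centralizer {g * a}).index.factorization p := by
  classical
  haveI := fitting_sup_sylow_normal h P
  have h1 : IsIrrCharacter (⊤ : Subgroup G) fun k => χ k := hχ.comp_equiv topEquiv
  obtain ⟨d, k1, k2, k3⟩ := avg_class_primitive' (p := p) hχ hprim (F ⊔ P) (fun L _ V hV hpV => by
    haveI := hV.normal
    have hs := QuotientGroup.mk'_surjective L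
    haveI := Normal.map (inferInstance : F.Normal) _ hs
    haveI := Normal.map (inferInstance : (F ⊔ (P : Subgroup G)).Normal) _ hs
    obtain ⟨-, q, hq, hqV⟩ := hV.exists_isPGroup inferInstance
    haveI := Fact.mk hq
    obtain ⟨k, hk⟩ := hqV.exists_card_eq
    obtain rfl := (Nat.prime_dvd_prime_iff_eq hp.out hq).1 (hp.out.dvd_of_dvd_pow (hk ▸ hpV))
    have l1 := hV.le_centralizer_of_isNilpotent (N := F.map (QuotientGroup.mk' L))
      (Group.nilpotent_of_surjective ((QuotientGroup.mk' L).subgroupMap F)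
        ((QuotientGroup.mk' L).subgroupMap_surjective F))
    have l2 := H2.inf_centralizer_ne_bot (P.mapSurjective hs).2.isNilpotent
      (hqV.le_sylow_of_normal (P.mapSurjective hs)) le_normalizer_of_normal hV.ne_bot
    have l3 := hV.le_of_inf_ne_bot (centralizer ((F ⊔ (P : Subgroup G)).map
      (QuotientGroup.mk' L) : Set (G ⧸ L))) fun h => l2 (eq_bot_iff.2 (h ▸ le_inf inf_le_left (by
        rw [le_centralizer_iff, Subgroup.map_sup, sup_le_iff]
        exact ⟨l1.trans (centralizer_le (by simp)), le_centralizer_iff.1 inf_le_right⟩)))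
    exact fun a ha => le_centralizer_iff.1 l3 (mem_map_of_mem _ ha)) ⊤ _ h1
    (by rw [h1.classInner_self]; simp)
  obtain ⟨g, hg⟩ : ∃ g, (charDegree χ).factorization p ≤ d g := by
    by_contra! h
    refine k2.not_gt ?_
    rw [← smul_eq_mul, ← Finset.card_univ, ← Finset.sum_const]
    exact Finset.sum_lt_sum_of_nonempty Finset.univ_nonempty fun g _ => h g
  exact ⟨g, fun a ha => hg.trans ((k1 g a ha).ge.trans ((k3 _).trans_eq (by
    rw [relIndex_top_right])))⟩

theorem exists_class_primitive_two {G : Type*} [Group G] [Fintype G] [Group.IsSolvable G]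
    (χ : IrrCharacter G) (hprim : ∀ (H : Subgroup G) (θ : H → ℂ),
      IsCharacter H θ → indFun H θ = χ → H = ⊤) {F : Subgroup G} [F.Normal]
    (hF : Group.IsNilpotent F) (h : Group.IsNilpotent (G ⧸ F))
    (h2 : (Nat.card G).primeFactors.card = 2) :
    ∃ g : G, charDegree (χ : G → ℂ) ∣ (centralizer {g}).index := by
  obtain ⟨p, q, hpq, h3⟩ := Finset.card_eq_two.1 h2
  have h4 : ∀ r, r.Prime → r ∣ Nat.card G → r = p ∨ r = q := fun r hr h => by
    have := Nat.mem_primeFactors.2 ⟨hr, h, Nat.card_pos.ne'⟩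
    rw [h3] at this
    simpa using this
  haveI : Fact p.Prime := ⟨Nat.prime_of_mem_primeFactors (n := Nat.card G) (by rw [h3]; simp)⟩
  haveI : Fact q.Prime := ⟨Nat.prime_of_mem_primeFactors (n := Nat.card G) (by rw [h3]; simp)⟩
  obtain ⟨P⟩ := Sylow.nonempty (p := p) (G := G)
  obtain ⟨Q⟩ := Sylow.nonempty (p := q) (G := G)
  obtain ⟨x, hx⟩ := exists_coset_class_primitive χ.2 hprim hF h P
  obtain ⟨y, hy⟩ := exists_coset_class_primitive χ.2 hprim hF h Q
  haveI := fitting_sup_sylow_normal h Q
  have h5 : (F ⊔ (P : Subgroup G)) ⊔ (F ⊔ (Q : Subgroup G)) = ⊤ := by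
    rw [← index_eq_one]
    by_contra h5
    obtain ⟨r, hr, h6⟩ := Nat.exists_prime_and_dvd h5
    rcases h4 r hr (h6.trans (index_dvd_card _)) with rfl | rfl
    · exact P.not_dvd_index (h6.trans (index_dvd_of_le (le_sup_of_le_left le_sup_right)))
    · exact Q.not_dvd_index (h6.trans (index_dvd_of_le (le_sup_of_le_right le_sup_right)))
  obtain ⟨a, ha, b, hb, hab⟩ := (mem_sup_of_normal_right).1 (h5 ▸ mem_top (x⁻¹ * y))
  have h6 : x * a = y * b⁻¹ := by
    rw [eq_mul_inv_iff_mul_eq, mul_assoc, hab, mul_inv_cancel_left]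
  refine ⟨x * a, (Nat.factorization_prime_le_iff_dvd (irr_charDegree_ne_zero χ)
    index_ne_zero_of_finite).1 fun r hr => ?_⟩
  by_cases h7 : r ∣ Nat.card G
  · rcases h4 r hr h7 with rfl | rfl
    · exact hx a ha
    · exact h6 ▸ hy _ (inv_mem hb)
  · rw [Nat.factorization_eq_zero_of_not_dvd fun h =>
      h7 (h.trans (dvd_card_of_mem_cd (charDegree_mem_cd χ.2)))]
    exact Nat.zero_le _

end Cfsg.Agent.H8
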