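import Mathlib
import Cfsg.Agent.H8.Deg5
import Cfsg.Agent.H8.Princ
import Cfsg.Agent.S4507

/-!
Groups all of whose nonlinear character degrees are prime.
-/

set_option autoImplicit false
set_option linter.dupNamespace false

namespace Cfsg.Agent.H8

open Cfsg Cfsg.Agent.H4 Cfsg.Agent.H5 Cfsg.Agent.H3
open scoped ComplexConjugate Pointwise commutatorElement

universe u

section prime
variable {G : Type*} [Group G] [Finite G]

theorem degree_eq_of_const {p : ℕ} (hp : p.Prime) {P : Subgroup G} (hP : Nat.card P = p)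
    {ξ : G → ℂ} (hξ : IsCharacter G ξ) {x : G} (hx : x ∈ P) (hx1 : x ≠ 1)
    (h : ∀ k : ℕ, k.Coprime p → ξ (x ^ k) = ξ x) {d : ℕ} (hd : ξ 1 = d) (hdp : d < p)
    (hne : ξ x ≠ d) : d + 1 = p := by
  classical
  haveI := Fact.mk hp
  haveI := Fintype.ofFinite P
  have ho : orderOf x = p := by
    have := orderOf_eq_prime (x := (⟨x, hx⟩ : P)) (hP ▸ pow_card_eq_one')
      fun h1 => hx1 (congrArg Subtype.val h1)
    rwa [← Subgroup.orderOf_coe] at this
  obtain ⟨c, hc⟩ := hξ.isGen.exists_int_of_forall_pow (g := x) fun m hm => h m (ho ▸ hm)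
  have h1 : ∀ y : P, y ≠ 1 → ξ y = c := fun y hy => by
    obtain ⟨k, hk⟩ := (mem_powers_iff_mem_zpowers (x := (⟨x, hx⟩ : P))).2
      (mem_zpowers_of_prime_card hP (fun h1 => hx1 (congrArg Subtype.val h1)) (g' := y))
    have h2 : x ^ k = y := congrArg Subtype.val hk
    rw [← h2, h k, hc]
    refine ((Nat.Prime.coprime_iff_not_dvd hp).2 fun h3 => hy (Subtype.ext ?_)).symm
    rw [← h2, OneMemClass.coe_one, ← orderOf_dvd_iff_pow_eq_one, ho]
    exact h3
  obtain ⟨a, ha⟩ := (hξ.restrict P).classInner_nat isCharacter_one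
  have h2 := card_mul_classInner (fun y : P => ξ y) fun _ => 1
  rw [ha, hP, ← Finset.add_sum_erase _ _ (Finset.mem_univ 1), Finset.sum_congr rfl
    (g := fun _ => (c : ℂ)) fun y hy => by rw [h1 y (Finset.ne_of_mem_erase hy)]; simp,
    Finset.sum_const, Finset.card_erase_of_mem (Finset.mem_univ _), Finset.card_univ,
    ← Nat.card_eq_fintype_card, hP, OneMemClass.coe_one, hd, map_one, mul_one, nsmul_eq_mul,
    Nat.cast_sub hp.one_le] at h2
  have h3 : (p : ℤ) * a = d + (p - 1) * c := by exact_mod_cast h2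
  have h4 : c ≤ d := by
    have := hξ.re_le x
    rw [hc, hd] at this
    exact_mod_cast this
  have h5 : c ≠ d := fun h5 => hne (by rw [hc, h5]; simp)
  have h6 : (p : ℤ) ≤ d - c := Int.le_of_dvd (by omega) ⟨a - c, by linear_combination -h3⟩
  have h7 : (0 : ℤ) ≤ p * a := by positivity
  have h8 : (d : ℤ) < p := by exact_mod_cast hdp
  have h9 : (1 : ℤ) < p := by exact_mod_cast hp.one_lt
  have h10 : (p : ℤ) ≤ d + 1 := by nlinarith
  omega

theorem exists_const_of_sylow_prime {p : ℕ} [hp : Fact p.Prime] (h1 : p ∣ Nat.card G)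
    (h2 : ¬ p ^ 2 ∣ Nat.card G) (hG : commutator G = ⊤) {x : G} (hx : x ^ p = 1)
    (hx' : ¬ p ∣ (Subgroup.centralizer ({x} : Set G)).index) :
    ∃ ξ, IsIrrCharacter G ξ ∧ ξ ≠ (fun _ => 1) ∧ ξ x ≠ 0 ∧
      ∀ k : ℕ, k.Coprime p → ξ (x ^ k) = ξ x := by
  haveI := Fintype.ofFinite G
  obtain ⟨M, hM⟩ := H6.exists_isPModular hp.out
  haveI := hM.2.1
  obtain ⟨Y, hYB, ⟨θ, hθ⟩, -, h3, -, -, δ, h4, h5⟩ := S4507.result p M hM h1 h2
    (principalBlock M G) isPBlock_principal (by
      rw [defect_principal hM]; exact hp.out.factorization_pos_of_dvd Nat.card_pos.ne' h1)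
  obtain ⟨ξ, hξ, hξ1⟩ : ∃ ξ ∈ principalBlock M G \ Y, ξ ≠ irrOne G := by
    by_contra h6
    push Not at h6
    have h7 := h5 1 (by simpa using hp.out.one_lt.ne') θ hθ
    have h8 : (δ θ : ℂ) ≠ 0 := by rcases h4 θ (hYB hθ) with h | h <;> simp [h]
    by_cases h9 : irrOne G ∈ Y
    · rw [Set.eq_empty_of_forall_notMem (s := principalBlock M G \ Y)
        fun ξ hξ => hξ.2 (h6 ξ hξ ▸ h9), finsum_mem_empty, zero_add] at h7
      exact mul_ne_zero h8 θ.2.apply_one_ne_zero h7
    · rw [(Set.eq_singleton_iff_unique_mem (s := principalBlock M G \ Y)).2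
        ⟨⟨irrOne_mem_principal, h9⟩, h6⟩, finsum_mem_singleton,
        irrOne_apply, mul_one, ← irr_coe_charDegree] at h7
      have h10 : δ (irrOne G) + δ θ * charDegree θ.1 = 0 := by exact_mod_cast h7
      have h11 : charDegree θ.1 = 1 := by
        rcases h4 _ irrOne_mem_principal with h | h <;> rcases h4 θ (hYB hθ) with h' | h' <;>
          rw [h, h'] at h10 <;> omega
      have h12 := θ.2.commutator_le_charKer_iff.2 ((irr_charDegree_eq_one_iff θ).1 h11)
      rw [hG, top_le_iff, θ.2.charKer_eq_top_iff] at h12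
      exact h9 ((Subtype.ext h12 : θ = irrOne G) ▸ hθ)
  refine ⟨ξ, ξ.2, fun h6 => hξ1 (Subtype.ext h6), fun h6 => hx' ?_, fun k hk => ?_⟩
  · have h7 := hξ.1 x
    simp only [centralChar, h6, mul_zero, zero_div, sub_zero, mul_one, div_one] at h7
    exact (H6.memLocalIdeal_natCast_iff hM _).1 h7
  · obtain ⟨m, hm1, hm2⟩ := Nat.chineseRemainder (Nat.coprime_ordCompl hp.out
      (Nat.card_pos (α := G)).ne') k 1
    have h6 : m.Coprime (Nat.card G) := by
      rw [← Nat.ordProj_mul_ordCompl_eq_self (Nat.card G) p]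
      exact Nat.Coprime.mul_right (Nat.Coprime.pow_right _ (by
        rw [Nat.Coprime, hm1.gcd_eq]; exact hk)) (by rw [Nat.Coprime, hm2.gcd_eq]; simp)
    obtain ⟨σ, hσ⟩ := exists_ringEquiv_pow (Nat.card_pos (α := G)).ne' h6
    have h7 := h3 ξ hξ.1 hξ.2 ⟨_, ξ.2.map_ringHom σ.toRingHom⟩ ⟨σ, by
      have h7 := (Complex.isPrimitiveRoot_exp _
        (Nat.ordCompl_pos p (Nat.card_pos (α := G)).ne').ne').pow_eq_one
      rw [hσ _ (orderOf_dvd_iff_pow_eq_one.1 ((orderOf_dvd_of_pow_eq_one h7).trans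
        (Nat.ordCompl_dvd _ p))), pow_eq_pow_of_modEq hm2 h7, pow_one],
      rfl⟩
    have h8 : σ (ξ.1 x) = ξ.1 x := congrFun (congrArg Subtype.val h7) x
    rw [← h8, ← pow_eq_pow_of_modEq hm1 hx]
    exact (ξ.2.isCharacter.map_apply_eq_pow (σ := σ.toRingHom) hσ pow_card_eq_one').symm

theorem solvable_of_prime_degrees_of_simple [IsSimpleGroup G]
    (h : ∀ d ∈ charDegrees G, d = 1 ∨ d.Prime) : Group.IsSolvable G := by
  haveI := Fintype.ofFinite G
  rcases (inferInstance : (commutator G).Normal).eq_bot_or_eq_top with hG | hG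
  · exact ⟨⟨1, by rwa [derivedSeries_one]⟩⟩
  obtain ⟨p, hpc, hmax⟩ := Set.exists_max_image (charDegrees G) id finite_cd ⟨1, one_mem_cd⟩
  by_cases h1 : ∀ d ∈ charDegrees G, d = 1 ∨ d = p
  · exact ⟨⟨2, two_degrees G p h1⟩⟩
  push Not at h1
  obtain ⟨q, hq, hq1, hqp⟩ := h1
  have hqp' : q < p := lt_of_le_of_ne (hmax q hq) hqp
  have hp : p.Prime := (h p hpc).resolve_left (by have := pos_of_mem_cd hq; omega)
  haveI := Fact.mk hp
  have hker : ∀ χ, IsIrrCharacter G χ → χ 1 ≠ 1 → charKer χ = ⊥ := fun χ hχ h1 =>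
    hχ.charKer_eq_bot_of_simple fun h2 => h1 (by rw [h2])
  have hZ : Subgroup.center G = ⊥ :=
    (inferInstance : (Subgroup.center G).Normal).eq_bot_or_eq_top.resolve_right fun h1 => by
      have := derivedSeries_eq_bot_of_comm (G := G)
        (fun a b => Subgroup.mem_center_iff.1 (h1 ▸ Subgroup.mem_top b) a) 0
      rw [zero_add, derivedSeries_one, hG] at this
      exact top_ne_bot this
  obtain ⟨χ, hχ, e1⟩ := mem_cd.1 hpc
  obtain ⟨ψ, hψ, e2⟩ := mem_cd.1 hq
  let P : Sylow p G := default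
  haveI := Fintype.ofFinite (P : Subgroup G)
  have h1 : ∀ a ∈ (P : Subgroup G), ∀ b ∈ (P : Subgroup G), a * b = b * a := fun a ha b hb => by
    have h1 := (hψ.isCharacter.restrict (P : Subgroup G)).mem_charKer_of_forall_constituent
      (g := ⁅(⟨a, ha⟩ : (P : Subgroup G)), (⟨b, hb⟩ : (P : Subgroup G))⁆) fun η hη h1 => by
        obtain ⟨k, hk⟩ := exists_pow_of_mem_cd P.2 (charDegree_mem_cd hη)
        have h2 := (hψ.isCharacter.restrict (P : Subgroup G)).degree_le_of_constituent hη h1 e2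
          hη.isCharacter.charDegree_cast.symm
        obtain rfl : k = 0 := by
          by_contra h3
          have := Nat.le_self_pow h3 p
          omega
        exact apply_of_mem_charKer (hη.commutator_le_charKer_iff.2 (by
          rw [← hη.isCharacter.charDegree_cast, hk]; simp) (Subgroup.commutator_mem_commutator
            (Subgroup.mem_top _) (Subgroup.mem_top _)))
    have h2 : ⁅a, b⁆ ∈ charKer ψ := hψ.isCharacter.mem_charKer.2
      (apply_of_mem_charKer (χ := fun x : (P : Subgroup G) => ψ x) h1)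
    rwa [hker ψ hψ (by rw [e2]; exact_mod_cast hq1), Subgroup.mem_bot,
      commutatorElement_eq_one_iff_mul_comm] at h2
  have h2 : ∀ x ∈ (P : Subgroup G), ¬ p ∣ (Subgroup.centralizer ({x} : Set G)).index :=
    fun x hx h2 => P.not_dvd_index (h2.trans (Subgroup.index_dvd_of_le fun y hy =>
      Subgroup.mem_centralizer_singleton_iff.2 (h1 y hy x hx)))
  have h3 : ∀ ξ, IsIrrCharacter G ξ → ξ 1 = p → ∀ x ∈ (P : Subgroup G), x ≠ 1 → ξ x = 0 :=
    fun ξ hξ e x hx hx1 => (hξ.eq_zero_or_norm_eq_of_coprime e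
      ((Nat.Prime.coprime_iff_not_dvd hp).2 (h2 x hx))).resolve_right fun h3 => hx1 (by
        rwa [← hξ.isCharacter.mem_charCenter, hξ.charCenter_eq_center (hker ξ hξ (by
          rw [e]; exact_mod_cast hp.ne_one)), hZ, Subgroup.mem_bot] at h3)
  have hpG := dvd_card_of_mem_cd hpc
  have h4 : Nat.card P = p := by
    obtain ⟨k, hk⟩ := hχ.isCharacter.exists_nat_of_vanishing P (h3 χ hχ e1)
    rw [e1] at hk
    exact Nat.dvd_antisymm ⟨k, by exact_mod_cast hk⟩ (P.dvd_card_of_dvd_card hpG)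
  have h5 : ¬ p ^ 2 ∣ Nat.card G := fun h5 => by
    rw [← (P : Subgroup G).card_mul_index, h4, sq, Nat.mul_dvd_mul_iff_left hp.pos] at h5
    exact P.not_dvd_index h5
  obtain ⟨⟨x, hx⟩, hx1⟩ := Subgroup.ne_bot_iff_exists_ne_one.1 (P.ne_bot_of_dvd_card hpG)
  have hx2 : x ≠ 1 := fun h6 => hx1 (Subtype.ext h6)
  obtain ⟨ξ, hξ, h6, h7, h8⟩ := exists_const_of_sylow_prime hpG h5 hG (x := x)
    (congrArg Subtype.val (h4 ▸ pow_card_eq_one' (x := (⟨x, hx⟩ : (P : Subgroup G))))) (h2 x hx)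
  have e3 := hξ.isCharacter.charDegree_cast.symm
  have h9 := degree_eq_of_const hp h4 hξ.isCharacter hx hx2 h8 e3
    (lt_of_le_of_ne (hmax _ (charDegree_mem_cd hξ)) fun h9 => h7 (h3 ξ hξ (h9 ▸ e3) x hx hx2))
    fun h9 => hx2 (by
      rwa [← e3, ← hξ.isCharacter.mem_charKer, hξ.charKer_eq_bot_of_simple h6,
        Subgroup.mem_bot] at h9)
  have h10 : (charDegree ξ).Prime := (h _ (charDegree_mem_cd hξ)).resolve_left fun h10 => h6 (by
    have h11 := hξ.commutator_le_charKer_iff.2 (by rw [e3, h10]; simp)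
    rwa [hG, top_le_iff, hξ.charKer_eq_top_iff] at h11)
  have h11 : p = 3 := by
    have := h10.two_le
    rcases h10.eq_two_or_odd with h11 | h11
    · omega
    · rcases hp.eq_two_or_odd with h12 | h12 <;> omega
  refine ⟨⟨3, three_degrees G 2 3 fun d hd => ?_⟩⟩
  have := pos_of_mem_cd hd
  have : d ≤ p := hmax d hd
  omega

theorem ncard_le_three_of_prime_degrees (hs : Group.IsSolvable G)
    (h : ∀ d ∈ charDegrees G, d = 1 ∨ d.Prime) : (charDegrees G).ncard ≤ 3 := by
  suffices ∃ m n, ∀ d ∈ charDegrees G, d = 1 ∨ d = m ∨ d = n by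
    obtain ⟨m, n, h1⟩ := this
    exact (Set.ncard_le_ncard (t := {1, m, n}) h1).trans ((Set.ncard_insert_le 1 {m, n}).trans
      (Nat.succ_le_succ ((Set.ncard_insert_le m {n}).trans (by simp))))
  by_cases hna : commutator G = ⊥
  · exact ⟨1, 1, fun d hd => Or.inl (comm_iff_cd.1
      (comm_of_derivedSeries_one (by rwa [derivedSeries_one])) d hd)⟩
  obtain ⟨K, hK, h1, h2⟩ := exists_min_quotient hs hna
  have hprod : ∀ a b : ℕ, a ≠ 1 → a * b ∈ charDegrees G → b = 1 := fun a b ha hab => by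
    rcases h _ hab with h3 | h3
    · exact Nat.eq_one_of_mul_eq_one_left h3
    · exact ((Nat.prime_mul_iff.1 h3).resolve_right fun h4 => ha h4.2).2
  rcases h2 with ⟨p, hp, h2, -⟩ | ⟨N, F, -, h3, -, q, k, hq, h4⟩
  · haveI := Fact.mk hp
    obtain ⟨e, he, he1⟩ := exists_cd_ne_one h1
    obtain ⟨k, hk⟩ := IsPGroup.iff_card.1 h2
    refine ⟨p, p, fun d hd => or_iff_not_imp_right.2 fun h3 => ?_⟩
    refine hprod e d he1 (cd_mul_of_coprime K hd ?_ he)
    rw [Subgroup.index_eq_card, hk]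
    refine Nat.Coprime.pow_left k ?_
    rcases h d hd with rfl | h4
    · simp
    · exact (Nat.coprime_primes hp h4).2 fun h5 => h3 (Or.inl h5.symm)
  · haveI := F.nN
    have h5 : N.index ≠ 1 := by rwa [Ne, Subgroup.index_eq_one]
    refine ⟨N.index, q, fun d hd => ?_⟩
    obtain ⟨e, c, he, hc, rfl⟩ := cd_under_normal N hd
    rcases F.mul_mem_or hc with h6 | h6
    · rw [hprod _ _ h5 h6, mul_one]
      exact ((Nat.dvd_prime ((h _ F.index_mem_cd).resolve_left h5)).1 he).imp_right Or.inl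
    · have h7 : q ∣ c := by
        by_contra h7
        exact h6 (h4 ▸ ((Nat.Prime.coprime_iff_not_dvd hq).2 h7).pow_left k)
      refine (h _ hd).imp_right fun h8 => Or.inr ?_
      exact ((Nat.prime_dvd_prime_iff_eq hq h8).1 (h7.mul_left e)).symm

end prime

theorem solvable_of_prime_degrees (G : Type u) [Group G] [Finite G] :
    (∀ d ∈ charDegrees G, d = 1 ∨ d.Prime) → Group.IsSolvable G := by
  refine H2.card_induction (P := fun G _ _ => (∀ d ∈ charDegrees G, d = 1 ∨ d.Prime) →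
    Group.IsSolvable G) (fun G _ _ ih h => ?_) G
  rcases subsingleton_or_nontrivial G with _ | _
  · infer_instance
  by_cases hs : IsSimpleGroup G
  · exact solvable_of_prime_degrees_of_simple h
  obtain ⟨N, hN, h1, h2⟩ : ∃ N : Subgroup G, N.Normal ∧ N ≠ ⊥ ∧ N ≠ ⊤ := by
    by_contra hcon
    push Not at hcon
    exact hs ⟨fun N hN => or_iff_not_imp_left.mpr (hcon N hN)⟩
  haveI := ih N (H1.card_lt_of_ne_top h2) fun d hd => by
    obtain ⟨e, -, h3⟩ := cd_over_normal N hd
    rcases h _ h3 with h4 | h4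
    · exact Or.inl (Nat.eq_one_of_mul_eq_one_left h4)
    · exact ((Nat.dvd_prime h4).1 (Dvd.intro_left e rfl)).imp_right fun h5 : d = e * d => h5 ▸ h4
  haveI := ih (G ⧸ N) (H1.card_quotient_lt h1) fun d hd => h d (cd_quotient_subset N hd)
  exact Group.isSolvable_of_ker_le_range N.subtype (QuotientGroup.mk' N) (by simp)

end Cfsg.Agent.H8
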