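import Cfsg.Agent.H8.Gal1
import Cfsg.Agent.H8.TI1
import Cfsg.Agent.H5.Clifford3

/-!
Strongly real characters of a semidirect product of an odd elementary abelian group by a `2`-group.
-/

namespace Cfsg.Agent.H8

open Cfsg Cfsg.Agent.H4 Cfsg.Agent.H5
open scoped ComplexConjugate Pointwise

variable {G : Type*} [Group G]

theorem exists_mul_of_sup_top {N P : Subgroup G} [N.Normal] (hprod : N ⊔ P = ⊤) (g : G) :
    ∃ n ∈ N, ∃ x ∈ P, g = n * x := by
  have : g ∈ ((N ⊔ P : Subgroup G) : Set G) := by rw [hprod]; trivial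
  rw [Subgroup.normal_mul] at this
  obtain ⟨n, hn, x, hx, rfl⟩ := this
  exact ⟨n, hn, x, hx, rfl⟩

theorem exists_inverting_invol [Finite G] {N P : Subgroup G} [hN : N.Normal]
    (hab : ∀ a ∈ N, ∀ b ∈ N, a * b = b * a) (hP : IsPGroup 2 P) (hP1 : P ≠ ⊥)
    (hdisj : N ⊓ P = ⊥) (hprod : N ⊔ P = ⊤)
    (hmin : N ≠ ⊥ ∧ ∀ M : Subgroup G, M.Normal → M ≠ ⊥ → N ≤ M) :
    ∃ z ∈ P, z * z = 1 ∧ ∀ n ∈ N, z * n * z⁻¹ = n⁻¹ := by
  have : Nontrivial P := (Subgroup.nontrivial_iff_ne_bot P).2 hP1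
  have hZ := hP.center_nontrivial
  obtain ⟨k, hk, hcard⟩ := (hP.to_subgroup (Subgroup.center P)).nontrivial_iff_card.1 hZ
  obtain ⟨w, hw⟩ := exists_prime_orderOf_dvd_card' (G := Subgroup.center P) 2
    (by rw [hcard]; exact dvd_pow_self 2 hk.ne')
  set z : G := ((w : P) : G) with hz
  have hzP : z ∈ P := (w : P).2
  have hord : orderOf z = 2 := by rw [hz, Subgroup.orderOf_coe, Subgroup.orderOf_coe, hw]
  have hz2 : z * z = 1 := by rw [← sq, ← hord, pow_orderOf_eq_one]
  have hz1 : z ≠ 1 := fun h => by rw [h, orderOf_one] at hord; omega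
  have hzc : ∀ x ∈ P, x * z = z * x := fun x hx =>
    congrArg Subtype.val (Subgroup.mem_center_iff.1 w.2 ⟨x, hx⟩)
  let C : Subgroup G := N ⊓ Subgroup.centralizer {z}
  have hC : ∀ c, c ∈ C ↔ c ∈ N ∧ z * c = c * z := fun c => by
    simp [C, Subgroup.mem_centralizer_iff]
  have hCn : C.Normal := ⟨fun c hc g => by
    obtain ⟨n, hn, x, hx, rfl⟩ := exists_mul_of_sup_top hprod g
    obtain ⟨hc1, hc2⟩ := (hC c).1 hc
    have h1 : x * c * x⁻¹ ∈ N := hN.conj_mem c hc1 x
    have h2 : n * x * c * (n * x)⁻¹ = x * c * x⁻¹ := by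
      calc n * x * c * (n * x)⁻¹ = n * (x * c * x⁻¹) * n⁻¹ := by group
        _ = x * c * x⁻¹ := by rw [hab n hn _ h1]; group
    rw [h2, hC]
    refine ⟨h1, ?_⟩
    calc z * (x * c * x⁻¹) = (z * x) * c * x⁻¹ := by group
      _ = x * (z * c) * x⁻¹ := by rw [← hzc x hx]; group
      _ = x * c * (z * x⁻¹) := by rw [hc2]; group
      _ = x * c * x⁻¹ * z := by rw [← hzc _ (P.inv_mem hx)]; group⟩
  have hCbot : C = ⊥ := by
    by_contra hne
    have hle := hmin.2 C hCn hne
    have hzZ : ∀ g, g * z = z * g := fun g => by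
      obtain ⟨n, hn, x, hx, rfl⟩ := exists_mul_of_sup_top hprod g
      rw [mul_assoc, hzc x hx, ← mul_assoc, ← ((hC n).1 (hle hn)).2, mul_assoc]
    have hnorm : (Subgroup.zpowers z).Normal := ⟨fun c hc g => by
      obtain ⟨k, rfl⟩ := Subgroup.mem_zpowers_iff.1 hc
      have : Commute g z := hzZ g
      rw [(this.zpow_right k).eq, mul_inv_cancel_right]
      exact hc⟩
    have h1 := hmin.2 _ hnorm (by rwa [Ne, Subgroup.zpowers_eq_bot])
    have h2 : N ≤ N ⊓ P := le_inf le_rfl (h1.trans (Subgroup.zpowers_le.2 hzP))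
    rw [hdisj] at h2
    exact hmin.1 (le_bot_iff.1 h2)
  refine ⟨z, hzP, hz2, fun n hn => ?_⟩
  have h1 : z * n * z⁻¹ ∈ N := hN.conj_mem n hn z
  have hzi : z⁻¹ = z := inv_eq_of_mul_eq_one_right hz2
  have h2 : n * (z * n * z⁻¹) ∈ C := by
    rw [hC]
    refine ⟨N.mul_mem hn h1, ?_⟩
    calc z * (n * (z * n * z⁻¹)) = z * n * z⁻¹ * (z * z) * n * z⁻¹ := by group
      _ = (z * n * z⁻¹) * n * z⁻¹ := by rw [hz2, mul_one]
      _ = n * (z * n * z⁻¹) * z := by rw [hab _ h1 n hn, hzi]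
  rw [hCbot, Subgroup.mem_bot] at h2
  exact (eq_inv_of_mul_eq_one_right h2)

theorem exists_sq_of_odd_exp {N : Subgroup G} {q : ℕ} (hq : Odd q) (hNq : ∀ a ∈ N, a ^ q = 1)
    {n : G} (hn : n ∈ N) : ∃ m ∈ N, n = m * m := by
  obtain ⟨k, rfl⟩ := hq
  refine ⟨n ^ (k + 1), N.pow_mem hn _, ?_⟩
  rw [← pow_add, show k + 1 + (k + 1) = (2 * k + 1) + 1 by ring, pow_succ, hNq n hn, one_mul]

theorem exists_good_char [Fintype G] {N P : Subgroup G} [hN : N.Normal] [Fintype P]
    (hab : ∀ a ∈ N, ∀ b ∈ N, a * b = b * a) {q : ℕ} (hq : Odd q) (hNq : ∀ a ∈ N, a ^ q = 1)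
    (hP : IsPGroup 2 P) (hN1 : N ≠ ⊥) (hdisj : N ⊓ P = ⊥) (hprod : N ⊔ P = ⊤)
    {z : G} (hzP : z ∈ P) (hz2 : z * z = 1) (hz : ∀ n ∈ N, z * n * z⁻¹ = n⁻¹) :
    ∃ χ : G → ℂ, IsIrrCharacter G χ ∧ 2 ∣ charDegree χ ∧ fsInd χ = 1 ∧
      classInner (fun x : P => χ x) (fun _ => 1) ≠ 0 := by
  classical
  have : Fintype N := Fintype.ofFinite N
  have hcompl : N.IsComplement' P :=
    Subgroup.isComplement'_of_disjoint_and_mul_eq_univ (disjoint_iff.2 hdisj) (by
      rw [← Subgroup.normal_mul, hprod]; rfl)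
  have hPtop : P.index ≠ 1 := by
    rw [hcompl.index_eq_card]
    intro h
    exact hN1 (Subgroup.eq_bot_of_card_eq N h)
  have hπ : IsCharacter G (indFun P (fun _ => 1)) := isCharacter_indFun P isCharacter_one
  have h11 : classInner (indFun P (fun _ => 1)) (fun _ : G => (1 : ℂ)) = 1 := by
    rw [inner_indFun_left _ _ (isClassFunction_const 1)]; exact classInner_one_one
  have hπ1 := hπ.sub_irr isIrrCharacter_one (by rw [h11]; exact one_ne_zero)
  obtain ⟨χ, hχ, hcon⟩ := hπ1.exists_constituent (by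
    intro h
    have := congrFun h 1
    simp only [Pi.sub_apply, indFun_one, mul_one, Pi.zero_apply, sub_eq_zero] at this
    exact hPtop (by exact_mod_cast this))
  have hχ1 : χ ≠ fun _ => 1 := by
    rintro rfl
    rw [classInner_sub_left, h11, classInner_one_one, sub_self] at hcon
    exact hcon rfl
  rw [classInner_sub_left, isIrrCharacter_one.classInner_of_ne hχ hχ1.symm, sub_zero,
    inner_indFun_left _ _ hχ.isClassFunction, Ne, classInner_eq_zero_symm] at hcon
  have hPq : IsPGroup 2 (G ⧸ N) := by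
    refine IsPGroup.of_surjective hP ((QuotientGroup.mk' N).comp P.subtype) fun g => ?_
    obtain ⟨g, rfl⟩ := QuotientGroup.mk_surjective g
    obtain ⟨n, hn, x, hx, rfl⟩ := exists_mul_of_sup_top hprod g
    refine ⟨⟨x, hx⟩, ?_⟩
    simp [(QuotientGroup.eq_one_iff n).2 hn]
  have := hPq.isNilpotent
  obtain ⟨H, lam, hNH, hind⟩ := exists_indFun_linear_of_abelian_nilpotent N hab hχ
  have : Fintype H := Fintype.ofFinite H
  have hlam : IsIrrCharacter H (fun h => (lam h : ℂ)) := isIrrCharacter_linear lam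
  have hT : ∀ (x : G) (hx : x ∈ H), x ∈ P → lam ⟨x, hx⟩ = 1 := by
    have : Fintype (H.subgroupOf P) := Fintype.ofFinite _
    have hres : (fun x : P => χ x) = indFun (H.subgroupOf P)
        (fun x => (lam ⟨(x : P), Subgroup.mem_subgroupOf.mp x.2⟩ : ℂ)) := by
      funext k
      rw [hind]
      refine mackey_of_mul_eq H P (fun g => ?_) hlam.isClassFunction k
      obtain ⟨n, hn, x, hx, hg⟩ := exists_mul_of_sup_top hprod g⁻¹
      exact ⟨x⁻¹, P.inv_mem hx, n⁻¹, H.inv_mem (hNH hn), by rw [← mul_inv_rev, ← hg, inv_inv]⟩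
    rw [hres, inner_indFun_left _ _ (isClassFunction_const 1)] at hcon
    let f : H.subgroupOf P →* H :=
      { toFun := fun x => ⟨(x : P), Subgroup.mem_subgroupOf.mp x.2⟩
        map_one' := rfl
        map_mul' := fun _ _ => rfl }
    have h1 := (isIrrCharacter_linear (lam.comp f)).eq_of_classInner_ne_zero isIrrCharacter_one hcon
    intro x hx hxP
    exact Units.ext (congrFun h1 ⟨⟨x, hxP⟩, hx⟩)
  have hlamN : ¬ ∀ (n : G) (hn : n ∈ N), lam ⟨n, hNH hn⟩ = 1 := by
    intro h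
    have h1 : (fun h => (lam h : ℂ)) = fun _ => 1 := by
      funext a
      obtain ⟨n, hn, x, hx, hg⟩ := exists_mul_of_sup_top hprod (a : G)
      have hxH : x ∈ H := by
        have := H.mul_mem (H.inv_mem (hNH hn)) a.2
        rwa [hg, inv_mul_cancel_left] at this
      have : a = ⟨n, hNH hn⟩ * ⟨x, hxH⟩ := Subtype.ext hg
      rw [this, map_mul, h n hn, hT x hxH hx]; simp
    apply hχ1
    apply hχ.eq_of_classInner_ne_zero isIrrCharacter_one
    rw [hind, h1, inner_indFun_left _ _ (isClassFunction_const 1)]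
    rw [show (fun h : H => (fun _ : G => (1 : ℂ)) h) = fun _ => 1 from rfl, classInner_one_one]
    exact one_ne_zero
  have hzH : z ∉ H := by
    intro hzH
    apply hlamN
    intro n hn
    obtain ⟨m, hm, rfl⟩ := exists_sq_of_odd_exp hq hNq hn
    have h1 : (⟨z, hzH⟩ * ⟨m, hNH hm⟩ * ⟨z, hzH⟩⁻¹ : H) = (⟨m, hNH hm⟩ : H)⁻¹ :=
      Subtype.ext (hz m hm)
    have h2 := congrArg lam h1
    rw [map_mul, map_mul, map_inv, map_inv, mul_inv_cancel_comm] at h2
    have h3 : (⟨m * m, hNH hn⟩ : H) = ⟨m, hNH hm⟩ * ⟨m, hNH hm⟩ := rfl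
    rw [h3, map_mul]
    nth_rewrite 2 [h2]
    exact mul_inv_cancel _
  refine ⟨χ, hχ, ?_, ?_, hcon⟩
  · have h1 : charDegree χ = H.index := by
      apply charDegree_eq_of_apply_one
      rw [hind, indFun_one]; simp
    rw [h1]
    obtain ⟨k, hk⟩ := IsPGroup.iff_card.1 hPq
    have h2 : H.index ∣ 2 ^ k := by
      rw [← hk]; exact Subgroup.index_dvd_of_le hNH
    obtain ⟨j, -, hj⟩ := (Nat.dvd_prime_pow Nat.prime_two).1 h2
    rcases Nat.eq_zero_or_pos j with rfl | hj0
    · rw [pow_zero, Subgroup.index_eq_one] at hj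
      exact absurd (hj ▸ Subgroup.mem_top z) hzH
    · rw [hj]; exact dvd_pow_self 2 hj0.ne'
  · let F : G → ℂ := fun g => extendByZero H (fun h => (lam h : ℂ)) (g * g)
    have hS : ∀ x : P, ∃ k : ℕ, ∑ n : N, F (n * x) = k := by
      intro x
      have hsq : ∀ n : N, (n : G) * x * (n * x) = n * (x * n * (x : G)⁻¹) * (x * x) := fun n => by group
      by_cases hx : (x : G) * x ∈ H
      · let a : N →* ℂˣ := lam.comp (Subgroup.inclusion hNH)
        let b : N →* ℂˣ := a.comp (MulAut.conjNormal (x : G)).toMonoidHom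
        obtain ⟨k, hk⟩ := ((isCharacter_linear a).mul (isCharacter_linear b)).classInner_nat
          isCharacter_one
        refine ⟨Nat.card N * k, ?_⟩
        push_cast
        rw [← hk, card_mul_classInner]
        refine Finset.sum_congr rfl fun n _ => ?_
        have h1 : (x : G) * n * (x : G)⁻¹ ∈ H := hNH (hN.conj_mem n n.2 x)
        have h2 : (n : G) * x * (n * x) ∈ H := by
          rw [hsq]; exact H.mul_mem (H.mul_mem (hNH n.2) h1) hx
        have h3 : (⟨_, h2⟩ : H) = ⟨n, hNH n.2⟩ * ⟨_, h1⟩ * ⟨_, hx⟩ := Subtype.ext (hsq n)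
        simp only [F]
        rw [extendByZero_mem _ _ h2, h3, map_mul, map_mul, hT _ hx (P.mul_mem x.2 x.2)]
        simp only [mul_one, Units.val_mul, map_one, Pi.mul_apply]
        rfl
      · refine ⟨0, ?_⟩
        rw [Nat.cast_zero]
        refine Finset.sum_eq_zero fun n _ => extendByZero_not_mem _ _ fun h => hx ?_
        rw [hsq] at h
        exact (H.mul_mem_cancel_left (H.mul_mem (hNH n.2) (hNH (hN.conj_mem n n.2 x)))).1 h
    choose k hk using hS
    have hkz : k ⟨z, hzP⟩ = Nat.card N := by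
      have h1 := hk ⟨z, hzP⟩
      have h2 : ∀ n : N, F (n * z) = 1 := fun n => by
        have : (n : G) * z * (n * z) = 1 := by
          calc (n : G) * z * (n * z) = n * (z * n * z⁻¹) * (z * z) := by group
            _ = 1 := by rw [hz n n.2, hz2]; simp
        simp only [F]
        rw [this, extendByZero_mem _ _ H.one_mem]
        exact congrArg Units.val (map_one lam)
      simp only [h2, Finset.sum_const, Finset.card_univ, nsmul_eq_mul, mul_one] at h1
      rw [Nat.card_eq_fintype_card]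
      exact_mod_cast h1.symm
    have hsum : ∑ g, F g = ((∑ x, k x : ℕ) : ℂ) := by
      rw [← Fintype.sum_bijective _ hcompl (fun p : N × P => F (p.1 * p.2)) F (fun _ => rfl),
        Fintype.sum_prod_type_right]
      push_cast
      exact Finset.sum_congr rfl fun x _ => hk x
    have hpos : 0 < ∑ x, k x :=
      lt_of_lt_of_le (by rw [hkz]; exact Nat.card_pos)
        (Finset.single_le_sum (f := k) (fun _ _ => Nat.zero_le _) (Finset.mem_univ ⟨z, hzP⟩))
    have hν : (Nat.card H : ℂ) * fsInd χ = ((∑ x, k x : ℕ) : ℂ) := by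
      rw [hind, fsInd_indFun, ← hsum, ← mul_assoc, mul_inv_cancel₀ (card_ne_zero_C H), one_mul]
    rcases hχ.fsInd_cases with h | h | h
    · rw [h, mul_zero] at hν
      have : 0 = ∑ x, k x := by exact_mod_cast hν
      omega
    · exact h
    · rw [h] at hν
      have h1 : ((Nat.card H + ∑ x, k x : ℕ) : ℂ) = 0 := by
        rw [Nat.cast_add, ← hν]; ring
      have h2 : Nat.card H + ∑ x, k x = 0 := by exact_mod_cast h1
      omega

theorem strongly_real_average [Fintype G] {N P : Subgroup G} [Fintype P] [N.Normal]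
    {q : ℕ} (hq : Odd q) (hNq : ∀ a ∈ N, a ^ q = 1) (hprod : N ⊔ P = ⊤) {χ : G → ℂ}
    (hχ : IsIrrCharacter G χ) (h2 : 2 ∣ charDegree χ) (hν : fsInd χ = 1)
    (hcon : classInner (fun x : P => χ x) (fun _ => 1) ≠ 0) (S : Finset (IrrCharacter G))
    (hS : ∀ ψ : IrrCharacter G, ψ ∈ S ↔
      (charDegree (ψ : G → ℂ) = 1 ∨ 2 ∣ charDegree (ψ : G → ℂ)) ∧ fsInd (ψ : G → ℂ) = 1) :
    4 * S.card ≤ 3 * ∑ ψ ∈ S, charDegree ψ.1 := by
  classical
  let L := S.filter fun ψ : IrrCharacter G => charDegree (ψ : G → ℂ) = 1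
  let E := S.filter fun ψ : IrrCharacter G => ¬ charDegree (ψ : G → ℂ) = 1
  have hL : ∀ μ ∈ L, (μ : G → ℂ) 1 = 1 ∧ ∀ g, (μ : G → ℂ) (g * g) = 1 := by
    intro μ hμ
    obtain ⟨h1, h3⟩ := Finset.mem_filter.1 hμ
    have h4 := (irr_charDegree_eq_one_iff μ).1 h3
    refine ⟨h4, fun g => ?_⟩
    have h5 := real_of_fsInd_ne_zero μ.2 (by rw [((hS μ).1 h1).2]; exact one_ne_zero) g
    rw [μ.2.isCharacter.map_mul_of_apply_one h4, ← mul_conj_eq_one_of_linear μ.2.isCharacter h4 g,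
      Complex.conj_eq_iff_im.2 h5]
  let m : IrrCharacter G → IrrCharacter G := fun μ =>
    if h : (μ : G → ℂ) 1 = 1 then ⟨μ.1 * χ, isIrr_mul_of_linear μ.2.isCharacter h hχ⟩ else μ
  have hm : ∀ μ ∈ L, (m μ : G → ℂ) = μ.1 * χ := fun μ hμ => by
    simp only [m, dif_pos (hL μ hμ).1]
  have hdeg : ∀ μ ∈ L, charDegree (m μ : G → ℂ) = charDegree χ := fun μ hμ => by
    apply charDegree_eq_of_apply_one
    rw [hm μ hμ, Pi.mul_apply, (hL μ hμ).1, one_mul, coe_charDegree hχ.isCharacter]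
  have hn2 : 2 ≤ charDegree χ := Nat.le_of_dvd (irr_charDegree_pos ⟨χ, hχ⟩) h2
  have hIE : L.image m ⊆ E := by
    intro ψ hψ
    obtain ⟨μ, hμ, rfl⟩ := Finset.mem_image.1 hψ
    refine Finset.mem_filter.2 ⟨(hS _).2 ⟨Or.inr (by rw [hdeg μ hμ]; exact h2), ?_⟩, ?_⟩
    · rw [← hν, hm μ hμ, fsInd, fsInd]
      simp only [Pi.mul_apply, (hL μ hμ).2, one_mul]
    · rw [hdeg μ hμ]; omega
  have hfib : ∀ ψ ∈ L.image m, (L.filter fun μ => m μ = ψ).card ≤ charDegree χ := by
    intro ψ hψ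
    obtain ⟨μ₀, hμ₀, h0⟩ := Finset.mem_image.1 hψ
    have hres : IsCharacter P (fun x : P => (ψ : G → ℂ) x) := ψ.2.isCharacter.restrict P
    have hd : charDegree (fun x : P => (ψ : G → ℂ) x) = charDegree χ := by
      rw [← hdeg μ₀ hμ₀, h0]; rfl
    let f : (L.filter fun μ => m μ = ψ) → IrrCharacter P := fun μ =>
      ⟨fun x => (μ.1 : G → ℂ) x, (μ.1.2.isCharacter.restrict P).isIrr_of_apply_one
        (hL μ.1 (Finset.mem_filter.1 μ.2).1).1⟩
    have hval : ∀ μ ∈ L, ∀ n ∈ N, ∀ x, (μ : G → ℂ) (n * x) = (μ : G → ℂ) x := by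
      intro μ hμ n hn x
      obtain ⟨a, -, rfl⟩ := exists_sq_of_odd_exp hq hNq hn
      rw [μ.2.isCharacter.map_mul_of_apply_one (hL μ hμ).1, (hL μ hμ).2, one_mul]
    have hf : Function.Injective f := by
      intro μ μ' h
      apply Subtype.ext
      apply Subtype.ext
      funext g
      obtain ⟨n, hn, x, hx, rfl⟩ := exists_mul_of_sup_top hprod g
      rw [hval _ (Finset.mem_filter.1 μ.2).1 n hn, hval _ (Finset.mem_filter.1 μ'.2).1 n hn]
      exact congrFun (congrArg Subtype.val h) ⟨x, hx⟩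
    have := card_le_charDegree hres f hf (fun μ => by
      obtain ⟨h1, h3⟩ := Finset.mem_filter.1 μ.2
      rw [classInner_eq_mul_conj_one]
      convert hcon using 2
      funext x
      rw [← h3, hm _ h1]
      have := mul_conj_eq_one_of_linear μ.1.2.isCharacter (hL _ h1).1 x
      simp only [f, Pi.mul_apply]
      linear_combination χ x * this)
    rwa [hd, Nat.card_eq_fintype_card, Fintype.card_coe] at this
  have h3 := Finset.card_le_mul_card_image L _ hfib
  have h4 : S.card = L.card + E.card := (Finset.card_filter_add_card_filter_not _).symm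
  have h5 : ∑ ψ ∈ S, charDegree ψ.1 = L.card + ∑ ψ ∈ E, charDegree ψ.1 := by
    rw [← Finset.sum_filter_add_sum_filter_not S (fun ψ : IrrCharacter G => charDegree (ψ : G → ℂ) = 1)]
    congr 1
    rw [Finset.card_eq_sum_ones]
    exact Finset.sum_congr rfl fun ψ hψ => (Finset.mem_filter.1 hψ).2
  have h6 : ∑ ψ ∈ E, charDegree ψ.1 =
      ∑ ψ ∈ E \ L.image m, charDegree ψ.1 + (L.image m).card * charDegree χ := by
    rw [← Finset.sum_sdiff hIE]
    congr 1
    rw [Finset.card_eq_sum_ones, Finset.sum_mul]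
    refine Finset.sum_congr rfl fun ψ hψ => ?_
    obtain ⟨μ, hμ, rfl⟩ := Finset.mem_image.1 hψ
    rw [hdeg μ hμ, one_mul]
  have h7 : (E \ L.image m).card * 2 ≤ ∑ ψ ∈ E \ L.image m, charDegree ψ.1 := by
    rw [← smul_eq_mul]
    refine Finset.card_nsmul_le_sum _ _ _ fun ψ hψ => ?_
    have h8 := (Finset.mem_filter.1 (Finset.mem_sdiff.1 hψ).1).2
    have h9 := irr_charDegree_pos ψ
    omega
  have h8 : (E \ L.image m).card + (L.image m).card = E.card :=
    Finset.card_sdiff_add_card_eq_card hIE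
  have h9 : (L.image m).card * 2 ≤ (L.image m).card * charDegree χ := Nat.mul_le_mul_left _ hn2
  rw [mul_comm] at h3
  omega

end Cfsg.Agent.H8
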