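import Cfsg.Agent.H8.FS3
import Cfsg.Agent.H8.Val
import Cfsg.Agent.H6.Kernel

/-!
A real character with a fixed space of odd dimension has Frobenius-Schur indicator one.
-/

namespace Cfsg.Agent.H8

open Cfsg Cfsg.Agent.H4 Cfsg.Agent.H5 Cfsg.Agent.H3 Module
open scoped ComplexConjugate Matrix

theorem even_finrank_of_skew {U : Type*} [AddCommGroup U] [Module ℂ U] [FiniteDimensional ℂ U]
    (β : LinearMap.BilinForm ℂ U) (hs : ∀ u v, β u v = -β v u)
    (hn : ∀ u, (∀ v, β u v = 0) → u = 0) : Even (finrank ℂ U) := by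
  let b := Module.finBasis ℂ U
  have h1 := (LinearMap.BilinForm.nondegenerate_iff_det_ne_zero b).1
    (LinearMap.BilinForm.Nondegenerate.ofSeparatingLeft hn)
  have h2 : (LinearMap.BilinForm.toMatrix b β)ᵀ = -LinearMap.BilinForm.toMatrix b β := by
    ext i j
    simp only [Matrix.transpose_apply, Matrix.neg_apply, LinearMap.BilinForm.toMatrix_apply]
    exact hs _ _
  have h3 := congrArg Matrix.det h2
  rw [Matrix.det_transpose, Matrix.det_neg, Fintype.card_fin] at h3
  by_contra h4
  rw [(Nat.not_even_iff_odd.1 h4).neg_one_pow] at h3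
  exact h1 (by linear_combination h3 / 2)

variable {G : Type*} [Group G] [Fintype G]

theorem even_inner_one_of_fsInd {χ : G → ℂ} (hχ : IsIrrCharacter G χ) (hν : fsInd χ = -1)
    (S : Subgroup G) [Fintype S] {a : ℕ}
    (ha : classInner (fun x : S => χ x) (fun _ => 1) = a) : Even a := by
  have hreal := real_of_fsInd_ne_zero hχ (by rw [hν]; simp)
  obtain ⟨n, X, hX⟩ := exists_matrix_of_isCharacter hχ.isCharacter
  obtain rfl : (fun g => (X g).trace) = χ := funext hX
  obtain ⟨⟨B, hB0, hB⟩, hsym⟩ := inv_form X hχ hreal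
  have hBs := hsym B hB
  rw [hν] at hBs
  let ρ := repOfMatrix X
  have hρ : ρ.character = fun g => (X g).trace := funext (repOfMatrix_character X)
  have hirr : ρ.IsIrreducible := isIrreducible_of_isIrrCharacter ρ (hρ ▸ hχ)
  let β : LinearMap.BilinForm ℂ (Fin n → ℂ) := Matrix.toBilin' B
  have hβ : ∀ g u v, β (ρ g u) (ρ g v) = β u v := fun g u v => by
    simp only [β, ρ, repOfMatrix_apply, Matrix.toBilin'_apply', Matrix.toLin'_apply]
    conv_rhs => rw [← hB g]
    rw [← Matrix.mulVec_mulVec, ← Matrix.mulVec_mulVec, Matrix.dotProduct_mulVec u,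
      Matrix.vecMul_transpose]
  have hβs : ∀ u v, β u v = -β v u := fun u v => by
    simp only [β, Matrix.toBilin'_apply']
    rw [Matrix.dotProduct_mulVec, ← Matrix.mulVec_transpose, hBs, dotProduct_comm]
    simp [Matrix.neg_mulVec]
  have hinv : ∀ g u, ρ g (ρ g⁻¹ u) = u := fun g u => by
    rw [← Module.End.mul_apply, ← map_mul, mul_inv_cancel, map_one, Module.End.one_apply]
  let R : Subrepresentation ρ := ⟨LinearMap.ker β, fun g u hu => by
    rw [LinearMap.mem_ker] at hu ⊢
    refine LinearMap.ext fun v => ?_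
    rw [← hinv g v, hβ, hu]; rfl⟩
  have hR : ∀ u, (∀ v, β u v = 0) → u = 0 := by
    rcases hirr.eq_bot_or_eq_top R with h | h
    · intro u hu
      have : u ∈ R.toSubmodule := LinearMap.ext hu
      rwa [h] at this
    · exfalso
      apply hB0
      ext i j
      have : Pi.single i 1 ∈ R.toSubmodule := by rw [h]; trivial
      have h1 : β (Pi.single i 1) (Pi.single j 1) = 0 := by rw [LinearMap.mem_ker.1 this]; rfl
      simpa [β, Matrix.toBilin'_single] using h1
  let σ : Representation ℂ S (Fin n → ℂ) := ρ.comp S.subtype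
  have h1 := classInner_character_one σ
  have h2 : σ.character = fun x : S => (X x).trace := funext fun x => repOfMatrix_character X x
  rw [h2, ha] at h1
  rw [Nat.cast_injective h1]
  refine even_finrank_of_skew (β.restrict σ.invariants) (fun u v => hβs _ _) fun u hu => ?_
  refine Subtype.ext (hR _ fun v => ?_)
  have h3 : ∑ x : S, σ x v ∈ σ.invariants := fun y => by
    rw [map_sum]
    refine Fintype.sum_equiv (Equiv.mulLeft y) _ _ fun x => ?_
    simp only [Equiv.coe_mulLeft, map_mul, Module.End.mul_apply]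
  have h4 : β u (∑ x : S, σ x v) = 0 := hu ⟨_, h3⟩
  have h5 : ∀ x : S, β u (σ x v) = β u v := fun x => by
    conv_lhs => rw [← u.2 x]
    exact hβ _ _ _
  rw [map_sum] at h4
  simp only [h5, Finset.sum_const, nsmul_eq_mul, mul_eq_zero, Nat.cast_eq_zero, Finset.card_univ,
    Fintype.card_ne_zero, false_or] at h4
  exact h4

theorem fsInd_eq_one_of_odd_inner {χ : G → ℂ} (hχ : IsIrrCharacter G χ)
    (hr : χ = fun g => conj (χ g)) (S : Subgroup G) [Fintype S] {a : ℕ}
    (ha : classInner (fun x : S => χ x) (fun _ => 1) = a) (hodd : Odd a) : fsInd χ = 1 :=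
  (hχ.fsInd_of_real hr).resolve_right fun h =>
    Nat.not_even_iff_odd.2 hodd (even_inner_one_of_fsInd hχ h S ha)

theorem relIndex_eq_index_of_sup {N S : Subgroup G} [N.Normal] (h : N ⊔ S = ⊤) :
    S.relIndex N = S.index := by
  have h1 := Subgroup.relIndex_mul_index (inf_le_right : S ⊓ N ≤ N)
  have h2 := Subgroup.relIndex_mul_index (inf_le_left : S ⊓ N ≤ S)
  rw [Subgroup.inf_relIndex_right] at h1
  rw [Subgroup.inf_relIndex_left, ← Subgroup.relIndex_sup_left, h,
    Subgroup.relIndex_top_right, ← h1, mul_comm] at h2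
  exact (Nat.eq_of_mul_eq_mul_right (Nat.pos_of_ne_zero Subgroup.FiniteIndex.index_ne_zero) h2).symm

theorem exists_fsInd_one_over (N : Subgroup G) [hN : N.Normal] [Fintype N] (h2 : IsPGroup 2 (G ⧸ N))
    (φ : IrrCharacter N) (hdef : 2 ^ (Nat.card N).factorization 2 ∣ charDegree (φ : N → ℂ))
    (hconj : ∃ g : G, ∀ n n' : N, (n' : G) = g * (n : G) * g⁻¹ → φ.1 n' = conj (φ.1 n)) :
    ∃ χ : IrrCharacter G, fsInd χ.1 = 1 ∧ classInner (fun n : N => χ.1 n) φ.1 = 1 := by
  classical
  obtain ⟨S⟩ : Nonempty (Sylow 2 G) := inferInstance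
  have hsup := sup_sylow_eq_top_of_isPGroup_quotient h2 S
  have : Fintype (S : Subgroup G) := Fintype.ofFinite _
  let P : Sylow 2 N := IsPGroup.toSylow (P := (S : Subgroup G).subgroupOf N) S.2.comap_subtype
    (by rw [← Subgroup.relIndex, relIndex_eq_index_of_sup hsup]; exact S.not_dvd_index)
  have : Fintype (P : Subgroup N) := Fintype.ofFinite _
  have hF : IsCharacter G (indFun (S : Subgroup G) (fun _ => 1)) :=
    isCharacter_indFun _ isCharacter_one
  choose a ha using fun χ : IrrCharacter G =>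
    (χ.2.isCharacter.restrict (S : Subgroup G)).classInner_nat isCharacter_one
  choose m hm using fun χ : IrrCharacter G =>
    (χ.2.isCharacter.restrict N).classInner_nat φ.2.isCharacter
  obtain ⟨k, hk⟩ := (φ.2.isCharacter.restrict (P : Subgroup N)).classInner_nat isCharacter_one
  have hfac : (Nat.card N).factorization 2 ≤ (charDegree φ.1).factorization 2 :=
    (Nat.prime_two.pow_dvd_iff_le_factorization (irr_charDegree_ne_zero φ)).1 hdef
  have hk1 := apply_one_eq_of_vanish P (θ := φ.1) fun g hg =>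
    H6.apply_eq_zero_of_defect_zero Nat.prime_two φ.2 hfac hg
  rw [hk, ← irr_coe_charDegree] at hk1
  have hk2 : charDegree φ.1 = 2 ^ (Nat.card N).factorization 2 * k := by exact_mod_cast hk1
  have hkodd : Odd k := by
    rw [← Nat.not_even_iff_odd]
    rintro ⟨j, rfl⟩
    have h3 : 2 ^ ((Nat.card N).factorization 2 + 1) ∣ Nat.card N :=
      Dvd.dvd.trans ⟨j, by rw [hk2]; ring⟩ (charDegree_dvd_card φ)
    have := (Nat.prime_two.pow_dvd_iff_le_factorization Nat.card_pos.ne').1 h3
    omega
  have hsum : ∑ χ, a χ * m χ = k := by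
    apply Nat.cast_injective (R := ℂ)
    have h3 : (fun n : N => indFun (S : Subgroup G) (fun _ => 1) n) =
        indFun (P : Subgroup N) (fun _ => 1) := by
      funext n
      refine mackey_of_mul_eq (S : Subgroup G) N (fun g => ?_) (isClassFunction_const 1) n
      obtain ⟨n, hn, x, hx, h⟩ := exists_mul_of_sup_top hsup g
      exact ⟨n, hn, x, hx, h⟩
    have h4 : (fun n : N => indFun (S : Subgroup G) (fun _ => 1) n) =
        ∑ χ : IrrCharacter G, (a χ : ℂ) • fun n : N => χ.1 n := by
      funext n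
      rw [hF.isClassFunction.apply_eq_sum]
      simp only [Finset.sum_apply, Pi.smul_apply, smul_eq_mul]
      refine Finset.sum_congr rfl fun χ _ => ?_
      rw [inner_indFun_left _ _ χ.2.isClassFunction,
        isCharacter_one.classInner_comm (χ.2.isCharacter.restrict _), ha]
    rw [← hk, (φ.2.isCharacter.restrict _).classInner_comm isCharacter_one,
      ← inner_indFun_left _ _ φ.2.isClassFunction, ← h3, h4, classInner_sum_left]
    push_cast
    exact Finset.sum_congr rfl fun χ _ => by rw [classInner_smul_left, hm]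
  let c : IrrCharacter G → IrrCharacter G := fun χ => ⟨_, χ.2.conj⟩
  have hca : ∀ χ, a (c χ) = a χ := fun χ => by
    apply Nat.cast_injective (R := ℂ)
    rw [← ha, ← ha, (χ.2.isCharacter.restrict _).classInner_comm isCharacter_one,
      ← classInner_conj_conj]
    simp [c]
  have hcm : ∀ χ, m (c χ) = m χ := fun χ => by
    apply Nat.cast_injective (R := ℂ)
    obtain ⟨g, hg⟩ := hconj
    rw [← hm, ← hm]
    refine Eq.trans ?_ ((NEmb.ofNormal N).inner_res_cj χ.2.isClassFunction φ.1 g)
    rw [((c χ).2.isCharacter.restrict _).classInner_comm φ.2.isCharacter, ← classInner_conj_conj]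
    congr 1
    · funext n; simp [c]
    · funext n; exact (hg n _ rfl).symm
  obtain ⟨χ, hχ1, hχ2⟩ : ∃ χ, c χ = χ ∧ Odd (a χ * m χ) := by
    by_contra h
    push Not at h
    have h3 : ∑ χ, ((a χ * m χ : ℕ) : ZMod 2) = 0 := by
      refine Finset.sum_involution (fun χ _ => c χ) (fun χ _ => ?_) (fun χ _ h4 h5 => ?_)
        (fun _ _ => Finset.mem_univ _) (fun χ _ => ?_)
      · rw [hca, hcm]; exact CharTwo.add_self_eq_zero _
      · exact h4 ((ZMod.natCast_eq_zero_iff_even).2 (Nat.not_odd_iff_even.1 (h χ h5)))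
      · apply Subtype.ext; funext g; simp [c]
    rw [← Nat.cast_sum, hsum, ZMod.natCast_eq_zero_iff_even] at h3
    exact Nat.not_even_iff_odd.2 hkodd h3
  obtain ⟨h3, h4⟩ := Nat.odd_mul.1 hχ2
  refine ⟨χ, fsInd_eq_one_of_odd_inner χ.2 (congrArg Subtype.val hχ1).symm _ (ha χ) h3, ?_⟩
  have h5 : classInner (fun n : N => χ.1 ((NEmb.ofNormal N).f n)) φ.1 ≠ 0 := by
    change classInner (fun n : N => χ.1 n) φ.1 ≠ 0
    rw [hm, Nat.cast_ne_zero]
    exact h4.pos.ne'
  obtain ⟨e, he, h6⟩ := (NEmb.ofNormal N).degree_dvd_index φ.2 χ.2 h5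
  have h7 := (NEmb.ofNormal N).clifford_degree χ.2 φ.2 h5
  change _ = classInner (fun n : N => χ.1 n) φ.1 * _ * _ at h7
  rw [hm, h6, mul_left_inj' φ.2.apply_one_ne_zero] at h7
  have h8 : e = m χ * ((NEmb.ofNormal N).inertia φ.1).index := by exact_mod_cast h7
  obtain ⟨j, hj⟩ := h2.exists_card_eq
  rw [NEmb.ofNormal_range, Subgroup.index, hj] at he
  have h9 : m χ ∣ 2 ^ j := Dvd.dvd.trans ⟨_, h8⟩ he
  rw [hm, Nat.eq_one_of_dvd_coprimes ((Nat.coprime_two_right.2 h4).pow_right j) dvd_rfl h9,
    Nat.cast_one]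

end Cfsg.Agent.H8
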