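import Mathlib
import Cfsg.Agent.H8.Gagola2
import Cfsg.Agent.H4.Zass7
import Cfsg.Agent.H1.FrobCompl2
import Cfsg.Agent.S3742

/-! Solvable groups acting transitively on the nonidentity elements of an abelian `p`-group with
`p`-groups as stabilizers. -/

set_option autoImplicit false

namespace Cfsg.Agent.H8

open Cfsg Cfsg.Agent.H4 Subgroup Equiv
open scoped Pointwise commutatorElement

/-- The Klein four subgroup of the symmetric group of degree four. -/
def kleinS4 : Subgroup (Perm (Fin 4)) where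
  carrier := {a | a * a = 1 ∧ Perm.sign a = 1}
  one_mem' := by simp
  mul_mem' := by
    have : ∀ a b : Perm (Fin 4), (a * a = 1 ∧ Perm.sign a = 1) → (b * b = 1 ∧ Perm.sign b = 1) →
      (a * b * (a * b) = 1 ∧ Perm.sign (a * b) = 1) := by decide +kernel
    exact fun {a b} => this a b
  inv_mem' := by
    have : ∀ a : Perm (Fin 4), (a * a = 1 ∧ Perm.sign a = 1) →
      (a⁻¹ * a⁻¹ = 1 ∧ Perm.sign a⁻¹ = 1) := by decide
    exact fun {a} => this a

theorem s4_comm : ∀ a b : Perm (Fin 4), Perm.sign a = 1 → Perm.sign b = 1 →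
    (a * b * a⁻¹ * b⁻¹ * (a * b * a⁻¹ * b⁻¹) = 1 ∧ Perm.sign (a * b * a⁻¹ * b⁻¹) = 1) := by
  decide +kernel

theorem s4_norm : ∀ c a : Perm (Fin 4), c ^ 3 = 1 → c ≠ 1 → (c * (a * c * a⁻¹)) ^ 3 = 1 →
    (c * (a * c * a⁻¹)⁻¹) ^ 3 = 1 → Perm.sign a = 1 → a ^ 8 = 1 → a = 1 := by decide +kernel

theorem q8_aux : ∀ x y : QuaternionGroup 2, (x = 1 ∨ x = .a 2) → (y = 1 ∨ y = .a 2) →
    x * (QuaternionGroup.a 1)⁻¹ ≠ y * (QuaternionGroup.xa 0)⁻¹ := by decide

theorem eight_dvd_of_four_dvd {k n : ℕ} (h : n + 1 = 3 ^ k) (h4 : 4 ∣ n) : 8 ∣ n := by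
  obtain ⟨j, rfl | rfl⟩ := Nat.even_or_odd' k
  · have : 3 ^ (2 * j) % 8 = 1 := by rw [pow_mul, Nat.pow_mod]; simp
    omega
  · have : 3 ^ (2 * j) % 8 = 1 := by rw [pow_mul, Nat.pow_mod]; simp
    rw [pow_succ] at h
    omega

variable {H V : Type*} [Group H] [Finite H] [Group V] [Finite V] [Nontrivial V]
  {φ : H →* MulAut V} {p : ℕ} [hp : Fact p.Prime]

theorem card_normalizer_of_trans (hV : IsPGroup p V)
    (hst : ∀ v, v ≠ 1 → ∀ a, φ a v = v → ∃ k, a ^ p ^ k = 1)
    (htr : ∀ v w, v ≠ 1 → w ≠ 1 → ∃ a, φ a v = w) (T : Sylow p H) :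
    ∃ n k, n + 1 = p ^ k ∧ Nat.card (normalizer (T : Set H)) = Nat.card T * n := by
  let W : Subgroup V :=
    { carrier := {v | ∀ t ∈ T, φ t v = v}
      one_mem' := fun t _ => map_one _
      mul_mem' := fun {a b} ha hb t ht => by rw [map_mul, ha t ht, hb t ht]
      inv_mem' := fun {a} ha t ht => by rw [map_inv, ha t ht] }
  obtain ⟨k, hk⟩ := (hV.to_subgroup W).exists_card_eq
  have hS : ∀ v ∈ W, v ≠ 1 → ∀ a, φ a v = v → a ∈ T := fun v hv v1 a ha => by
    let S : Subgroup H := (MulAction.stabilizer (MulAut V) v).comap φ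
    have h1 : IsPGroup p S := fun s => (hst v v1 s s.2).imp fun k hk => Subtype.ext hk
    have h2 : S = T := T.is_maximal' h1 fun t ht => hv t ht
    change a ∈ (T : Subgroup H)
    rw [← h2]
    exact ha
  obtain ⟨w, hw, w1⟩ : ∃ w ∈ W, w ≠ 1 := by
    letI : MulAction T V := MulAction.compHom V (φ.comp (T : Subgroup H).subtype)
    obtain ⟨n, hn⟩ := hV.exists_card_eq
    have hd : p ∣ Nat.card V := by
      rw [hn]
      refine dvd_pow_self p ?_
      rintro rfl
      exact (Finite.one_lt_card (α := V)).ne' hn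
    obtain ⟨b, hb, b1⟩ := T.isPGroup'.exists_fixed_point_of_prime_dvd_card_of_fixed_point V hd
      (a := 1) (fun t => map_one (φ t))
    exact ⟨b, fun t ht => hb ⟨t, ht⟩, b1.symm⟩
  letI : MulAction (normalizer (T : Set H)) V :=
    MulAction.compHom V (φ.comp (normalizer (T : Set H)).subtype)
  have h1 := MulAction.index_stabilizer (normalizer (T : Set H)) w
  have h2 : MulAction.stabilizer (normalizer (T : Set H)) w =
      (T : Subgroup H).subgroupOf (normalizer (T : Set H)) := by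
    ext a
    exact ⟨fun ha => hS w hw w1 a ha, fun ha => hw a ha⟩
  have h3 : MulAction.orbit (normalizer (T : Set H)) w = (W : Set V) \ {1} := by
    ext v
    constructor
    · rintro ⟨a, rfl⟩
      refine ⟨fun t ht => ?_, ?_⟩
      · change φ t (φ a w) = φ a w
        have h4 : (a : H)⁻¹ * t * a ∈ T := by
          have := (mem_normalizer_iff.1 (inv_mem a.2) t).1 ht
          rwa [inv_inv] at this
        rw [← MulAut.mul_apply, ← map_mul, show t * a = a * ((a : H)⁻¹ * t * a) by group, map_mul,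
          MulAut.mul_apply, hw _ h4]
      · change φ a w ≠ 1
        simpa using w1
    · rintro ⟨hv, v1⟩
      obtain ⟨a, rfl⟩ := htr w v w1 v1
      refine ⟨⟨a, ?_⟩, rfl⟩
      rw [← inv_mem_iff]
      refine mem_normalizer_fintype fun t ht => hS w hw w1 _ ?_
      rw [inv_inv, map_mul, map_mul, MulAut.mul_apply, MulAut.mul_apply, hv t ht,
        ← MulAut.mul_apply, ← map_mul, inv_mul_cancel, map_one, MulAut.one_apply]
  refine ⟨((W : Set V) \ {1}).ncard, k, ?_, ?_⟩
  · rw [Set.ncard_diff_singleton_add_one W.one_mem, ← hk]; rfl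
  · rw [← h3, ← h1, h2, ← H1.card_subgroupOf_of_le (K := normalizer (T : Set H)) le_normalizer,
      card_mul_index]

theorem not_dvd_card_commutator [IsMulCommutative V] (hV : IsPGroup p V)
    (hs : Group.IsSolvable H) (hO : pCore p H = ⊥)
    (hst : ∀ v, v ≠ 1 → ∀ a, φ a v = v → ∃ k, a ^ p ^ k = 1)
    (htr : ∀ v w, v ≠ 1 → w ≠ 1 → ∃ a, φ a v = w) : ¬ p ∣ Nat.card (commutator H) := by
  intro hd
  obtain ⟨⟨u, hu⟩, ho⟩ := exists_prime_orderOf_dvd_card' p hd
  rw [orderOf_mk] at ho
  have hfp : ∀ a : H, a ≠ 1 → (orderOf a).Coprime p → ∀ v, φ a v = v → v = 1 :=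
    fun a a1 ha v hv => by
      by_contra v1
      obtain ⟨k, hk⟩ := hst v v1 a hv
      exact a1 (orderOf_eq_one_iff.1
        ((ha.pow_right k).eq_one_of_dvd (orderOf_dvd_of_pow_eq_one hk)))
  obtain ⟨q, hq, huq⟩ : ∃ q : ℕ, q.Prime ∧ u ∉ centralizer (pCore q H : Set H) := by
    by_contra! hc
    have h1 : u ∈ fittingSubgroup H := by
      refine H1.centralizer_fittingSubgroup_le hs ?_
      have : fittingSubgroup H ≤ centralizer {u} := by
        rw [H1.fittingSubgroup_eq_iSup_pCore]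
        exact iSup_le fun q y hy => mem_centralizer_singleton_iff.2 (hc q q.2 y hy)
      exact fun y hy => mem_centralizer_singleton_iff.1 (this hy)
    have h2 := H1.le_pCore_of_le_fittingSubgroup
      (H11.isPGroup_zpowers_of_orderOf (k := 1) (ho.trans (pow_one p).symm)) (zpowers_le.2 h1)
    rw [hO, le_bot_iff, zpowers_eq_bot] at h2
    exact hp.out.one_lt.ne (by rw [← ho, h2, orderOf_one])
  haveI := Fact.mk hq
  have hqp : q ≠ p := by
    rintro rfl
    exact huq fun y hy => by rw [hO, SetLike.mem_coe, mem_bot] at hy; rw [hy, one_mul, mul_one]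
  have hQ := H1.isPGroup_pCore q H
  have hQn : (pCore q H).Normal := inferInstance
  generalize pCore q H = Q at huq hQ hQn
  have hsr : H1.Semireg (φ.comp Q.subtype) := fun a a1 => hfp a (by simpa using a1) (by
    obtain ⟨k, hk⟩ := IsPGroup.iff_orderOf.1 hQ a
    rw [orderOf_coe, hk]
    exact ((Nat.coprime_primes hq hp.out).2 hqp).pow_left k)
  rcases hsr.isCyclic_or_quaternion hQ with hc | ⟨rfl, n, hn, ⟨e⟩⟩
  · refine huq ((commutator_le.2 fun a _ b _ => ?_ : commutator H ≤ _) hu)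
    exact commutator_mem_centralizer_of_isCyclic (le_normalizer_of_normal (mem_top a))
      (le_normalizer_of_normal (mem_top b))
  obtain ⟨h8, h3⟩ := (cube_mem_centralizer hQ (Or.inr ⟨n, hn, ⟨e⟩⟩)
    (le_normalizer_of_normal (mem_top u)) (ho ▸ hp.out.odd_of_ne_two hqp.symm)).resolve_left huq
  obtain rfl : p = 3 := by
    by_contra e3
    refine huq (zpowers_le.2 h3 (mem_zpowers_pow_iff.2 ?_))
    rw [ho]
    exact (Nat.coprime_primes Nat.prime_three hp.out).2 (Ne.symm e3)
  obtain rfl : n = 1 := by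
    rw [Nat.card_congr e.toEquiv, Nat.card_eq_fintype_card, QuaternionGroup.card] at h8
    exact Nat.pow_right_injective le_rfl (show 2 ^ n = 2 ^ 1 by omega)
  replace e : Q ≃* QuaternionGroup 2 := e
  obtain ⟨ψ⟩ := S3742.result
  let f : H →* Perm (Fin 4) := ((MulAut.congr e).trans ψ).toMonoidHom.comp MulAut.conjNormal
  have hf : f.ker = centralizer (Q : Set H) := by
    rw [← H1.ker_conjNormal, MonoidHom.ker_comp_of_injective _ _ (MulEquiv.injective _)]
  clear_value f
  have hinj : Function.Injective φ := by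
    rw [← MonoidHom.ker_eq_bot_iff, ← le_bot_iff, ← hO]
    obtain ⟨v, v1⟩ := exists_ne (1 : V)
    exact H1.le_pCore fun a => (hst v v1 a (by rw [a.2]; rfl)).imp fun k hk => Subtype.ext hk
  have hinv : ∀ s : H, s ≠ 1 → s * s = 1 → ∀ v, φ s v = v⁻¹ := fun s s1 s2 v => by
    have h1 := hfp s s1 (by rw [H11.orderOf_two_of s1 s2]; decide) (v * φ s v) (by
      rw [map_mul, ← MulAut.mul_apply, ← map_mul, s2, map_one, MulAut.one_apply, mul_comm'])
    exact eq_inv_of_mul_eq_one_right h1
  have hz : ∀ s : H, s * s = 1 → s = 1 ∨ s = e.symm (.a 2) := fun s s2 => by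
    by_cases s1 : s = 1
    · exact Or.inl s1
    refine Or.inr (hinj (MulEquiv.ext fun v => ?_))
    rw [hinv s s1 s2, hinv]
    · rw [Ne, OneMemClass.coe_eq_one, e.symm.map_eq_one_iff]; decide
    · rw [← coe_mul, ← map_mul, OneMemClass.coe_eq_one, e.symm.map_eq_one_iff]; decide
  have hzk : ∀ s : H, s * s = 1 → f s = 1 := fun s s2 => by
    rcases hz s s2 with rfl | rfl
    · exact map_one f
    rw [← MonoidHom.mem_ker, hf]
    intro y hy
    obtain ⟨y', hy'⟩ := e.symm.surjective ⟨y, hy⟩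
    rw [show y = e.symm y' from (congrArg Subtype.val hy').symm, ← coe_mul, ← coe_mul, ← map_mul,
      ← map_mul]
    have : ∀ y : QuaternionGroup 2, y * .a 2 = .a 2 * y := by decide
    rw [this]
  have h4 : ∀ r ∈ centralizer (Q : Set H), r ^ 4 = 1 → r ^ 2 = 1 := fun r hr r4 => by
    by_contra r2
    have h1 := (hz (r ^ 2) (by rw [← pow_add]; exact r4)).resolve_left r2
    have key : ∀ i : QuaternionGroup 2, i * i = .a 2 →
        ∃ x, (x = 1 ∨ x = .a 2) ∧ r = e.symm (x * i⁻¹) := fun i hi => by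
      have h2 : Commute r (e.symm i) := (hr _ (e.symm i).2).symm
      have h3 : r * e.symm i * (r * e.symm i) = 1 := by
        rw [← sq, h2.mul_pow, h1, ← coe_pow, ← coe_mul, ← map_pow, ← map_mul, sq, hi,
          OneMemClass.coe_eq_one, e.symm.map_eq_one_iff]
        decide
      rcases hz _ h3 with h5 | h5
      · exact ⟨1, Or.inl rfl, by simpa using eq_inv_of_mul_eq_one_left h5⟩
      · exact ⟨_, Or.inr rfl, by rw [map_mul, map_inv, coe_mul, coe_inv, ← h5]; group⟩
    obtain ⟨x, hx, h5⟩ := key (.a 1) (by decide)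
    obtain ⟨y, hy, h6⟩ := key (.xa 0) (by decide)
    exact q8_aux x y hx hy (e.symm.injective (Subtype.ext (h5.symm.trans h6)))
  have c1 : f u ≠ 1 := by rwa [← hf] at huq
  obtain ⟨T, hT⟩ := H11.exists_sylow_mem (p := 3) (k := 1) ho
  have c3 : ∀ t ∈ T, f t ^ 3 = 1 := fun t ht => by
    obtain ⟨k, hk⟩ := T.isPGroup' ⟨t, ht⟩
    have h1 : orderOf (f t) ∣ 3 ^ k := orderOf_dvd_of_pow_eq_one (by
      rw [← map_pow, show t ^ 3 ^ k = 1 from congrArg Subtype.val hk, map_one])
    have h2 := orderOf_dvd_natCard (f t)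
    rw [Nat.card_perm, Nat.card_fin] at h2
    exact orderOf_dvd_iff_pow_eq_one.1 (Nat.Coprime.dvd_of_dvd_mul_left (m := 8)
      (Nat.Coprime.coprime_dvd_left h1 (Nat.Coprime.pow_left k (by decide))) h2)
  let K := (Perm.sign.comp f).ker
  have hK : ∀ a, a ∈ K ↔ Perm.sign (f a) = 1 := fun a => Iff.rfl
  obtain ⟨s, hs, sK⟩ : ∃ s ∈ normalizer (T : Set H), s ∉ K := by
    by_contra! hc
    have h1 := Sylow.normalizer_sup_eq_top' (N := K) T fun t ht => by
      have := congrArg Perm.sign (c3 t ht)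
      rw [map_pow, map_one, pow_succ, Int.units_sq, one_mul] at this
      exact this
    have h2 : K = ⊤ := by rw [← h1]; exact (sup_eq_right.2 hc).symm
    have h5 : commutator H ≤ kleinS4.comap f := commutator_le.2 fun a _ b _ => by
      rw [mem_comap, map_commutatorElement]
      exact s4_comm (f a) (f b) ((hK a).1 (h2 ▸ mem_top a)) ((hK b).1 (h2 ▸ mem_top b))
    have h6 : f u * f u = 1 := (h5 hu).1
    have h7 := c3 u hT
    rw [pow_succ, sq, h6, one_mul] at h7
    exact c1 h7
  have s1 : Perm.sign (f s) = -1 := (Int.units_eq_one_or _).resolve_left sK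
  have s4 : 4 ∣ orderOf s := by
    obtain ⟨m, hm⟩ : Even (orderOf s) := by
      by_contra e
      have := congrArg (fun x => Perm.sign (f x)) (pow_orderOf_eq_one s)
      simp only [map_pow, map_one, s1, (Nat.not_even_iff_odd.1 e).neg_one_pow] at this
      exact absurd this (by decide)
    obtain ⟨l, hl⟩ : Even m := by
      by_contra e
      have := congrArg Perm.sign (hzk (s ^ m) (by rw [← pow_add, ← hm, pow_orderOf_eq_one]))
      simp only [map_pow, map_one, s1, (Nat.not_even_iff_odd.1 e).neg_one_pow] at this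
      exact absurd this (by decide)
    exact ⟨l, by omega⟩
  obtain ⟨n, k, hnk, hc⟩ := card_normalizer_of_trans hV hst htr T
  obtain ⟨j, hj⟩ := T.isPGroup'.exists_card_eq
  have h5 : 2 ^ 3 ∣ Nat.card (normalizer (T : Set H)) := by
    have h6 := s4.trans ((normalizer (T : Set H)).orderOf_dvd_natCard hs)
    rw [hc, hj] at h6 ⊢
    exact (eight_dvd_of_four_dvd hnk
      (Nat.Coprime.dvd_of_dvd_mul_left (Nat.Coprime.pow_right j (by decide)) h6)).mul_left _
  obtain ⟨R, hR⟩ := Sylow.exists_subgroup_card_pow_prime 2 h5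
  let g : R →* ℤˣ := (Perm.sign.comp f).comp ((normalizer (T : Set H)).subtype.comp R.subtype)
  have h6 : Nat.card g.ker ≤ 2 := by
    have h7 : ∀ r : g.ker, (((r : R) : normalizer (T : Set H)) : H) = 1 ∨
        (((r : R) : normalizer (T : Set H)) : H) = e.symm (.a 2) := fun r => by
      have r8 : (((r : R) : normalizer (T : Set H)) : H) ^ 2 ^ 3 = 1 := by
        rw [← hR, ← coe_pow, ← coe_pow, pow_card_eq_one']; rfl
      have rs : Perm.sign (f ((r : R) : normalizer (T : Set H))) = 1 := r.2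
      have rN := ((r : R) : normalizer (T : Set H)).2
      generalize (((r : R) : normalizer (T : Set H)) : H) = a at r8 rs rN
      have h8 : a * u * a⁻¹ ∈ T := (mem_normalizer_iff.1 rN u).1 hT
      have h9 := s4_norm (f u) (f a) (c3 u hT) c1 (by simpa using c3 _ (mul_mem hT h8))
        (by simpa using c3 _ (mul_mem hT (inv_mem h8))) rs (by rw [← map_pow, show a ^ 8 = 1 from r8, map_one])
      rw [← MonoidHom.mem_ker, hf] at h9
      exact hz a (by rw [← sq]; exact H1.sq_eq_one_of_pow h9 h4 3 r8)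
    calc Nat.card g.ker ≤ Nat.card ({1, (e.symm (.a 2) : H)} : Set H) :=
          Nat.card_le_card_of_injective (fun r => ⟨_, h7 r⟩) fun a b hab =>
            Subtype.ext (Subtype.ext (Subtype.ext (Subtype.mk.inj hab)))
      _ ≤ 2 := by
          rw [Nat.card_coe_set_eq]
          exact (Set.ncard_insert_le _ _).trans (by simp)
  have h7 : g.ker.index ≤ 2 := by
    rw [index_ker]
    exact (card_le_card_group _).trans (by simp)
  have h9 := g.ker.card_mul_index
  rw [hR] at h9
  nlinarith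

theorem pnil_of_not_dvd_commutator (h : ¬ p ∣ Nat.card (commutator H)) :
    HasNormalPComplement p H ∧ ∀ Q : Sylow p H, IsMulCommutative (Q : Subgroup H) := by
  refine ⟨H3.hasNormalPComplement_of_quotient_of_not_dvd _ h ?_, fun Q => ⟨⟨fun a b => ?_⟩⟩⟩
  · haveI : Group.IsNilpotent (H ⧸ commutator H) :=
      (inferInstance : Group.IsNilpotent (Abelianization H))
    exact H3.hasNormalPComplement_of_isNilpotent
  · obtain ⟨k, hk⟩ := IsPGroup.iff_orderOf.1 Q.isPGroup' ⁅a, b⁆
    have h1 : ((⁅a, b⁆ : (Q : Subgroup H)) : H) ∈ commutator H :=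
      commutator_mem_commutator (mem_top (a : H)) (mem_top (b : H))
    have h2 := (commutator H).orderOf_dvd_natCard h1
    rw [orderOf_coe, hk] at h2
    obtain rfl : k = 0 := by
      by_contra e
      exact h ((dvd_pow_self p e).trans h2)
    exact commutatorElement_eq_one_iff_mul_comm.1 (orderOf_eq_one_iff.1 hk)

theorem GagG.not_dvd_commutator {G : Type*} [Group G] [Finite G] {N : Subgroup G} (h : GagG N p)
    (hs : Group.IsSolvable G) : ¬ p ∣ Nat.card (commutator (G ⧸ pCore p G)) := by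
  haveI := h.normal
  haveI : Nontrivial N := (nontrivial_iff_ne_bot N).2 h.ne_bot
  haveI : IsMulCommutative N := ⟨⟨fun a b => Subtype.ext (h.comm a a.2 b b.2)⟩⟩
  let φ : G ⧸ pCore p G →* MulAut N := QuotientGroup.lift _ MulAut.conjNormal (by
    rw [H1.ker_conjNormal, h.centralizer_eq])
  refine not_dvd_card_commutator (φ := φ) h.pg inferInstance (H1.pCore_quotient_pCore p)
    (fun v v1 a ha => ?_) fun v w v1 w1 => ?_
  · obtain ⟨a, rfl⟩ := QuotientGroup.mk_surjective a
    obtain ⟨k, hk⟩ := h.cent v v.2 (by simpa using v1) ⟨a, mem_centralizer_singleton_iff.2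
      (mul_inv_eq_iff_eq_mul.1 (congrArg Subtype.val ha))⟩
    exact ⟨k, by rw [← QuotientGroup.mk_pow, show a ^ p ^ k = 1 from congrArg Subtype.val hk]; rfl⟩
  · obtain ⟨c, hc⟩ := isConj_iff.1 (h.cj v v.2 w w.2 (by simpa using v1) (by simpa using w1))
    exact ⟨c, Subtype.ext hc⟩

end Cfsg.Agent.H8
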