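import Cfsg.Agent.H8.Glaub4
import Cfsg.Agent.H8.Deg3
import Cfsg.Agent.H8.Princ

/-!
Characters of degree prime to `p` in the principal block fixed by the power map `1 + p`.
-/

namespace Cfsg.Agent.H8

open Cfsg Cfsg.Agent.H4 Cfsg.Agent.H5 Cfsg.Agent.H3
open scoped ComplexConjugate

variable {G : Type*} [Group G] [Finite G] {p : ℕ} [hp : Fact p.Prime]

theorem card_lin_pow_eq_one (N : Subgroup G) [N.Normal] (hcyc : IsCyclic (G ⧸ N)) {d : ℕ}
    (hd : d ∣ N.index) :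
    Nat.card {lam : G →* ℂˣ // (∀ n ∈ N, lam n = 1) ∧ lam ^ d = 1} = d := by
  let _ : CommGroup (G ⧸ N) := IsCyclic.commGroup
  have : NeZero ((Monoid.exponent (G ⧸ N) : ℕ) : ℂ) :=
    ⟨Nat.cast_ne_zero.2 Monoid.exponent_ne_zero_of_finite⟩
  obtain ⟨e⟩ := CommGroup.monoidHom_mulEquiv_of_hasEnoughRootsOfUnity (G ⧸ N) ℂ
  have h1 := IsCyclic.card_powMonoidHom_ker (G ⧸ N) d
  rw [show Nat.card (G ⧸ N) = N.index from rfl, Nat.gcd_eq_right hd] at h1
  refine Eq.trans (Eq.symm ?_) h1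
  refine Nat.card_eq_of_bijective (fun x => ⟨(e.symm x.1).comp (QuotientGroup.mk' N), fun n hn => ?_, ?_⟩) ⟨?_, ?_⟩
  · simp [(QuotientGroup.eq_one_iff n).2 hn]
  · have h2 : x.1 ^ d = 1 := x.2
    have h3 : e.symm x.1 ^ d = 1 := by rw [← map_pow, h2, map_one]
    exact MonoidHom.ext fun g => DFunLike.congr_fun h3 (g : G ⧸ N)
  · intro x y hxy
    apply Subtype.ext
    apply e.symm.injective
    exact QuotientGroup.monoidHom_ext _ (congrArg Subtype.val hxy)
  · rintro ⟨lam, h2, h3⟩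
    refine ⟨⟨e (QuotientGroup.lift N lam h2), ?_⟩, ?_⟩
    · change e _ ^ d = 1
      rw [← map_pow, map_eq_one_iff _ e.injective]
      exact QuotientGroup.monoidHom_ext _ (MonoidHom.ext fun g => DFunLike.congr_fun h3 g)
    · apply Subtype.ext
      refine MonoidHom.ext fun g => ?_
      simp only [MulEquiv.symm_apply_apply]
      rfl

theorem coprime_of_pow_fix {k : ℕ} (h : ∀ g : G, (orderOf g).Prime → g ^ k = g) :
    k.Coprime (Nat.card G) := by
  apply Nat.coprime_of_dvd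
  intro r hr hrk hrG
  have := Fact.mk hr
  obtain ⟨g, hg⟩ := exists_prime_orderOf_dvd_card' (G := G) r hrG
  have h1 := h g (hg ▸ hr)
  rw [orderOf_dvd_iff_pow_eq_one.1 (hg ▸ hrk)] at h1
  rw [← h1, orderOf_one] at hg
  exact hr.one_lt.ne hg

theorem mem_principal_res {M : Ideal AlgInt} (hM : IsPModular p M) {N : Subgroup G}
    (hN : pResidual p G ≤ N) (χ : IrrCharacter G) (θ : IrrCharacter N)
    (h : ∀ n : N, χ.1 n = θ.1 n) : χ ∈ principalBlock M G ↔ θ ∈ principalBlock M N := by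
  have := Fintype.ofFinite G
  have := Fintype.ofFinite N
  rw [mem_principal_iff hM, mem_principal_iff hM]
  have h1 : ∑ g, pRegularPart p χ.1 g = ∑ n, pRegularPart p θ.1 n := by
    rw [← sum_extendByZero N]
    refine Finset.sum_congr rfl fun g _ => ?_
    by_cases hg : g ∈ N
    · rw [extendByZero_mem _ _ hg, pReg_eq_ite, pReg_eq_ite, ← h, Subgroup.orderOf_mk]
    · rw [extendByZero_not_mem _ _ hg, pReg_of_dvd]
      by_contra h2
      exact hg (hN (mem_pResidual_of_coprime ((hp.out.coprime_iff_not_dvd).2 h2).symm))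
  rw [h1]

theorem card_fixed_principal {M : Ideal AlgInt} (hM : IsPModular p M) (P : Sylow p G)
    (N : Subgroup G) [hN : N.Normal] (hNres : N = pResidual p G) (hcyc : IsCyclic (G ⧸ N))
    (hnt : N ≠ ⊤) (k : ℕ) (hk₁ : ∀ g : G, (∃ j : ℕ, orderOf g = p ^ j) → g ^ k = g ^ (1 + p))
    (hk₂ : ∀ g : G, Nat.Coprime (orderOf g) p → g ^ k = g) :
    Nat.card {χ : IrrCharacter G // χ ∈ principalBlock M G ∧ ¬ p ∣ charDegree (χ : G → ℂ) ∧
      ∀ g : G, (χ : G → ℂ) (g ^ k) = (χ : G → ℂ) g} =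
    p * Nat.card {θ : IrrCharacter N // θ ∈ principalBlock M N ∧ ¬ p ∣ charDegree (θ : N → ℂ) ∧
      (∀ x ∈ (P : Subgroup G), ∀ n : N,
        (θ : N → ℂ) ⟨x * n * x⁻¹, hN.conj_mem n n.2 x⟩ = (θ : N → ℂ) n) ∧
      ∀ n : N, (θ : N → ℂ) (n ^ k) = (θ : N → ℂ) n} := by
  classical
  have := Fintype.ofFinite G
  have := Fintype.ofFinite N
  have hk : k.Coprime (Nat.card G) := coprime_of_pow_fix fun g hg => by
    by_cases h : orderOf g = p
    · rw [hk₁ g ⟨1, by rw [h, pow_one]⟩, pow_add, ← h, pow_orderOf_eq_one, pow_one, mul_one]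
    · exact hk₂ g ((Nat.coprime_primes hg hp.out).2 h)
  let E := NEmb.ofNormal N
  have hE : E.f.range = N := NEmb.ofNormal_range N
  obtain ⟨a, ha⟩ : ∃ a, N.index = p ^ a := by rw [hNres]; exact exists_index_pResidual
  have hpN : p ∣ N.index := by
    rw [ha]
    refine dvd_pow_self p fun h => hnt ?_
    rw [h, pow_zero] at ha
    exact Subgroup.index_eq_one.1 ha
  have hcop : ∀ {d : ℕ}, ¬ p ∣ d → E.f.range.index.Coprime d := fun h => by
    rw [hE, ha]; exact ((hp.out.coprime_iff_not_dvd).2 h).pow_left a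
  have hdec : ∀ g : G, ∃ n ∈ N, ∃ x ∈ (P : Subgroup G), g = n * x := fun g => by
    obtain ⟨n, hn, x, hx, h⟩ := exists_eq_pResidual_mul_sylow P g
    exact ⟨n, hNres ▸ hn, x, hx, h⟩
  have hNN : pResidual p N = ⊤ := by subst hNres; exact pResidual_pResidual
  have hlam : ∀ lam : G →* ℂˣ, (∀ n ∈ N, lam n = 1) → (lam ^ k = lam ↔ lam ^ p = 1) := by
    intro lam h
    have h1 : ∀ g, lam g ^ k = lam g * lam g ^ p := fun g => by
      obtain ⟨n, hn, x, hx, rfl⟩ := hdec g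
      rw [map_mul, h n hn, one_mul, ← map_pow, hk₁ x, map_pow, pow_add, pow_one]
      obtain ⟨j, hj⟩ := IsPGroup.iff_orderOf.1 P.2 ⟨x, hx⟩
      exact ⟨j, by rw [← hj, Subgroup.orderOf_mk]⟩
    constructor
    · intro h2
      refine MonoidHom.ext fun g => ?_
      have h3 : lam g ^ k = lam g := DFunLike.congr_fun h2 g
      rw [h1] at h3
      simpa using h3
    · intro h2
      refine MonoidHom.ext fun g => ?_
      have h3 : lam g ^ p = 1 := DFunLike.congr_fun h2 g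
      change lam g ^ k = lam g
      rw [h1, h3, mul_one]
  set B := {θ : IrrCharacter N // θ ∈ principalBlock M N ∧ ¬ p ∣ charDegree (θ : N → ℂ) ∧
      (∀ x ∈ (P : Subgroup G), ∀ n : N,
        (θ : N → ℂ) ⟨x * n * x⁻¹, hN.conj_mem n n.2 x⟩ = (θ : N → ℂ) n) ∧
      ∀ n : N, (θ : N → ℂ) (n ^ k) = (θ : N → ℂ) n}
  have hext : ∀ θ : B, ∃ χ : G → ℂ, IsIrrCharacter G χ ∧ (∀ n : N, χ n = θ.1.1 n) ∧
      ∀ g, χ (g ^ k) = χ g := by
    rintro ⟨θ, -, h2, h3, h4⟩
    have hinv : ∀ g n, θ.1 (E.act g n) = θ.1 n := fun g n => by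
      obtain ⟨m, hm, x, hx, rfl⟩ := hdec g
      rw [E.act_mul]
      have := E.act_f ⟨m, hm⟩ (E.act x n)
      rw [show E.f ⟨m, hm⟩ = m from rfl] at this
      rw [this, θ.2.isClassFunction]
      exact h3 x hx n
    have hdo : E.f.range.index.Coprime (detOrder θ.1) := by
      rw [detOrder_eq]; exact hcop (not_dvd_orderOf_linear hNN _)
    obtain ⟨χ, hχ, h5, h6⟩ := E.exists_canonical_ext θ.2 hinv (irr_coe_charDegree θ).symm
      (hcop h2) hdo
    refine ⟨χ, hχ, h5, fun g => ?_⟩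
    refine congrFun (E.canonical_ext_unique θ.2 (irr_coe_charDegree θ).symm (hcop h2)
      (hχ.isCharacter.comp_pow hk) hχ.isCharacter (fun n => ?_) h5 ?_ (h6 ▸ hdo)) g
    · rw [← map_pow, h5, h4]
    · rw [detOrder_eq, detHom_comp_pow hχ.isCharacter hk]
      exact (h6 ▸ hdo).coprime_dvd_right (detOrder_eq χ ▸ orderOf_pow_dvd k)
  choose c hc1 hc2 hc3 using hext
  refine Eq.trans (Eq.symm ?_) ((Nat.card_prod _ _).trans
    (congrArg (· * Nat.card B) (card_lin_pow_eq_one N hcyc hpN)))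
  have hres : ∀ (lam : G →* ℂˣ) (h : ∀ n ∈ N, lam n = 1) (θ : B) (n : N),
      (c θ * fun g => (lam g : ℂ)) n = θ.1.1 n := fun lam h θ n => by
    simp [h n n.2, hc2]
  refine Nat.card_eq_of_bijective (fun x => ⟨⟨c x.2 * fun g => (x.1.1 g : ℂ),
    (hc1 x.2).mul_linear _⟩, ?_, ?_, ?_⟩) ⟨?_, ?_⟩
  · exact (mem_principal_res hM hNres.ge _ x.2.1 (hres _ x.1.2.1 _)).2 x.2.2.1
  · have h1 : charDegree (c x.2 * fun g => (x.1.1 g : ℂ)) = charDegree x.2.1.1 :=
      charDegree_eq_of_apply_one (by rw [irr_coe_charDegree]; exact hres _ x.1.2.1 _ 1)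
    simp only [h1]
    exact x.2.2.2.1
  · intro g
    have h1 : x.1.1 g ^ k = x.1.1 g := DFunLike.congr_fun ((hlam _ x.1.2.1).2 x.1.2.2) g
    simp only [Pi.mul_apply, hc3, map_pow, h1]
  · rintro ⟨⟨l, hl⟩, θ⟩ ⟨⟨l', hl'⟩, θ'⟩ h
    have h1 : (c θ * fun g => (l g : ℂ)) = c θ' * fun g => (l' g : ℂ) :=
      congrArg (fun x => x.1.1) h
    obtain rfl : θ = θ' := by
      apply Subtype.ext
      apply Subtype.ext
      funext n
      rw [← hres l hl.1, h1, hres l' hl'.1]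
    have h2 := E.gallagher_inj θ.1.2 (hc1 θ).isCharacter (hc2 θ) (isIrrCharacter_linear l)
      (isIrrCharacter_linear l') (fun n => by simp [E, hl.1 n n.2])
      (fun n => by simp [E, hl'.1 n n.2]) (by rw [mul_comm, h1, mul_comm])
    obtain rfl : l = l' := linear_ext h2
    rfl
  · rintro ⟨χ, h1, h2, h3⟩
    have hirr := irr_res_of_coprime E χ.2 (irr_coe_charDegree χ).symm (hcop h2)
    let θ : B := ⟨⟨_, hirr⟩, (mem_principal_res hM hNres.ge χ ⟨_, hirr⟩ (fun _ => rfl)).1 h1, h2,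
      fun x _ n => χ.2.isClassFunction n x, fun n => h3 n⟩
    obtain ⟨lam, h4, h5⟩ := E.exists_linear_of_ext hirr (hc1 θ).isCharacter (hc2 θ)
      χ.2.isCharacter (fun _ => rfl)
    have h6 : ∀ n ∈ N, lam n = 1 := fun n hn => h4 ⟨n, hn⟩
    have h7 : lam ^ k = lam := by
      apply linear_ext
      refine E.gallagher_inj hirr (hc1 θ).isCharacter (hc2 θ) (isIrrCharacter_linear _)
        (isIrrCharacter_linear lam) (fun n => by simp [E, h6 n n.2])
        (fun n => by simp [E, h6 n n.2]) ?_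
      funext g
      rw [← h5, ← h3 g, h5]
      simp [hc3]
    refine ⟨⟨⟨lam, h6, (hlam lam h6).1 h7⟩, θ⟩, ?_⟩
    apply Subtype.ext
    apply Subtype.ext
    rw [h5, mul_comm]

end Cfsg.Agent.H8
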