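import Cfsg.Agent.H8.Gal1
import Cfsg.Agent.H26.Taussky
import Cfsg.Agent.H3.PNil

/-!
Fields of values of `2`-elements and Sylow `2`-subgroups of maximal class.
-/

namespace Cfsg.Agent.H8

open Cfsg Cfsg.Agent.H4 Cfsg.Agent.H5 Cfsg.Agent.H3
open scoped ComplexConjugate commutatorElement

theorem fix_adjoin (σ : ℂ →+* ℂ) {S : Set ℂ} (h : ∀ z ∈ S, σ z = z) {z : ℂ}
    (hz : z ∈ IntermediateField.adjoin ℚ S) : σ z = z := by
  induction hz using IntermediateField.adjoin_induction with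
  | mem x hx => exact h x hx
  | algebraMap x => simp
  | add x y _ _ hx hy => rw [map_add, hx, hy]
  | inv x _ hx => rw [map_inv₀, hx]
  | mul x y _ _ hx hy => rw [map_mul, hx, hy]

theorem adjoin_le_of_fix {S T : Set ℂ} (hS : ∀ z ∈ S, IsIntegral ℤ z)
    (h : ∀ σ : ℂ →+* ℂ, (∀ z ∈ T, σ z = z) → ∀ z ∈ S, σ z = z) :
    IntermediateField.adjoin ℚ S ≤ IntermediateField.adjoin ℚ T := by
  rw [IntermediateField.adjoin_le_iff]
  intro z hz
  have h1 : IsAlgebraic (IntermediateField.adjoin ℚ T) z :=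
    ((hS z hz).tower_top (A := ℚ)).isAlgebraic.tower_top _
  obtain ⟨⟨w, hw⟩, rfl⟩ := mem_range_of_forall_algEquiv _ h1 fun σ =>
    h (σ : ℂ →+* ℂ) (fun t ht => σ.commutes ⟨t, IntermediateField.subset_adjoin ℚ T ht⟩) z hz
  exact hw

theorem fix_root_iff {ζ ε : ℂ} (hζ : ζ ≠ 0) (l : ℕ) :
    ζ ^ l + ε * (ζ ^ l)⁻¹ = ζ + ε * ζ⁻¹ ↔ ζ ^ l = ζ ∨ ζ ^ (l + 1) = ε := by
  have h1 : ζ ^ l ≠ 0 := pow_ne_zero _ hζ
  have h2 : ζ ^ l + ε * (ζ ^ l)⁻¹ - (ζ + ε * ζ⁻¹) =
      (ζ ^ l - ζ) * (ζ ^ (l + 1) - ε) * (ζ ^ (l + 1))⁻¹ := by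
    field_simp
    ring
  rw [← sub_eq_zero, h2, mul_eq_zero, mul_eq_zero, sub_eq_zero, sub_eq_zero,
    or_iff_left (inv_ne_zero (pow_ne_zero _ hζ))]

variable {G : Type*} [Group G] [Finite G]

theorem fix_values_iff {σ : ℂ →+* ℂ} {N l : ℕ} (hσ : ∀ ε : ℂ, ε ^ N = 1 → σ ε = ε ^ l) {g : G}
    (hg : g ^ N = 1) :
    (∀ z ∈ {z : ℂ | ∃ χ : IrrCharacter G, (χ : G → ℂ) g = z}, σ z = z) ↔ IsConj g (g ^ l) := by
  rw [isConj_iff_forall_irr]
  constructor
  · intro h χ
    rw [← χ.2.isCharacter.map_apply_eq_pow hσ hg, h _ ⟨χ, rfl⟩]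
  · rintro h _ ⟨χ, rfl⟩
    rw [χ.2.isCharacter.map_apply_eq_pow hσ hg, ← h]

omit [Finite G] in
theorem commutator_eq_zpowers_of_index_two {a x : G} (h2 : (Subgroup.zpowers a).index = 2)
    (hx : x ∉ Subgroup.zpowers a) :
    commutator G = Subgroup.zpowers (x * a * x⁻¹ * a⁻¹) := by
  have hn : (Subgroup.zpowers a).Normal := Subgroup.normal_of_index_eq_two h2
  apply le_antisymm
  · have hc : x * a * x⁻¹ * a⁻¹ ∈ Subgroup.zpowers a :=
      Subgroup.mul_mem _ (hn.conj_mem a (Subgroup.mem_zpowers a) x)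
        (Subgroup.inv_mem _ (Subgroup.mem_zpowers a))
    obtain ⟨i, hi⟩ := Subgroup.mem_zpowers_iff.1 hc
    have hnn : (Subgroup.zpowers (x * a * x⁻¹ * a⁻¹)).Normal := ⟨fun c hc g => by
      obtain ⟨j, rfl⟩ := Subgroup.mem_zpowers_iff.1 hc
      obtain ⟨t, ht⟩ := Subgroup.mem_zpowers_iff.1 (hn.conj_mem a (Subgroup.mem_zpowers a) g)
      rw [← hi, ← zpow_mul, ← conj_zpow, ← ht, ← zpow_mul, mul_comm t, mul_assoc, zpow_mul]
      exact Subgroup.zpow_mem_zpowers _ _⟩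
    let π := QuotientGroup.mk' (Subgroup.zpowers (x * a * x⁻¹ * a⁻¹))
    have h1 : Commute (π x) (π a) := by
      rw [← commutatorElement_eq_one_iff_commute, ← map_commutatorElement]
      exact (QuotientGroup.eq_one_iff _).2 (Subgroup.mem_zpowers _)
    have h3 : ∀ g : G, ∃ i : ℤ, g = a ^ i ∨ g = x * a ^ i := fun g => by
      by_cases hg : g ∈ Subgroup.zpowers a
      · obtain ⟨i, hi⟩ := Subgroup.mem_zpowers_iff.1 hg
        exact ⟨i, Or.inl hi.symm⟩
      · have : x⁻¹ * g ∈ Subgroup.zpowers a := by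
          rw [Subgroup.mul_mem_iff_of_index_two h2]
          simp [hx, hg]
        obtain ⟨i, hi⟩ := Subgroup.mem_zpowers_iff.1 this
        exact ⟨i, Or.inr (by rw [hi]; group)⟩
    rw [commutator_def, Subgroup.commutator_le]
    intro g _ h _
    rw [← QuotientGroup.eq_one_iff]
    change π _ = 1
    rw [map_commutatorElement, commutatorElement_eq_one_iff_commute]
    obtain ⟨i, rfl | rfl⟩ := h3 g <;> obtain ⟨j, rfl | rfl⟩ := h3 h <;>
      simp only [map_mul, map_zpow]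
    · exact (Commute.refl _).zpow_zpow _ _
    · exact (h1.symm.zpow_left _).mul_right ((Commute.refl _).zpow_zpow _ _)
    · exact (h1.zpow_right _).mul_left ((Commute.refl _).zpow_zpow _ _)
    · exact ((Commute.refl _).mul_right (h1.zpow_right _)).mul_left
        ((h1.symm.zpow_left _).mul_right ((Commute.refl _).zpow_zpow _ _))
  · rw [Subgroup.zpowers_le, commutator_def]
    exact Subgroup.commutator_mem_commutator (Subgroup.mem_top x) (Subgroup.mem_top a)

theorem index_four_iff {a x : G} {m j : ℕ} (hm : 2 ≤ m) (ha : orderOf a = 2 ^ m)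
    (h2 : (Subgroup.zpowers a).index = 2) (hx : x ∉ Subgroup.zpowers a)
    (hj : x * a * x⁻¹ = a ^ (2 * j + 1)) : (commutator G).index = 4 ↔ Odd j := by
  obtain ⟨m, rfl⟩ := Nat.exists_eq_add_of_le' hm
  have h1 : Nat.card G = 2 ^ (m + 2) * 2 := by
    rw [← (Subgroup.zpowers a).card_mul_index, Nat.card_zpowers, ha, h2]
  have h3 := (commutator G).card_mul_index
  rw [commutator_eq_zpowers_of_index_two h2 hx, hj, pow_succ, mul_inv_cancel_right] at h3 ⊢
  rw [Nat.card_zpowers, h1] at h3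
  constructor
  · intro h4
    rw [h4] at h3
    by_contra h5
    obtain ⟨i, rfl⟩ := Nat.not_odd_iff_even.1 h5
    have h6 : orderOf (a ^ (2 * (i + i))) ∣ 2 ^ m := by
      rw [orderOf_dvd_iff_pow_eq_one, ← pow_mul, ← orderOf_dvd_iff_pow_eq_one, ha]
      exact ⟨i, by ring⟩
    have h7 := Nat.le_of_dvd (by positivity) h6
    have h8 : 0 < 2 ^ m := by positivity
    rw [pow_add] at h3
    omega
  · intro h4
    have h5 : orderOf (a ^ (2 * j)) = 2 ^ (m + 1) := by
      rw [pow_mul, Nat.Coprime.orderOf_pow]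
      · rw [orderOf_pow' _ two_ne_zero, ha, Nat.gcd_eq_right (dvd_pow_self 2 (by omega)), pow_succ,
          Nat.mul_div_cancel _ two_pos]
      · rw [orderOf_pow' _ two_ne_zero, ha, Nat.gcd_eq_right (dvd_pow_self 2 (by omega)), pow_succ,
          Nat.mul_div_cancel _ two_pos]
        exact (Nat.coprime_two_left.2 h4).pow_left _
    rw [h5, pow_succ 2 (m + 1), mul_assoc] at h3
    exact Nat.eq_of_mul_eq_mul_left (by positivity) h3

theorem exists_conj_pow_odd {a x : G} {m : ℕ} (hm : 1 ≤ m) (ha : orderOf a = 2 ^ m)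
    (h : x * a * x⁻¹ ∈ Subgroup.zpowers a) : ∃ j : ℕ, x * a * x⁻¹ = a ^ (2 * j + 1) := by
  classical
  obtain ⟨k, hk⟩ := (mem_zpowers_iff_mem_range_orderOf.1 h) |> Finset.mem_image.1
  rcases Nat.even_or_odd' k with ⟨j, rfl | rfl⟩
  · exfalso
    obtain ⟨m, rfl⟩ := Nat.exists_eq_add_of_le' hm
    have h1 : orderOf (x * a * x⁻¹) ∣ 2 ^ m := by
      rw [← hk.2, orderOf_dvd_iff_pow_eq_one, ← pow_mul, ← orderOf_dvd_iff_pow_eq_one, ha]
      exact ⟨j, by ring⟩
    rw [orderOf_conj', ha] at h1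
    have := Nat.le_of_dvd (by positivity) h1
    have h8 : 0 < 2 ^ m := by positivity
    rw [pow_succ] at this
    omega
  · exact ⟨j, hk.2.symm⟩

theorem exists_sylow_conj (P : Sylow 2 G) {g y : G} {m : ℕ} (hg : orderOf g = 2 ^ m)
    (hP : (P : Subgroup G) ≤ Subgroup.normalizer (Subgroup.zpowers g : Set G))
    (hy : y * g * y⁻¹ ∈ Subgroup.zpowers g) : ∃ x ∈ (P : Subgroup G), x * g * x⁻¹ = y * g * y⁻¹ := by
  have hyN : y ∈ Subgroup.normalizer (Subgroup.zpowers g : Set G) := by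
    refine Subgroup.mem_normalizer_fintype (S := (Subgroup.zpowers g : Set G)) fun c hc => ?_
    obtain ⟨i, rfl⟩ := Subgroup.mem_zpowers_iff.1 hc
    rw [← conj_zpow]
    exact Subgroup.zpow_mem _ hy i
  let φ := (Subgroup.zpowers g).normalizerMonoidHom
  have hA : IsPGroup 2 (MulAut (Subgroup.zpowers g)) := by
    apply IsPGroup.of_card_dvd_pow (n := m)
    rw [IsCyclic.card_mulAut, Nat.card_zpowers, hg]
    rcases Nat.eq_zero_or_pos m with rfl | hm
    · simp
    · rw [Nat.totient_prime_pow Nat.prime_two hm]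
      simpa using pow_dvd_pow 2 (Nat.sub_le m 1)
  have hq : IsPGroup 2 (_ ⧸ φ.ker) :=
    hA.of_injective (QuotientGroup.kerLift φ) (QuotientGroup.kerLift_injective φ)
  have hsup := sup_sylow_eq_top_of_isPGroup_quotient hq (P.subtype hP)
  have : (⟨y, hyN⟩ : Subgroup.normalizer (Subgroup.zpowers g : Set G)) ∈ φ.ker ⊔ (P.subtype hP : Subgroup _) := by
    rw [hsup]; trivial
  obtain ⟨c, hc, x, hx, hcx⟩ := Subgroup.mem_sup_of_normal_left.mp this
  refine ⟨x, hx, ?_⟩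
  have h1 : φ x = φ ⟨y, hyN⟩ := by rw [← hcx, map_mul, hc, one_mul]
  exact congrArg (fun f : MulAut (Subgroup.zpowers g) => (f ⟨g, Subgroup.mem_zpowers g⟩ : G)) h1

theorem even_index_centralizer_iff {p : ℕ} [Fact p.Prime] (g : G) :
    ¬ p ∣ (Subgroup.centralizer ({g} : Set G)).index ↔
      ∃ Q : Sylow p G, (Q : Subgroup G) ≤ Subgroup.centralizer ({g} : Set G) := by
  constructor
  · intro h
    obtain ⟨Q⟩ : Nonempty (Sylow p (Subgroup.centralizer ({g} : Set G))) := inferInstance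
    refine ⟨(Q.2.map (Subgroup.subtype _)).toSylow ?_, Subgroup.map_subtype_le _⟩
    rw [Subgroup.index_map_subtype]
    exact (Fact.out : p.Prime).not_dvd_mul Q.not_dvd_index h
  · rintro ⟨Q, hQ⟩ h
    exact Q.not_dvd_index (h.trans (Subgroup.index_dvd_of_le hQ))

theorem field_of_index_four (P : Sylow 2 G) {m : ℕ} (hm : 2 ≤ m) (hP : Nat.card P = 2 ^ (m + 1))
    {ζ : ℂ} (hζ : IsPrimitiveRoot ζ (2 ^ m)) (h4 : (commutator P).index = 4) :
    ∃ g ∈ (P : Subgroup G), 2 ∣ (Subgroup.centralizer ({g} : Set G)).index ∧ ∃ ε : ℂ,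
      (ε = 1 ∨ ε = -1) ∧ IntermediateField.adjoin ℚ {z : ℂ | ∃ χ : IrrCharacter G, (χ : G → ℂ) g = z} =
        IntermediateField.adjoin ℚ ({ζ + ε * ζ⁻¹} : Set ℂ) := by
  obtain ⟨a, h2⟩ := H26.exists_zpowers_index_two P P.2 h4
  have ha : orderOf a = 2 ^ m := by
    have := (Subgroup.zpowers a).card_mul_index
    rw [Nat.card_zpowers, h2] at this
    change _ = Nat.card P at this
    rw [hP, pow_succ] at this
    omega
  have hn : (Subgroup.zpowers a).Normal := Subgroup.normal_of_index_eq_two h2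
  obtain ⟨x, hx⟩ : ∃ x, x ∉ Subgroup.zpowers a := by
    by_contra h
    push Not at h
    rw [(Subgroup.eq_top_iff' _).2 h, Subgroup.index_top] at h2
    omega
  obtain ⟨j, hj⟩ := exists_conj_pow_odd (by omega) ha (hn.conj_mem a (Subgroup.mem_zpowers a) x)
  have hodd := (index_four_iff hm ha h2 hx hj).1 h4
  have hg : orderOf (a : G) = 2 ^ m := by rw [Subgroup.orderOf_coe, ha]
  have hζ0 : ζ ≠ 0 := hζ.ne_zero (by positivity)
  have hpow : ∀ s t : ℕ, (a : G) ^ s = (a : G) ^ t ↔ ζ ^ s = ζ ^ t := fun s t => by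
    rw [pow_eq_pow_iff_modEq, hg, hζ.eq_orderOf, ← Units.val_mk0 hζ0, orderOf_units, ← Units.val_pow_eq_pow_val,
      ← Units.val_pow_eq_pow_val, Units.val_inj, pow_eq_pow_iff_modEq]
  have hjG : (x : G) * a * (x : G)⁻¹ = (a : G) ^ (2 * j + 1) := congrArg Subtype.val hj
  have hε : ζ ^ (2 * j + 1 + 1) = 1 ∨ ζ ^ (2 * j + 1 + 1) = -1 := by
    rw [← sq_eq_one_iff, ← pow_mul, hζ.pow_eq_one_iff_dvd]
    have hxx : x * x ∈ Subgroup.zpowers a := by
      rw [Subgroup.mul_mem_iff_of_index_two h2]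
    obtain ⟨i, hi⟩ := Subgroup.mem_zpowers_iff.1 hxx
    have h5 : a ^ ((2 * j + 1) * (2 * j + 1)) = a ^ 1 := by
      rw [pow_mul, ← hj, conj_pow, ← hj, pow_one]
      calc x * (x * a * x⁻¹) * x⁻¹ = (x * x) * a * (x * x)⁻¹ := by group
        _ = a := by rw [← hi]; group
    rw [pow_eq_pow_iff_modEq, ha] at h5
    have h6 := (Nat.modEq_iff_dvd' (by nlinarith)).1 h5.symm
    rw [show (2 * j + 1) * (2 * j + 1) - 1 = j * ((2 * j + 1 + 1) * 2) by
      rw [Nat.sub_eq_iff_eq_add (by nlinarith)]; ring] at h6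
    exact ((Nat.coprime_two_left.2 hodd).pow_left m).dvd_of_dvd_mul_left h6
  have hnorm : (P : Subgroup G) ≤ Subgroup.normalizer (Subgroup.zpowers (a : G) : Set G) := by
    intro y hy
    refine Subgroup.mem_normalizer_fintype (S := (Subgroup.zpowers (a : G) : Set G)) fun c hc => ?_
    obtain ⟨i, rfl⟩ := Subgroup.mem_zpowers_iff.1 hc
    obtain ⟨t, ht⟩ := Subgroup.mem_zpowers_iff.1 (hn.conj_mem a (Subgroup.mem_zpowers a) ⟨y, hy⟩)
    have h5 : (a : G) ^ t = y * a * y⁻¹ := congrArg Subtype.val ht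
    rw [← conj_zpow, ← h5]
    exact Subgroup.zpow_mem _ (Subgroup.zpow_mem_zpowers _ _) _
  have hconj : ∀ l : ℕ, IsConj (a : G) ((a : G) ^ l) ↔
      ζ ^ l = ζ ∨ ζ ^ (l + 1) = ζ ^ (2 * j + 1 + 1) := by
    intro l
    rw [pow_succ ζ l, pow_succ ζ (2 * j + 1), mul_left_inj' hζ0, ← hpow]
    nth_rewrite 2 [← pow_one ζ]
    rw [← hpow, pow_one]
    constructor
    · intro h
      obtain ⟨y, hy⟩ := isConj_iff.1 h
      obtain ⟨w, hw, h5⟩ := exists_sylow_conj P hg hnorm (y := y)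
        (by rw [hy]; exact Subgroup.npow_mem_zpowers _ _)
      rw [← hy, ← h5]
      by_cases h6 : (⟨w, hw⟩ : P) ∈ Subgroup.zpowers a
      · left
        obtain ⟨i, hi⟩ := Subgroup.mem_zpowers_iff.1 h6
        have h7 : (a : G) ^ i = w := congrArg Subtype.val hi
        rw [← h7]; group
      · right
        have : x⁻¹ * ⟨w, hw⟩ ∈ Subgroup.zpowers a := by
          rw [Subgroup.mul_mem_iff_of_index_two h2]
          simp [hx, h6]
        obtain ⟨i, hi⟩ := Subgroup.mem_zpowers_iff.1 this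
        have h7 : (a : G) ^ i = (x : G)⁻¹ * w := congrArg Subtype.val hi
        have h8 : w = x * (a : G) ^ i := by rw [h7]; group
        rw [← hjG, h8]; group
    · rintro (h | h)
      · rw [h]
      · rw [h, ← hjG]; exact isConj_iff.2 ⟨x, rfl⟩
  refine ⟨a, a.2, ?_, _, hε, ?_⟩
  · by_contra h
    obtain ⟨Q, hQ⟩ := (even_index_centralizer_iff (a : G)).1 h
    have haQ : (a : G) ∈ (Q : Subgroup G) := by
      have h5 : IsPGroup 2 (Subgroup.zpowers (a : G)) :=
        IsPGroup.of_card (by rw [Nat.card_zpowers, hg])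
      have h6 : (Q : Subgroup G) ≤ Subgroup.normalizer (Subgroup.zpowers (a : G) : Set G) := by
        intro y hy
        refine Subgroup.mem_normalizer_fintype (S := (Subgroup.zpowers (a : G) : Set G)) fun c hc => ?_
        obtain ⟨i, rfl⟩ := Subgroup.mem_zpowers_iff.1 hc
        have h7 : Commute y (a : G) := (Subgroup.mem_centralizer_iff.1 (hQ hy) _ rfl).symm
        rw [(h7.zpow_right i).eq, mul_inv_cancel_right]
        exact hc
      have h7 := Q.is_maximal' (IsPGroup.to_sup_of_normal_right' Q.2 h5 h6) le_sup_left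
      rw [← h7]
      exact Subgroup.mem_sup_right (Subgroup.mem_zpowers _)
    have hQc : Nat.card Q = 2 ^ (m + 1) := by rw [← hP]; exact Nat.card_congr (Sylow.equiv Q P).toEquiv
    have h5 : orderOf (⟨a, haQ⟩ : Q) = 2 ^ m := by rw [Subgroup.orderOf_mk, hg]
    have h6 : (Subgroup.zpowers (⟨a, haQ⟩ : Q)).index = 2 := by
      have := (Subgroup.zpowers (⟨a, haQ⟩ : Q)).card_mul_index
      rw [Nat.card_zpowers, h5] at this
      change _ = Nat.card Q at this
      rw [hQc, pow_succ] at this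
      exact Nat.eq_of_mul_eq_mul_left (by positivity) this
    obtain ⟨w, hw⟩ : ∃ w, w ∉ Subgroup.zpowers (⟨a, haQ⟩ : Q) := by
      by_contra h
      push Not at h
      rw [(Subgroup.eq_top_iff' _).2 h, Subgroup.index_top] at h6
      omega
    have h7 : w * ⟨a, haQ⟩ * w⁻¹ = (⟨a, haQ⟩ : Q) ^ (2 * 0 + 1) := by
      apply Subtype.ext
      have h7 : Commute (w : G) (a : G) := (Subgroup.mem_centralizer_iff.1 (hQ w.2) _ rfl).symm
      simp [h7.eq]
    have h8 := (index_four_iff hm h5 h6 hw h7).1 (by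
      rw [← h4]
      exact Nat.card_congr (Sylow.equiv Q P).abelianizationCongr.toEquiv)
    simp at h8
  · have hσ : ∀ σ : ℂ →+* ℂ, (∀ z ∈ {z : ℂ | ∃ χ : IrrCharacter G, (χ : G → ℂ) a = z}, σ z = z) ↔
        ∀ z ∈ ({ζ + ζ ^ (2 * j + 1 + 1) * ζ⁻¹} : Set ℂ), σ z = z := by
      intro σ
      obtain ⟨l, -, hl⟩ := exists_pow_of_ringHom σ (n := 2 ^ m) (by positivity)
      rw [fix_values_iff hl (by rw [← hg, pow_orderOf_eq_one]), hconj, ← fix_root_iff hζ0]
      have h5 : σ (ζ ^ (2 * j + 1 + 1)) = ζ ^ (2 * j + 1 + 1) := by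
        rcases hε with h | h <;> simp [h]
      simp only [Set.mem_singleton_iff, forall_eq, map_add, map_mul, map_inv₀, h5,
        hl ζ hζ.pow_eq_one]
    apply le_antisymm
    · exact adjoin_le_of_fix (by rintro _ ⟨χ, rfl⟩; exact χ.2.isCharacter.isIntegral _)
        fun σ => (hσ σ).2
    · refine adjoin_le_of_fix ?_ fun σ => (hσ σ).1
      rintro _ rfl
      have h5 := isIntegral_of_pow_eq_one (by positivity) hζ.pow_eq_one
      rw [pow_succ, mul_inv_cancel_right₀ hζ0]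
      exact h5.add (h5.pow _)

theorem index_four_of_field (P : Sylow 2 G) {m : ℕ} (hm : 2 ≤ m) (hP : Nat.card P = 2 ^ (m + 1))
    {ζ : ℂ} (hζ : IsPrimitiveRoot ζ (2 ^ m)) {g : G} (hg : g ∈ (P : Subgroup G))
    (h2 : 2 ∣ (Subgroup.centralizer ({g} : Set G)).index) {ε : ℂ} (hε : ε = 1 ∨ ε = -1)
    (h : IntermediateField.adjoin ℚ {z : ℂ | ∃ χ : IrrCharacter G, (χ : G → ℂ) g = z} =
        IntermediateField.adjoin ℚ ({ζ + ε * ζ⁻¹} : Set ℂ)) : (commutator P).index = 4 := by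
  obtain ⟨x, hx⟩ : ∃ x : P, x * ⟨g, hg⟩ * x⁻¹ ≠ ⟨g, hg⟩ := by
    by_contra hc
    push Not at hc
    refine (even_index_centralizer_iff g).2 ⟨P, fun y hy => ?_⟩ h2
    rw [Subgroup.mem_centralizer_iff]
    rintro _ rfl
    exact (mul_inv_eq_iff_eq_mul.1 (congrArg Subtype.val (hc ⟨y, hy⟩))).symm
  have hna : ¬ IsMulCommutative P := fun hc => hx (by
    rw [hc.is_comm.comm x, mul_inv_cancel_right])
  rcases hm.eq_or_lt with rfl | hm3
  · have h1 := H9.sq_mul_card_commutator_le P.2 hna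
    have h3 := (commutator P).card_mul_index
    have h4 : Nat.card (commutator P) ≠ 1 := fun h => hna
      ((commutator_eq_bot_iff P).1 (Subgroup.eq_bot_of_card_eq _ h))
    have h5 : 0 < Nat.card (commutator P) := Nat.card_pos
    change _ ≤ Nat.card P at h1
    change _ = Nat.card P at h3
    rw [hP] at h1 h3
    obtain h6 : Nat.card (commutator P) = 2 := by omega
    rw [h6] at h3
    omega
  have hζ0 : ζ ≠ 0 := hζ.ne_zero (by positivity)
  have hg1 : g ^ 2 ^ (m + 1) = 1 := by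
    have : (⟨g, hg⟩ : P) ^ Nat.card P = 1 := pow_card_eq_one'
    rw [hP] at this
    exact congrArg Subtype.val this
  have key : ∀ l, Odd l → IsConj g (g ^ l) → ζ ^ l = ζ ∨ 2 ^ m ∣ (l + 1) * 2 := by
    intro l hl hc
    obtain ⟨σ, hσ⟩ := exists_ringEquiv_pow (n := 2 ^ (m + 1)) (m := l) (by positivity)
      ((Nat.coprime_two_right.2 hl).pow_right _)
    have h1 := (fix_values_iff (σ := (σ : ℂ →+* ℂ)) hσ hg1).2 hc
    have h3 := fix_adjoin (σ : ℂ →+* ℂ) h1 (z := ζ + ε * ζ⁻¹)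
      (h ▸ IntermediateField.subset_adjoin ℚ _ rfl)
    have h4 : σ ε = ε := by rcases hε with h | h <;> simp [h]
    have h5 : σ ζ = ζ ^ l := hσ ζ (by rw [pow_succ, pow_mul, hζ.pow_eq_one, one_pow])
    simp only [RingHom.coe_coe, map_add, map_mul, map_inv₀, h4, h5] at h3
    refine ((fix_root_iff hζ0 l).1 h3).imp id fun h6 => ?_
    rw [← hζ.pow_eq_one_iff_dvd, pow_mul, h6]
    rcases hε with h | h <;> simp [h]
  obtain ⟨r, rfl⟩ : ∃ r, m = r + 3 := ⟨m - 3, by omega⟩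
  have h3 : g ^ 2 ^ (r + 2) ≠ 1 := by
    intro h1
    rcases key (2 ^ (r + 2) + 1) (Even.add_one ⟨2 ^ (r + 1), by ring⟩)
      (by rw [pow_succ, h1, one_mul]) with h4 | h4
    · rw [pow_succ, mul_left_eq_self₀, or_iff_left hζ0, hζ.pow_eq_one_iff_dvd] at h4
      have := Nat.le_of_dvd (by positivity) h4
      have h8 : 0 < 2 ^ (r + 2) := by positivity
      rw [pow_succ] at this
      omega
    · rw [show (2 ^ (r + 2) + 1 + 1) * 2 = 2 ^ (r + 3) + 4 by ring, Nat.dvd_add_right dvd_rfl] at h4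
      have := Nat.le_of_dvd (by positivity) h4
      have h8 : 0 < 2 ^ r := by positivity
      rw [pow_add] at this
      omega
  have ha : orderOf (⟨g, hg⟩ : P) = 2 ^ (r + 3) := by
    rw [Subgroup.orderOf_mk]
    obtain ⟨i, hi, hi'⟩ := (Nat.dvd_prime_pow Nat.prime_two).1 (orderOf_dvd_of_pow_eq_one hg1)
    have h4 : r + 2 < i := by
      by_contra h5
      exact h3 (orderOf_dvd_iff_pow_eq_one.1 (hi' ▸ pow_dvd_pow 2 (by omega)))
    rcases hi.eq_or_lt with rfl | h5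
    · exfalso
      have : IsCyclic P := isCyclic_of_orderOf_eq_card (⟨g, hg⟩ : P)
        (by rw [Subgroup.orderOf_mk, hi']; exact hP.symm)
      exact hna IsCyclic.isMulCommutative
    · rw [hi', show i = r + 3 by omega]
  have h6 : (Subgroup.zpowers (⟨g, hg⟩ : P)).index = 2 := by
    have := (Subgroup.zpowers (⟨g, hg⟩ : P)).card_mul_index
    rw [Nat.card_zpowers, ha] at this
    change _ = Nat.card P at this
    rw [hP, pow_succ 2 (r + 3)] at this
    exact Nat.eq_of_mul_eq_mul_left (by positivity) this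
  have hn := Subgroup.normal_of_index_eq_two h6
  have hxa : x ∉ Subgroup.zpowers (⟨g, hg⟩ : P) := fun hc => hx (by
    obtain ⟨i, rfl⟩ := Subgroup.mem_zpowers_iff.1 hc
    group)
  obtain ⟨j, hj⟩ := exists_conj_pow_odd (by omega) ha (hn.conj_mem _ (Subgroup.mem_zpowers _) x)
  refine (index_four_iff hm ha h6 hxa hj).2 ?_
  rcases key (2 * j + 1) ⟨j, rfl⟩ (isConj_iff.2 ⟨x, congrArg Subtype.val hj⟩) with h4 | h4
  · exfalso
    apply hx
    rw [pow_succ, mul_left_eq_self₀, or_iff_left hζ0, hζ.pow_eq_one_iff_dvd, ← ha,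
      orderOf_dvd_iff_pow_eq_one] at h4
    rw [hj, pow_succ, h4, one_mul]
  · obtain ⟨c, hc⟩ := h4
    rw [pow_add] at hc
    refine ⟨2 ^ r * c - 1, ?_⟩
    have : 2 ^ r * 2 ^ 3 * c = 8 * (2 ^ r * c) := by ring
    omega

end Cfsg.Agent.H8
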