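import Mathlib
import Cfsg.Agent.H8.McK4
import Cfsg.Agent.H1.Hall

/-!
# Isaacs' correspondence for groups of odd order, I: the central case
-/

namespace Cfsg.Agent.H8

open Cfsg Cfsg.Agent.H4 Cfsg.Agent.H5 Subgroup
open scoped ComplexConjugate commutatorElement

/-- a relation inducing a bijection between two sets -/
structure Bij {α β : Type*} (P : α → Prop) (Q : β → Prop) (R : α → β → Prop) : Prop where
  down : ∀ a, P a → ∃ b, Q b ∧ R a b ∧ ∀ b', Q b' → R a b' → b' = b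
  up : ∀ b, Q b → ∃ a, P a ∧ R a b ∧ ∀ a', P a' → R a' b → a' = a

namespace Bij
variable {α β α' β' : Type*} {P : α → Prop} {Q : β → Prop} {R : α → β → Prop}

theorem eq_right (h : Bij P Q R) {a : α} {b b' : β} (ha : P a) (hb : Q b) (hb' : Q b')
    (h1 : R a b) (h2 : R a b') : b = b' := by
  obtain ⟨c, -, -, hc⟩ := h.down a ha
  rw [hc b hb h1, hc b' hb' h2]

theorem eq_left (h : Bij P Q R) {a a' : α} {b : β} (ha : P a) (ha' : P a') (hb : Q b)
    (h1 : R a b) (h2 : R a' b) : a = a' := by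
  obtain ⟨c, -, -, hc⟩ := h.up b hb
  rw [hc a ha h1, hc a' ha' h2]

theorem transport {P' : α' → Prop} {Q' : β' → Prop} {R' : α' → β' → Prop} {U : α → α' → Prop}
    {V : β → β' → Prop} (hU : Bij P P' U) (hV : Bij Q Q' V)
    (hR : ∀ a a' b b', P a → P' a' → Q b → Q' b' → U a a' → V b b' → (R a b ↔ R' a' b'))
    (h : Bij P' Q' R') : Bij P Q R := by
  constructor
  · intro a ha
    obtain ⟨a', ha', h1, -⟩ := hU.down a ha
    obtain ⟨b', hb', h2, h3⟩ := h.down a' ha'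
    obtain ⟨b, hb, h4, h5⟩ := hV.up b' hb'
    refine ⟨b, hb, (hR a a' b b' ha ha' hb hb' h1 h4).2 h2, fun c hc h6 => ?_⟩
    obtain ⟨c', hc', h7, -⟩ := hV.down c hc
    exact h5 c hc (h3 c' hc' ((hR a a' c c' ha ha' hc hc' h1 h7).1 h6) ▸ h7)
  · intro b hb
    obtain ⟨b', hb', h1, -⟩ := hV.down b hb
    obtain ⟨a', ha', h2, h3⟩ := h.up b' hb'
    obtain ⟨a, ha, h4, h5⟩ := hU.up a' ha'
    refine ⟨a, ha, (hR a a' b b' ha ha' hb hb' h4 h1).2 h2, fun c hc h6 => ?_⟩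
    obtain ⟨c', hc', h7, -⟩ := hU.down c hc
    exact h5 c hc (h3 c' hc' ((hR c c' b b' hc hc' hb hb' h7 h1).1 h6) ▸ h7)

theorem restrict (h : Bij P Q R) {W : α → Prop} {W' : β → Prop}
    (hW : ∀ a b, P a → Q b → R a b → (W a ↔ W' b)) :
    Bij (fun a => P a ∧ W a) (fun b => Q b ∧ W' b) R := by
  constructor
  · rintro a ⟨ha, hw⟩
    obtain ⟨b, hb, h1, h2⟩ := h.down a ha
    exact ⟨b, ⟨hb, (hW a b ha hb h1).1 hw⟩, h1, fun c hc => h2 c hc.1⟩
  · rintro b ⟨hb, hw⟩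
    obtain ⟨a, ha, h1, h2⟩ := h.up b hb
    exact ⟨a, ⟨ha, (hW a b ha hb h1).2 hw⟩, h1, fun c hc => h2 c hc.1⟩

theorem congr (h : Bij P Q R) {P' : α → Prop} {Q' : β → Prop} (hP : ∀ a, P a ↔ P' a)
    (hQ : ∀ b, Q b ↔ Q' b) : Bij P' Q' R := by
  rwa [show P' = P from funext fun a => propext (hP a).symm,
    show Q' = Q from funext fun a => propext (hQ a).symm]

end Bij

/-- hypotheses of the central case -/
structure CH {Q : Type*} [Group Q] (A K Z S B : Subgroup Q) : Prop where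
  ZK : Z ≤ K
  KA : K ≤ A
  SA : S ≤ normalizer (A : Set Q)
  SK : S ≤ normalizer (K : Set Q)
  AK : A ≤ normalizer (K : Set Q)
  cA : ∀ z ∈ Z, ∀ x ∈ A, x * z = z * x
  cS : ∀ z ∈ Z, ∀ x ∈ S, x * z = z * x
  ab : ∀ a ∈ K, ∀ b ∈ K, a * b * a⁻¹ * b⁻¹ ∈ Z
  AS : ∀ s ∈ S, ∀ a ∈ A, s * a * s⁻¹ * a⁻¹ ∈ K
  fix : K ⊓ centralizer (S : Set Q) ≤ Z
  cop : (Nat.card S).Coprime (Nat.card A)
  odd : ¬ 2 ∣ Nat.card A
  sol : Group.IsSolvable A
  hB : B = A ⊓ centralizer (S : Set Q)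

namespace CH
variable {Q : Type*} [Group Q] {A K Z S B : Subgroup Q} (h : CH A K Z S B)
include h

theorem BA : B ≤ A := h.hB ▸ inf_le_left

theorem BS : B ≤ centralizer (S : Set Q) := h.hB ▸ inf_le_right

theorem ZB : Z ≤ B := fun z hz => h.hB ▸ ⟨h.KA (h.ZK hz), fun s hs => h.cS z hz s hs⟩

theorem copK : (Nat.card S).Coprime (Nat.card K) :=
  h.cop.coprime_dvd_right (card_dvd_of_le h.KA)

theorem exists_mul [Finite Q] {a : Q} (ha : a ∈ A) : ∃ k ∈ K, ∃ b ∈ B, k * b = a := by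
  obtain ⟨n, hn, c, hc, rfl⟩ := H1.exists_mul_centralizer_of_commutator_le h.SK h.copK
    (Or.inr (H1.isSolvable_of_le h.KA h.sol)) (K := A) (by
      rw [commutator_comm, commutator_le]
      exact fun s hs a ha => h.AS s hs a ha) ha
  exact ⟨n, hn, c, h.hB ▸ ⟨(A.mul_mem_cancel_left (h.KA hn)).1 ha, hc⟩, rfl⟩

theorem exists_tau [Finite Q] (htop : A ⊔ S = ⊤) : ∃ τ : Q ≃* Q, (∀ x, τ (τ x) = x) ∧
    (∀ b ∈ B, τ b = b) ∧ (∀ s ∈ S, τ s = s) ∧ ∀ k ∈ K, τ k * k ∈ Z := by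
  have hc : ∀ z ∈ Z, ∀ x, x * z = z * x := fun z hz x => by
    obtain ⟨a, ha, s, hs, rfl⟩ := (H1.mem_sup_of_le_normalizer_left h.SA).1
      (htop ▸ mem_top x : x ∈ A ⊔ S)
    rw [mul_assoc, h.cS z hz s hs, ← mul_assoc, h.cA z hz a ha, mul_assoc]
  have hZn : Z.Normal := ⟨fun z hz x => by rw [hc z hz x]; simpa using hz⟩
  have hKn : K.Normal := by
    rw [← normalizer_eq_top_iff, eq_top_iff, ← htop]; exact sup_le h.AK h.SK
  set D := B ⊔ S with hD
  have hBS : B ≤ normalizer (S : Set Q) := h.BS.trans (centralizer_le_normalizer _)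
  have hDS : D ≤ normalizer (S : Set Q) := sup_le hBS le_normalizer
  have hDK : ∀ d ∈ D, d ∈ K → d ∈ Z := fun d hd hk => by
    obtain ⟨b, hb, s, hs, rfl⟩ := (H1.mem_sup_of_le_normalizer_right hBS).1 hd
    have h1 : s ∈ S ⊓ A := ⟨hs, (A.mul_mem_cancel_left (h.BA hb)).1 (h.KA hk)⟩
    rw [inf_eq_bot_of_coprime h.cop, mem_bot] at h1
    subst h1
    rw [mul_one] at hk ⊢
    exact h.fix ⟨hk, h.BS hb⟩
  let Δ : Q →* Q × Q := (MonoidHom.id Q).prod (MonoidHom.id Q)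
  let K' : Subgroup (Q × Q) :=
    { carrier := {x | x.1 ∈ K ∧ x.2 ∈ K ∧ x.1 * x.2 ∈ Z}
      one_mem' := ⟨one_mem _, one_mem _, by simp⟩
      mul_mem' := fun {a b} ha hb => ⟨mul_mem ha.1 hb.1, mul_mem ha.2.1 hb.2.1, by
        have h1 := Z.mul_mem (Z.mul_mem ha.2.2 (h.ab _ (K.inv_mem ha.2.1) _ hb.1)) hb.2.2
        convert h1 using 1
        simp only [Prod.fst_mul, Prod.snd_mul]
        rw [mul_assoc _ _ (b.1 * b.2)]
        group⟩
      inv_mem' := fun {a} ha => ⟨inv_mem ha.1, inv_mem ha.2.1, by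
        have h1 := hZn.conj_mem _ (Z.inv_mem ha.2.2) a.2
        convert h1 using 1
        simp only [Prod.fst_inv, Prod.snd_inv]
        group⟩ }
  have hK'n : ∀ d, Δ d ∈ normalizer (K' : Set (Q × Q)) := fun d =>
    mem_normalizer_fintype fun x hx => ⟨hKn.conj_mem _ hx.1 d, hKn.conj_mem _ hx.2.1 d, by
      have := hZn.conj_mem _ hx.2.2 d
      convert this using 1
      simp [Δ, mul_assoc]⟩
  have hSK' : S.map Δ ≤ normalizer (K' : Set (Q × Q)) := by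
    rintro _ ⟨s, -, rfl⟩; exact hK'n s
  set W := ⁅K', S.map Δ⁆ with hW
  have hWK : W ≤ K' := H1.commutator_le_left_of_le_normalizer hSK'
  have hDW : D.map Δ ≤ normalizer (W : Set (Q × Q)) :=
    H1.le_normalizer_commutator (by rintro _ ⟨s, -, rfl⟩; exact hK'n s)
      ((map_mono hDS).trans (le_normalizer_map _))
  have hdiag : ∀ w ∈ W, w.1 ∈ Z → w.1 = w.2 := by
    intro w hw h1
    have h2 : w.2 ∈ Z := (Z.mul_mem_cancel_left h1).1 (hWK hw).2.2
    have hN : (Z.map Δ).Normal := ⟨by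
      rintro _ ⟨z, hz, rfl⟩ x
      refine ⟨z, hz, Prod.ext ?_ ?_⟩ <;> simp [Δ, hc z hz]⟩
    let π := QuotientGroup.mk' (Z.map Δ)
    have hcomm : IsMulCommutative (K'.map π) := ⟨⟨by
      rintro ⟨_, x, hx, rfl⟩ ⟨_, y, hy, rfl⟩
      refine Subtype.ext ?_
      change π x * π y = π y * π x
      rw [← mul_inv_eq_one, mul_inv_rev, ← mul_assoc, ← map_inv, ← map_inv, ← map_mul,
        ← map_mul, ← map_mul]
      refine (QuotientGroup.eq_one_iff _).2 ⟨_, h.ab _ hx.1 _ hy.1, Prod.ext rfl ?_⟩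
      change x.1 * y.1 * x.1⁻¹ * y.1⁻¹ = x.2 * y.2 * x.2⁻¹ * y.2⁻¹
      have e1 : x.2 = x.1⁻¹ * (x.1 * x.2) := by group
      have e2 : y.2 = y.1⁻¹ * (y.1 * y.2) := by group
      have c1 := hc _ hx.2.2
      have c2 := hc _ hy.2.2
      have c3 := hc _ (h.ab _ hx.1 _ hy.1)
      generalize x.1 * x.2 = u at e1 c1
      generalize y.1 * y.2 = v at e2 c2
      rw [e1, e2]
      generalize x.1 = a at *
      generalize y.1 = b at *
      have e3 : a⁻¹ * u * (b⁻¹ * v) * (a⁻¹ * u)⁻¹ * (b⁻¹ * v)⁻¹ = a⁻¹ * b⁻¹ * a * b := by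
        calc _ = a⁻¹ * (u * (b⁻¹ * v)) * u⁻¹ * a * v⁻¹ * b := by group
          _ = a⁻¹ * b⁻¹ * (v * a) * v⁻¹ * b := by rw [← c1]; group
          _ = _ := by rw [← c2]; group
      rw [e3]
      calc _ = (b * a)⁻¹ * ((b * a) * (a * b * a⁻¹ * b⁻¹)) := by group
        _ = _ := by rw [c3]; group⟩⟩
    have h3 := H1.inf_centralizer_inf_commutator_eq_bot (A := (S.map Δ).map π) (V := K'.map π)
      ((map_mono hSK').trans (le_normalizer_map _)) (by
        refine Nat.Coprime.coprime_dvd_left ((card_map_dvd _ _).trans (card_map_dvd _ _))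
          (Nat.Coprime.coprime_dvd_right ((card_map_dvd _ _).trans (card_dvd_of_le
            (show K' ≤ K.prod K from fun x hx => ⟨hx.1, hx.2.1⟩))) ?_)
        rw [Nat.card_congr (prodEquiv K K).toEquiv, Nat.card_prod]
        exact h.copK.mul_right h.copK)
    have h4 : π w ∈ (⊥ : Subgroup _) := h3 ▸ ⟨⟨mem_map_of_mem _ (hWK hw), by
      rintro _ ⟨x, -, rfl⟩
      rw [← map_mul, ← map_mul]
      congr 1
      exact Prod.ext (hc _ h1 _) (hc _ h2 _)⟩, by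
        rw [← map_commutator]; exact mem_map_of_mem _ hw⟩
    obtain ⟨z, -, hz⟩ := (QuotientGroup.eq_one_iff _).1 (mem_bot.1 h4)
    rw [← hz]; rfl
  set R := W ⊔ D.map Δ with hR
  have hdec : ∀ x ∈ R, ∃ w ∈ W, ∃ d ∈ D, x = (w.1 * d, w.2 * d) := fun x hx => by
    obtain ⟨w, hw, _, ⟨d, hd, rfl⟩, rfl⟩ := (H1.mem_sup_of_le_normalizer_left hDW).1 hx
    exact ⟨w, hw, d, hd, rfl⟩
  have hfun : ∀ x y y', (x, y) ∈ R → (x, y') ∈ R → y = y' := by
    intro x y y' h1 h2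
    obtain ⟨w, hw, d, hd, e⟩ := hdec _ (R.mul_mem (R.inv_mem h1) h2)
    have e1 : x⁻¹ * x = w.1 * d := congrArg Prod.fst e
    have e2 : y⁻¹ * y' = w.2 * d := congrArg Prod.snd e
    rw [inv_mul_cancel] at e1
    have e3 : w.1 = d⁻¹ := eq_inv_of_mul_eq_one_left e1.symm
    rw [← hdiag w hw (e3 ▸ Z.inv_mem (hDK d hd (by
      rw [← K.inv_mem_iff, ← e3]; exact (hWK hw).1))), ← e1] at e2
    exact inv_mul_eq_one.1 e2
  have hswap : ∀ x y, (x, y) ∈ R → (y, x) ∈ R := by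
    have h1 : R.map (MulEquiv.prodComm : Q × Q ≃* Q × Q).toMonoidHom ≤ R := by
      have h2 : ∀ T : Subgroup Q,
          (T.map Δ).map (MulEquiv.prodComm : Q × Q ≃* Q × Q).toMonoidHom = T.map Δ :=
        fun T => by rw [map_map]; rfl
      rw [hR, Subgroup.map_sup, hW, map_commutator, h2, h2]
      refine sup_le_sup_right (commutator_mono ?_ le_rfl) _
      rintro _ ⟨x, hx, rfl⟩
      refine ⟨hx.2.1, hx.1, ?_⟩
      have := hZn.conj_mem _ hx.2.2 x.2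
      change x.2 * x.1 ∈ Z
      convert this using 1
      group
    exact fun x y hxy => h1 ⟨_, hxy, rfl⟩
  have hΔ : ∀ d ∈ D, (d, d) ∈ R := fun d hd => (le_sup_right : _ ≤ R) ⟨d, hd, rfl⟩
  have htot : ∀ x, ∃ y, (x, y) ∈ R := by
    have h1 : D ≤ R.map (MonoidHom.fst Q Q) := fun d hd => ⟨_, hΔ d hd, rfl⟩
    have h2 : ⁅K, S⁆ ≤ R.map (MonoidHom.fst Q Q) := commutator_le.2 fun k hk s hs =>
      ⟨⁅((k, k⁻¹) : Q × Q), Δ s⁆, (le_sup_left : _ ≤ R) (commutator_mem_commutator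
        ⟨hk, K.inv_mem hk, by simp⟩ ⟨s, hs, rfl⟩), rfl⟩
    have h3 : K ≤ R.map (MonoidHom.fst Q Q) := by
      rw [← H1.commutator_sup_centralizer h.SK h.copK (Or.inr (H1.isSolvable_of_le h.KA h.sol))]
      exact sup_le h2 (h.fix.trans (h.ZB.trans (le_sup_left.trans h1)))
    have h4 : A ≤ R.map (MonoidHom.fst Q Q) := fun a ha => by
      obtain ⟨k, hk, b, hb, rfl⟩ := h.exists_mul ha
      exact mul_mem (h3 hk) (h1 ((le_sup_left : B ≤ D) hb))
    intro x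
    obtain ⟨y, hy, rfl⟩ := (sup_le h4 (le_sup_right.trans h1)) (htop ▸ mem_top x : x ∈ A ⊔ S)
    exact ⟨y.2, hy⟩
  choose f hf using htot
  have hff : ∀ x, f (f x) = x := fun x => hfun _ _ _ (hf _) (hswap _ _ (hf x))
  refine ⟨⟨⟨f, f, hff, hff⟩, fun x y => hfun _ _ _ (hf _) (R.mul_mem (hf x) (hf y))⟩, hff,
    fun b hb => hfun _ _ _ (hf _) (hΔ b ((le_sup_left : B ≤ D) hb)),
    fun s hs => hfun _ _ _ (hf _) (hΔ s ((le_sup_right : S ≤ D) hs)), fun k hk => ?_⟩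
  obtain ⟨w, hw, d, hd, e⟩ := hdec _ (hf k)
  have e1 : k = w.1 * d := congrArg Prod.fst e
  have e2 : f k = w.2 * d := congrArg Prod.snd e
  have h1 : d ∈ Z := hDK d hd ((K.mul_mem_cancel_left (hWK hw).1).1 (e1 ▸ hk))
  change f k * k ∈ Z
  rw [e2, e1]
  have := Z.mul_mem (Z.mul_mem (hZn.conj_mem _ h1 w.2) (hZn.conj_mem _ (hWK hw).2.2 w.2)) h1
  convert this using 1
  group

end CH

section amb
variable {Γ : Type*} [Group Γ] [Finite Γ] {A K Z P S B : Subgroup Γ}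

/-- uniqueness of invariant characters over a given character -/
theorem eq_of_sInv_over (hZK : Z ≤ K) (hKZ : K ≤ normalizer (Z : Set Γ))
    (hab : ∀ a ∈ K, ∀ b ∈ K, a * b * a⁻¹ * b⁻¹ ∈ Z) (hPK : P ≤ normalizer (K : Set Γ))
    (hPZ : ∀ z ∈ Z, ∀ x ∈ P, x * z = z * x)
    (hcop : (Nat.card P).Coprime (Nat.card K)) (hsol : Group.IsSolvable K)
    (hfix : K ⊓ centralizer (P : Set Γ) ≤ Z) {θ θ' : IrrCharacter K} (hθ : SInv P θ.1)
    (hθ' : SInv P θ'.1) {ν : IrrCharacter Z} (h1 : gmul hZK θ.1 ν.1 ≠ 0)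
    (h2 : gmul hZK θ'.1 ν.1 ≠ 0) : θ' = θ := by
  obtain ⟨lam, h3, h4⟩ := exists_linear_mul' hZK hKZ hab h1 h2
  have := Fintype.ofFinite P
  let μ : K →* ℂˣ := ∏ s : P, lam.comp (cjE (hPK s.2)).toMonoidHom
  have hμ : ∀ k, μ k = ∏ s : P, lam (cjE (hPK s.2) k) := fun k => by
    simp only [μ, MonoidHom.finset_prod_apply]; rfl
  have h5 : ∀ t (ht : t ∈ P) k, μ (cjE (hPK ht) k) = μ k := fun t ht k => by
    rw [hμ, hμ, ← Equiv.prod_comp (Equiv.mulRight (⟨t, ht⟩ : P)) fun s => lam (cjE (hPK s.2) k)]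
    exact Finset.prod_congr rfl fun s _ => congrArg lam (Subtype.ext (by simp [mul_assoc]))
  have h6 : K ≤ μ.ker.map K.subtype := by
    refine (H1.commutator_sup_centralizer hPK hcop (Or.inr hsol)).ge.trans (sup_le ?_ ?_)
    · rw [commutator_comm, commutator_le]
      intro t ht k hk
      refine ⟨cjE (hPK ht) ⟨k, hk⟩ * ⟨k, hk⟩⁻¹, ?_, rfl⟩
      rw [SetLike.mem_coe, MonoidHom.mem_ker, map_mul, map_inv, h5 t ht, mul_inv_cancel]
    · intro z hz
      refine ⟨⟨z, hz.1⟩, ?_, rfl⟩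
      rw [SetLike.mem_coe, MonoidHom.mem_ker, hμ]
      refine Finset.prod_eq_one fun s _ => h3 _ ?_
      rw [coe_cjE, hPZ z (hfix hz) s s.2, mul_inv_cancel_right]
      exact hfix hz
  refine Subtype.ext (funext fun g => ?_)
  rw [h4]
  by_cases h0 : θ.1 g = 0
  · simp [h0]
  have h7 : ∀ s : P, lam (cjE (hPK s.2) g) = lam g := fun s => Units.ext (by
    have e1 := h4 (cjE (hPK s.2) g)
    rw [hθ s s.2 g _ rfl, hθ' s s.2 g _ rfl, h4] at e1
    exact (mul_right_cancel₀ h0 e1).symm)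
  obtain ⟨k, hk, e⟩ := h6 g.2
  have h8 : μ g = 1 := by rw [← show k = g from Subtype.ext e]; exact hk
  rw [hμ] at h8
  simp only [h7, Finset.prod_const, Finset.card_univ, Fintype.card_eq_nat_card] at h8
  have h9 : lam g ^ Nat.card K = 1 := by rw [← map_pow, pow_card_eq_one', map_one]
  rw [(pow_eq_one_iff_of_coprime hcop).1 ⟨h8, h9⟩]; simp

theorem coprime_relIndex {N G : Subgroup Γ} (h : (Nat.card S).Coprime (Nat.card G)) :
    (N.relIndex S).Coprime (N.relIndex G) :=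
  (h.coprime_dvd_left (relIndex_dvd_card _ _)).coprime_dvd_right (relIndex_dvd_card _ _)

theorem solvable_permIrr {N G : Subgroup Γ} (h : G ≤ normalizer (N : Set Γ))
    (hsol : Group.IsSolvable G) : Group.IsSolvable (permIrr h).range :=
  isSolvable_range_of_ker_le (MonoidHom.id G) hsol _ fun k hk => by
    rw [show k = 1 from hk, map_one]

theorem CH.sInv_of {B' : Subgroup Γ} (h : CH A K Z P B) (h' : CH A K Z S B')
    (hSP : S ≤ normalizer (P : Set Γ)) {β : IrrCharacter A} (hβ : SInv P β.1) : SInv S β.1 := by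
  obtain ⟨θ, h1, h2⟩ := exists_sInv_under h.SA h.SK h.AK (coprime_relIndex h.cop)
    (Or.inr (solvable_permIrr _ h.sol)) h.KA hβ
  obtain ⟨ν, h3⟩ := exists_under h.ZK θ
  have hZ : ∀ T : Subgroup Γ, (∀ z ∈ Z, ∀ x ∈ T, x * z = z * x) → T ≤ normalizer (Z : Set Γ) :=
    fun T hT => le_normalizer_iff.2 fun x hx z hz => by rw [hT z hz x hx]; simpa using hz
  intro s hs
  have h4 : cjI (h'.SK hs) θ = θ := by
    refine eq_of_sInv_over h.ZK (h.KA.trans (hZ A h.cA)) h.ab h.SK h.cS h.copK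
      (H1.isSolvable_of_le h.KA h.sol) h.fix h2
      (h2.cjI _ fun x hx => H1.conj_mem_of_le_normalizer hSP hs hx) h3 ?_
    rwa [← (sInv_iff (hZ S h'.cS) ν).1 (sInv_of_le_centralizer (fun z hz x hx => h'.cS z hz x hx)
      _) s hs, gmul_cjI]
  refine eInv_of_over h.KA h.AK (h'.SK hs) (h'.AS s hs) (m := Nat.card S)
    (h'.cop.coprime_dvd_right (relIndex_dvd_card _ _)) ?_ ((cjI_eq_iff _ _).1 h4) h1
  rw [show s ^ Nat.card S = 1 from congrArg Subtype.val (pow_card_eq_one' (x := (⟨s, hs⟩ : S)))]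
  exact one_mem _

theorem CH.bij (h : CH A K Z S B) {t : Γ} (ht : t * t = 1) (hB : ∀ b ∈ B, t * b * t⁻¹ = b)
    (hS : ∀ s ∈ S, t * s * t⁻¹ = s) (hK : ∀ k ∈ K, t * k * t⁻¹ * k ∈ Z) :
    Bij (fun β : IrrCharacter A => SInv S β.1) (fun _ : IrrCharacter B => True)
      fun β ξ => ¬ 2 ∣ gmul h.BA β.1 ξ.1 := by
  have := Fact.mk Nat.prime_two
  have hP : IsPGroup 2 (zpowers t) := by
    rintro ⟨_, n, rfl⟩
    refine ⟨1, Subtype.ext ?_⟩
    change (t ^ n) ^ 2 ^ 1 = 1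
    rw [pow_one, ← zpow_natCast, ← zpow_mul, mul_comm, zpow_mul, zpow_natCast, sq, ht, one_zpow]
  have hK1 : ∀ k ∈ K, t * k * t⁻¹ ∈ K := fun k hk =>
    (K.mul_mem_cancel_right hk).1 (h.ZK (hK k hk))
  have hA1 : ∀ a ∈ A, t * a * t⁻¹ * a⁻¹ ∈ K := fun a ha => by
    obtain ⟨k, hk, b, hb, rfl⟩ := h.exists_mul ha
    have := K.mul_mem (hK1 k hk) (K.inv_mem hk)
    convert this using 1
    conv_rhs => rw [← mul_one (t * k * t⁻¹), ← mul_inv_cancel b]; enter [1, 2, 1]; rw [← hB b hb]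
    group
  have hc : ∀ x, t * x * t⁻¹ = x ↔ x ∈ centralizer (zpowers t : Set Γ) := fun x => by
    rw [zpowers_eq_closure, centralizer_closure, mem_centralizer_singleton_iff,
      mul_inv_eq_iff_eq_mul, eq_comm]
  have hcop : (Nat.card (zpowers t)).Coprime (Nat.card A) := by
    rw [Nat.card_zpowers]
    exact ((Nat.Prime.coprime_iff_not_dvd Nat.prime_two).2 h.odd).coprime_dvd_left
      (orderOf_dvd_of_pow_eq_one (by rw [sq, ht]))
  have hfix : K ⊓ centralizer (zpowers t : Set Γ) ≤ Z := fun k hk => by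
    have h1 := hK k hk.1
    rw [(hc k).2 hk.2] at h1
    obtain ⟨m, hm⟩ := Nat.odd_iff.2 (Nat.two_dvd_ne_zero.1 h.odd)
    have h2 : k ^ Nat.card A = 1 :=
      congrArg Subtype.val (pow_card_eq_one' (x := (⟨k, h.KA hk.1⟩ : A)))
    rw [hm, pow_succ, pow_mul, sq] at h2
    rw [eq_inv_of_mul_eq_one_right h2]
    exact Z.inv_mem (Z.pow_mem h1 m)
  have hPA : zpowers t ≤ normalizer (A : Set Γ) := zpowers_le.2 (mem_normalizer_fintype
    fun a ha => (A.mul_mem_cancel_right (A.inv_mem ha)).1 (h.KA (hA1 a ha)))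
  have hPK : zpowers t ≤ normalizer (K : Set Γ) := zpowers_le.2 (mem_normalizer_fintype hK1)
  have h' : CH A K Z (zpowers t) B :=
    { h with
      SA := hPA
      SK := hPK
      cS := fun z hz x hx => (hc z).1 (hB z (h.ZB hz)) x hx
      AS := fun s hs a ha => by
        let T : Subgroup Γ :=
          { carrier := {s | s ∈ normalizer (K : Set Γ) ∧ s * a * s⁻¹ * a⁻¹ ∈ K}
            one_mem' := ⟨one_mem _, by simp⟩
            mul_mem' := fun {x y} hx hy => ⟨mul_mem hx.1 hy.1, by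
              have := K.mul_mem (H1.conj_mem_of_le_normalizer le_rfl hx.1 hy.2) hx.2
              convert this using 1; group⟩
            inv_mem' := fun {x} hx => ⟨inv_mem hx.1, by
              have := H1.conj_mem_of_le_normalizer' le_rfl hx.1 (K.inv_mem hx.2)
              convert this using 1; group⟩ }
        exact ((zpowers_le.2 ⟨hPK (mem_zpowers t), hA1 a ha⟩ : zpowers t ≤ T) hs).2
      fix := hfix
      cop := hcop
      hB := le_antisymm (fun b hb => ⟨h.BA hb, (hc b).1 (hB b hb)⟩) fun a ha => by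
        obtain ⟨k, hk, b, hb, rfl⟩ := h.exists_mul ha.1
        exact B.mul_mem (h.ZB (hfix ⟨hk, ((centralizer _).mul_mem_cancel_right
          ((hc b).1 (hB b hb))).1 ha.2⟩)) hb }
  have hSP : S ≤ centralizer (zpowers t : Set Γ) := fun s hs => (hc s).1 (hS s hs)
  have G := gCorr hP hPA h.odd h'.hB h.BA
  have e : ∀ β : IrrCharacter A, SInv (zpowers t) β.1 ↔ SInv S β.1 := fun β =>
    ⟨h'.sInv_of h (hSP.trans (centralizer_le_normalizer _)),
      h.sInv_of h' ((le_centralizer_iff.1 hSP).trans (centralizer_le_normalizer _))⟩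
  have e' : ∀ ξ : IrrCharacter B, SInv (zpowers t) ξ.1 := fun ξ => sInv_of_le_centralizer h'.BS _
  constructor
  · intro β hβ
    obtain ⟨ξ, -, h1, h2⟩ := G.down β ((e β).2 hβ)
    exact ⟨ξ, trivial, not_dvd_of_sq_eq_one h1, fun ξ' _ h3 => by_contra fun h4 =>
      h3 (h2 ξ' (e' _) h4)⟩
  · intro ξ _
    obtain ⟨β, h1, h2, h3⟩ := G.up ξ (e' ξ)
    exact ⟨β, (e β).1 h1, h2, fun β' h4 => h3 β' ((e β').2 h4)⟩

end amb

end Cfsg.Agent.H8
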