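import Mathlib
import Cfsg.Agent.H8.Gal1

/-!
# Counting linear characters through restriction to a subgroup
-/

namespace Cfsg.Agent.H8

open Cfsg Cfsg.Agent.H4 Cfsg.Agent.H5
open scoped ComplexConjugate commutatorElement

variable {G : Type*} [Group G] [Finite G]

theorem card_linear_trivial_le (I : Subgroup G) :
    Nat.card {ν : G →* ℂˣ // ∀ i ∈ I, ν i = 1} ≤ I.index := by
  have h : ∀ ν : {ν : G →* ℂˣ // ∀ i ∈ I, ν i = 1}, Subgroup.normalClosure (I : Set G) ≤ ν.1.ker :=
    fun ν => Subgroup.normalClosure_le_normal fun i hi => ν.2 i hi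
  haveI : Finite (G ⧸ Subgroup.normalClosure (I : Set G) →* ℂˣ) :=
    Nat.finite_of_card_ne_zero (by rw [card_monoidHom_units]; exact Subgroup.index_ne_zero_of_finite)
  refine (Nat.card_le_card_of_injective (fun ν => QuotientGroup.lift _ ν.1 (h ν)) fun a b hab =>
    Subtype.ext (MonoidHom.ext fun g => DFunLike.congr_fun hab (g : G ⧸ _))).trans ?_
  rw [card_monoidHom_units]
  exact ((Nat.le_of_dvd Nat.card_pos (Subgroup.index_dvd_card _)).trans_eq
    (Subgroup.index_eq_card _).symm).trans (Subgroup.index_antitone Subgroup.le_normalClosure)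

theorem card_linear_le_mul (I : Subgroup G) {P : IrrCharacter G → Prop} {T : Type*} [Finite T]
    (hP : ∀ χ, P χ → χ.1 1 = 1) (f : {χ // P χ} → T)
    (hf : ∀ a b, f a = f b → ∀ i ∈ I, a.1.1 i = b.1.1 i) :
    Nat.card {χ // P χ} ≤ I.index * Nat.card T := by
  classical
  haveI := Fintype.ofFinite T
  haveI : Finite (G →* ℂˣ) :=
    Nat.finite_of_card_ne_zero (by rw [card_monoidHom_units]; exact Subgroup.index_ne_zero_of_finite)
  choose lam hlam using fun a : {χ // P χ} => a.1.2.isCharacter.exists_linear (hP _ a.2)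
  rw [Nat.card_eq_fintype_card, Nat.card_eq_fintype_card]
  refine Finset.card_le_mul_card_image_of_maps_to (f := f) (fun _ _ => Finset.mem_univ _) _ fun t _ => ?_
  rcases (Finset.univ.filter fun a => f a = t).eq_empty_or_nonempty with h | ⟨b, hb⟩
  · simp [h]
  refine le_trans ?_ (card_linear_trivial_le I)
  rw [← Fintype.card_coe, ← Nat.card_eq_fintype_card]
  refine Nat.card_le_card_of_injective (fun a => ⟨lam a.1 * (lam b)⁻¹, fun i hi => ?_⟩) fun a a' h => ?_
  · have := hf a.1 b ((Finset.mem_filter.mp a.2).2.trans (Finset.mem_filter.mp hb).2.symm) i hi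
    rw [hlam, hlam] at this
    rw [MonoidHom.mul_apply, MonoidHom.inv_apply, Units.val_injective this, mul_inv_cancel]
  · have := mul_right_cancel (congrArg Subtype.val h)
    exact Subtype.ext (Subtype.ext (Subtype.ext (by rw [hlam, hlam, this])))

theorem le_commutator_of_min {N : Subgroup G} [N.Normal]
    (hmin : ∀ M : Subgroup G, M.Normal → M ≤ N → M = ⊥ ∨ M = N) (hna : ¬ IsMulCommutative N) :
    N ≤ commutator G := by
  rcases hmin ⁅N, N⁆ inferInstance (Subgroup.commutator_le_left N N) with h | h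
  · exact absurd ⟨⟨fun a b => Subtype.ext (commutatorElement_eq_one_iff_mul_comm.mp
      (Subgroup.mem_bot.mp (h ▸ Subgroup.commutator_mem_commutator a.2 b.2)))⟩⟩ hna
  · exact h ▸ Subgroup.commutator_mono le_top le_top

/-- the characters `(λ_I ψ)^G` for a linear character `λ` of `G` trivial on `N` -/
theorem linear_mul_ind [Fintype G] {N I : Subgroup G} [N.Normal] (hN : N ≤ commutator G)
    {φ : N → ℂ} (hφ : IsIrrCharacter N φ)
    (hI : ∀ g : G, g ∈ I ↔ ∀ n n' : N, (n' : G) = g * (n : G) * g⁻¹ → φ n' = φ n) (hNI : N ≤ I)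
    {ψ : I → ℂ} (hψ : IsIrrCharacter I ψ) (hext : ∀ n : N, ψ (Subgroup.inclusion hNI n) = φ n) :
    (∀ lam : G → ℂ, IsIrrCharacter G lam → lam 1 = 1 →
      IsIrrCharacter I ((fun i : I => lam i) * ψ) ∧ IsIrrCharacter G (indFun I ((fun i : I => lam i) * ψ)) ∧
      charDegree (indFun I ((fun i : I => lam i) * ψ)) = charDegree φ * I.index) ∧
    ∀ lam μ : G → ℂ, IsIrrCharacter G lam → lam 1 = 1 → IsIrrCharacter G μ → μ 1 = 1 →
      indFun I ((fun i : I => lam i) * ψ) = indFun I ((fun i : I => μ i) * ψ) → ∀ i ∈ I, lam i = μ i := by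
  haveI := Fintype.ofFinite N
  haveI := Fintype.ofFinite I
  have hT : (NEmb.ofNormal N).inertia φ ≤ I := fun g hg => (hI g).mpr fun n n' h => by
    rw [← (NEmb.ofNormal N).mem_inertia.mp hg n]; exact congrArg φ (Subtype.ext h)
  have hm : ∀ n, (NEmb.ofNormal N).f n ∈ I := fun n => hNI n.2
  have h1 : ∀ lam : G → ℂ, IsIrrCharacter G lam → lam 1 = 1 → ∀ n : N, lam n = 1 := fun lam h h' n =>
    (apply_of_mem_charKer (h.commutator_le_charKer_iff.mpr h' (hN n.2))).trans h'
  have h2 : ∀ lam : G → ℂ, IsIrrCharacter G lam → lam 1 = 1 → IsIrrCharacter I fun i : I => lam i :=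
    fun lam h h' => (h.isCharacter.restrict I).isIrr_of_apply_one h'
  have h3 : ∀ lam : G → ℂ, IsIrrCharacter G lam → lam 1 = 1 → IsIrrCharacter I ((fun i : I => lam i) * ψ) :=
    fun lam h h' => isIrr_mul_of_linear (h2 lam h h').isCharacter h' hψ
  have h4 : ∀ lam : G → ℂ, IsIrrCharacter G lam → lam 1 = 1 →
      classInner (fun n => ((fun i : I => lam i) * ψ) ⟨(NEmb.ofNormal N).f n, hm n⟩) φ ≠ 0 := fun lam h h' => by
    have : (fun n => ((fun i : I => lam i) * ψ) ⟨(NEmb.ofNormal N).f n, hm n⟩) = φ := funext fun n => by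
      rw [← hext n, ← one_mul (ψ _), ← h1 lam h h' n]; rfl
    rw [this, hφ.classInner_self]
    exact one_ne_zero
  refine ⟨fun lam h h' => ⟨h3 lam h h', ((NEmb.ofNormal N).isIrr_indFun_of_inertia_le hφ I hm hT (h3 lam h h')
    (h4 lam h h')).1, ?_⟩, fun lam μ h h' k k' e i hi => ?_⟩
  · obtain ⟨d, -, hd⟩ := hφ.exists_degree
    have := hext 1
    rw [map_one] at this
    rw [charDegree_eq_of_apply_one hd, charDegree_eq_of_apply_one (n := d * I.index)]
    rw [indFun_one, Pi.mul_apply, this, hd]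
    simp [h', mul_comm]
  · have := (NEmb.ofNormal N).eq_of_indFun_eq_of_inertia_le hφ I hm hT (h3 lam h h') (h3 μ k k')
      (h4 lam h h') (h4 μ k k') e
    exact congrFun (((NEmb.ofNormal N).restrict I hm).gallagher_inj hφ hψ.isCharacter hext (h2 lam h h') (h2 μ k k')
      (fun n => (h1 lam h h' n).trans h'.symm) (fun n => (h1 μ k k' n).trans k'.symm) this) ⟨i, hi⟩

end Cfsg.Agent.H8
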