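import Mathlib
import Cfsg.Agent.H8.McK5
import Cfsg.Agent.H8.Deg5
import Cfsg.Agent.H1.Frattini

/-!
The McKay count for `p`-solvable groups and groups whose odd degree characters are real.
-/

set_option autoImplicit false
set_option linter.dupNamespace false

namespace Cfsg.Agent.H8

open Cfsg Cfsg.Agent.H4 Cfsg.Agent.H5 Subgroup
open scoped ComplexConjugate commutatorElement

variable {Γ : Type*} [Group Γ] [Finite Γ] {p : ℕ} [hp : Fact p.Prime]

theorem gmul_bot_ne_zero {W : Subgroup Γ} (χ : IrrCharacter W) (ν : IrrCharacter (⊥ : Subgroup Γ)) :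
    gmul bot_le χ.1 ν.1 ≠ 0 := by
  obtain ⟨ξ, h⟩ := exists_under bot_le χ
  rwa [show ν = ξ from Subtype.ext ((ν.2.eq_one_of_forall_eq fun g => congrArg _
    (Subsingleton.elim _ _)).trans (ξ.2.eq_one_of_forall_eq fun g => congrArg _
    (Subsingleton.elim _ _)).symm)]

theorem mckay_pSolvable (hG : IsPSolvable p Γ) (S : Sylow p Γ) :
    Nat.card {χ : IrrCharacter Γ // ¬ p ∣ charDegree χ.1} =
      Nat.card {χ : IrrCharacter (normalizer ((S : Subgroup Γ) : Set Γ)) // ¬ p ∣ charDegree χ.1} := by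
  have h := mckay_rel hG S ⊥ (ν := ⟨_, isIrrCharacter_one⟩) (fun _ _ _ _ _ => rfl) bot_le
    (N := normalizer ((S : Subgroup Γ) : Set Γ)) (by rw [bot_sup_eq])
  simp only [fun (W : Subgroup Γ) (χ : IrrCharacter W) => eq_true (gmul_bot_ne_zero χ
    ⟨_, isIrrCharacter_one⟩), and_true] at h
  exact (card_irr_top (fun χ => ¬ p ∣ charDegree χ) (fun χ => ¬ p ∣ charDegree χ)
    fun _ => Iff.rfl).trans h

theorem forall_iff_card_eq {X : Type*} [Finite X] (P Q : X → Prop) :
    (∀ x, P x → Q x) ↔ Nat.card {x // Q x ∧ P x} = Nat.card {x // P x} := by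
  refine ⟨fun h => Nat.card_congr (Equiv.subtypeEquivRight fun x => and_iff_right_of_imp (h x)),
    fun h x hx => ?_⟩
  obtain ⟨y, hy⟩ := ((Nat.bijective_iff_injective_and_card (fun y : {x // Q x ∧ P x} =>
    (⟨y.1, y.2.2⟩ : {x // P x}))).2 ⟨fun a b e => Subtype.ext (congrArg (·.1) e), h⟩).2 ⟨x, hx⟩
  exact (show y.1 = x from congrArg Subtype.val hy) ▸ y.2.1

theorem odd_real_iff_of_isPGroup (hG : IsPGroup 2 Γ) :
    (∀ χ : IrrCharacter Γ, ¬ 2 ∣ charDegree χ.1 → ∀ g, (χ.1 g).im = 0) ↔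
      _root_.commutator Γ = frattini Γ := by
  haveI := hG.isNilpotent
  refine ⟨fun h => le_antisymm H1.commutator_le_frattini (H1.frattini_le_of_elementary_quotient
    Nat.prime_two le_rfl fun x => by_contra fun hx => ?_), fun h χ h1 g => ?_⟩
  · obtain ⟨lam, h1⟩ := exists_linear_ne_one (G := Abelianization Γ) mul_comm
      (u := Abelianization.of (x ^ 2)) fun h => hx ((QuotientGroup.eq_one_iff _).1 h)
    have h2 := h ⟨_, isIrrCharacter_linear (lam.comp Abelianization.of)⟩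
      (by rw [charDegree_eq_of (d := 1) (by simp)]; norm_num) x
    refine h1 (Units.ext ?_)
    rw [map_pow, map_pow, Units.val_pow_eq_pow_val, sq]
    nth_rw 2 [← (Complex.conj_eq_iff_im.2 h2 : conj (lam (Abelianization.of x) : ℂ) = _)]
    rw [conj_linear, map_inv, Units.mul_inv, Units.val_one]
  · obtain ⟨lam, h2⟩ := χ.2.isCharacter.exists_linear (charDegree_eq_one_of_isPGroup hG χ h1)
    have h3 := Abelianization.commutator_subset_ker lam (h ▸ H1.pow_mem_frattini hG g)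
    rw [MonoidHom.mem_ker, map_pow, sq, mul_eq_one_iff_inv_eq] at h3
    rw [h2, ← Complex.conj_eq_iff_im, conj_linear, map_inv, h3]

theorem eq_top_of_odd_real {N : Subgroup Γ} [N.Normal] (hN : ¬ 2 ∣ N.index)
    (h : ∀ χ : IrrCharacter Γ, ¬ 2 ∣ charDegree χ.1 → ∀ g, (χ.1 g).im = 0) : N = ⊤ := by
  refine eq_top_iff.2 fun x _ => (QuotientGroup.eq_one_iff x).1 (by_contra fun hx => ?_)
  obtain ⟨χ, h1, h2⟩ := exists_irr_apply_ne hx
  refine h2 (by
    rw [h1.eq_one_of_real_of_odd (by rwa [← Nat.not_even_iff_odd, even_iff_two_dvd]) fun g => ?_]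
    obtain ⟨g, rfl⟩ := QuotientGroup.mk_surjective g
    exact h ⟨_, h1.inflate⟩ (fun h2 => hN (h2.trans (charDegree_dvd_card ⟨χ, h1⟩))) g)

theorem odd_real_iff (hG : IsPSolvable 2 Γ) (S : Sylow 2 Γ) :
    (∀ χ : IrrCharacter Γ, ¬ 2 ∣ charDegree χ.1 → ∀ g, (χ.1 g).im = 0) ↔
      _root_.commutator S = frattini S ∧ normalizer ((S : Subgroup Γ) : Set Γ) = S := by
  rw [forall_iff_card_eq, card_real_odd_eq hG S, mckay_pSolvable hG S, ← forall_iff_card_eq,
    ← odd_real_iff_of_isPGroup S.2]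
  refine ⟨fun h => ?_, fun ⟨h, h'⟩ => by rwa [h']⟩
  have h1 := subgroupOf_eq_top.1 (eq_top_of_odd_real
    (N := (S : Subgroup Γ).subgroupOf (normalizer ((S : Subgroup Γ) : Set Γ)))
    (fun h => S.not_dvd_index (h.trans (relIndex_dvd_index_of_le le_normalizer))) h)
  have h2 := le_antisymm h1 le_normalizer
  exact ⟨by rwa [h2] at h, h2⟩

end Cfsg.Agent.H8
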