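import Cfsg.Agent.BG.S03a
import Cfsg.Agent.H8.McK3

/-!
The Navarro-Rizo fixed point inequality for a `p`-group acting on a group of order prime to `p`.
-/

set_option autoImplicit false

namespace Cfsg.Agent.H8

open Subgroup Cfsg.Agent.H20 Cfsg.Agent.H21

universe u

section cyc
variable {P : Type*} [Group P] [Finite P] {p : ℕ} [hp : Fact p.Prime]

theorem orderOf_eq_mul_of_isPGroup (hP : IsPGroup p P) {x : P} (hx : x ≠ 1) :
    orderOf x = p * orderOf (x ^ p) := by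
  obtain ⟨k, hk⟩ := IsPGroup.iff_orderOf.1 hP x
  have h1 : p ∣ orderOf x := by
    rw [hk]
    refine dvd_pow_self p fun h => hx ?_
    rw [h, pow_zero] at hk
    exact orderOf_eq_one_iff.1 hk
  rw [orderOf_pow' _ hp.out.ne_zero, Nat.gcd_eq_right h1, Nat.mul_div_cancel' h1]

theorem zpowers_eq_iff_of_isPGroup (hP : IsPGroup p P) {x y : P} (hx : x ≠ 1) :
    zpowers y = zpowers x ↔ y ∈ zpowers x ∧ y ∉ zpowers (x ^ p) := by
  classical
  constructor
  · intro h
    refine ⟨h ▸ mem_zpowers y, fun h1 => ?_⟩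
    have h2 := card_dvd_of_le (zpowers_le.2 h1)
    rw [h, Nat.card_zpowers, Nat.card_zpowers, orderOf_eq_mul_of_isPGroup hP hx] at h2
    have h3 := Nat.le_of_dvd (orderOf_pos _) h2
    have h4 := orderOf_pos (x ^ p)
    have := hp.out.two_le
    nlinarith
  · rintro ⟨h1, h2⟩
    obtain ⟨k, -, rfl⟩ := Finset.mem_image.1 (mem_zpowers_iff_mem_range_orderOf.1 h1)
    have h3 : ¬ p ∣ k := by
      rintro ⟨j, rfl⟩
      exact h2 (by rw [pow_mul]; exact npow_mem_zpowers _ _)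
    obtain ⟨j, hj⟩ := IsPGroup.iff_orderOf.1 hP x
    refine eq_of_le_of_card_ge (zpowers_le.2 h1) (le_of_eq ?_)
    rw [Nat.card_zpowers, Nat.card_zpowers, Nat.Coprime.orderOf_pow]
    rw [hj]
    exact ((hp.out.coprime_iff_not_dvd).2 h3).pow_left j

theorem nr_identity [Fintype P] (hP : IsPGroup p P) (χ : P → ℂ) (a : P → ℂ)
    (ha : ∀ (x : P) [Fintype (zpowers x)], ∑ l : zpowers x, χ l = Nat.card (zpowers x) * a x) :
    ∑ x, (p * a x - a (x ^ p)) = (p - 1) * ∑ y, χ y := by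
  classical
  have ho : ∀ x : P, (orderOf x : ℂ) ≠ 0 := fun x => Nat.cast_ne_zero.2 (orderOf_pos x).ne'
  have hp0 : (p : ℂ) ≠ 0 := Nat.cast_ne_zero.2 hp.out.ne_zero
  have h1 : ∀ x, a x = ∑ y, (if y ∈ zpowers x then (orderOf x : ℂ)⁻¹ else 0) * χ y := fun x => by
    have := ha x
    rw [Nat.card_zpowers, ← Finset.sum_subtype (Finset.univ.filter (· ∈ zpowers x)) (by simp),
      Finset.sum_filter] at this
    rw [eq_comm, ← mul_right_inj' (ho x), ← this, Finset.mul_sum]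
    refine Finset.sum_congr rfl fun y _ => ?_
    split_ifs
    · field_simp [ho x]
    · simp
  simp only [h1, Finset.mul_sum, ← Finset.sum_sub_distrib, ← mul_assoc, ← sub_mul]
  rw [Finset.sum_comm]
  refine Finset.sum_congr rfl fun y _ => ?_
  rw [← Finset.sum_mul]
  congr 1
  by_cases hy : y = 1
  · subst hy
    rw [Finset.sum_eq_single 1]
    · simp
    · intro x _ hx
      simp only [one_mem, if_true]
      rw [orderOf_eq_mul_of_isPGroup hP hx]
      push_cast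
      field_simp [ho]
      ring
    · simp
  · have h2 : ∀ x : P, (p * (if y ∈ zpowers x then (orderOf x : ℂ)⁻¹ else 0) -
        if y ∈ zpowers (x ^ p) then (orderOf (x ^ p) : ℂ)⁻¹ else 0) =
        (if x ∈ zpowers y then (orderOf (y ^ p) : ℂ)⁻¹ else 0) -
          if x ∈ zpowers (y ^ p) then (orderOf (y ^ p) : ℂ)⁻¹ else 0 := by
      intro x
      have h3 := zpowers_eq_iff_of_isPGroup hP (y := x) hy
      have h4 : ∀ z : P, zpowers (z ^ p) ≤ zpowers z := fun z => zpowers_le.2 (npow_mem_zpowers _ _)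
      by_cases hx : x = 1
      · subst hx
        simp [hy]
      have h5 := zpowers_eq_iff_of_isPGroup hP (y := y) hx
      have h6 : p * (orderOf x : ℂ)⁻¹ = (orderOf (x ^ p) : ℂ)⁻¹ := by
        rw [orderOf_eq_mul_of_isPGroup hP hx]
        push_cast
        field_simp [ho]
      by_cases h7 : zpowers x = zpowers y
      · have h8 : orderOf (x ^ p) = orderOf (y ^ p) := by
          apply Nat.eq_of_mul_eq_mul_left hp.out.pos
          rw [← orderOf_eq_mul_of_isPGroup hP hx, ← orderOf_eq_mul_of_isPGroup hP hy,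
            ← Nat.card_zpowers, h7, Nat.card_zpowers]
        rw [if_pos (h5.1 h7.symm).1, if_neg (h5.1 h7.symm).2, if_pos (h3.1 h7).1,
          if_neg (h3.1 h7).2, h6, h8]
      · have h8 : (if x ∈ zpowers y then (orderOf (y ^ p) : ℂ)⁻¹ else 0) -
            (if x ∈ zpowers (y ^ p) then (orderOf (y ^ p) : ℂ)⁻¹ else 0) = 0 := by
          by_cases h9 : x ∈ zpowers (y ^ p)
          · rw [if_pos h9, if_pos (h4 y h9), sub_self]
          · rw [if_neg h9, if_neg fun h => h7 (h3.2 ⟨h, h9⟩), sub_self]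
        rw [h8]
        by_cases h9 : y ∈ zpowers (x ^ p)
        · rw [if_pos h9, if_pos (h4 x h9), h6, sub_self]
        · rw [if_neg h9, if_neg fun h => h7 (h5.2 ⟨h, h9⟩).symm]; simp
    have h3 : ∀ (z : P) (c : ℂ), ∑ x : P, (if x ∈ zpowers z then c else 0) = orderOf z * c := by
      intro z c
      rw [← Finset.sum_filter, Finset.sum_const, nsmul_eq_mul, ← Nat.card_zpowers,
        Nat.card_eq_fintype_card, Fintype.card_subtype]
    simp only [h2, Finset.sum_sub_distrib, h3]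
    rw [orderOf_eq_mul_of_isPGroup hP hy]
    push_cast
    field_simp [ho]

end cyc

variable {P : Type*} [Group P] [Fintype P] {p : ℕ} [hp : Fact p.Prime]

theorem nr_abelem {G : Type*} [Group G] [Finite G] (hP : IsPGroup p P) (φ : P →* G)
    {V : Subgroup G} {r : ℕ} [Fact r.Prime] (hV : IsElementaryAbelian r V) (hn : φ.range ≤ N⟦V⟧)
    (hcop : (♯φ.range).Coprime r) :
    ∏ x, ♯(V ⊓ C⟦zpowers (φ x)⟧) ^ p ∣
      ♯(V ⊓ C⟦φ.range⟧) ^ ((p - 1) * Nat.card P) * ♯V ^ Nat.card P := by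
  classical
  obtain ⟨χ, -, h1, -⟩ := exists_char_abelem hV hn hcop
  have := Fintype.ofFinite φ.range
  have := Fintype.ofFinite (⊤ : Subgroup φ.range)
  have hH : IsPGroup p φ.range := hP.of_surjective _ φ.rangeRestrict_surjective
  choose a ha ha' using fun x : φ.range => h1 (zpowers x)
  obtain ⟨c, hc, hc'⟩ := h1 ⊤
  rw [map_top_subtype] at hc'
  have h3 : ∑ g, χ g = ∑ g : (⊤ : Subgroup φ.range), χ g :=
    (Fintype.sum_equiv topEquiv.toEquiv _ _ fun _ => rfl).symm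
  have h2 := nr_identity hH χ (fun x => a x) (fun x _ => by convert ha x)
  rw [h3, hc, card_top'] at h2
  have hr : 1 < r := (Fact.out : r.Prime).one_lt
  have hd : ♯V = r ^ a 1 := by
    rw [← ha' 1, zpowers_one_eq_bot, Subgroup.map_bot, cent_bot, inf_top_eq]
  have hle : ∀ x, a x ≤ a 1 := fun x => by
    rw [← Nat.pow_le_pow_iff_right hr, ← ha', ← hd]
    exact card_le_of_le inf_le_left
  have h4 := card_mul_sum_comp φ.rangeRestrict φ.rangeRestrict_surjective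
    (fun x => (p * a x - a (x ^ p) : ℂ))
  rw [h2, show ∀ a b c d : ℂ, a * (b * (c * d)) = c * (a * (b * d)) from fun _ _ _ _ => by ring,
    mul_right_inj' (Nat.cast_ne_zero.2 (card_pos _).ne'), Finset.sum_sub_distrib,
    sub_eq_iff_eq_add] at h4
  have h5 : ∑ x, p * a (φ.rangeRestrict x) =
      Nat.card P * ((p - 1) * c) + ∑ x, a (φ.rangeRestrict x ^ p) := by
    apply Nat.cast_injective (R := ℂ)
    push_cast [Nat.cast_sub hp.out.one_le]
    rw [h4]
  have h6 : ∑ x, a (φ.rangeRestrict x ^ p) ≤ Nat.card P * a 1 := by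
    rw [Nat.card_eq_fintype_card, ← smul_eq_mul]
    exact Finset.sum_le_card_nsmul _ _ _ fun x _ => hle _
  have h7 : ∀ x, ♯(V ⊓ C⟦zpowers (φ x)⟧) = r ^ a (φ.rangeRestrict x) := fun x => by
    rw [← ha', MonoidHom.map_zpowers]; rfl
  simp only [h7, hc', hd, ← pow_mul, ← pow_add, Finset.prod_pow_eq_pow_sum]
  apply pow_dvd_pow
  simp only [mul_comm _ p]
  rw [h5]
  nlinarith

theorem nr_solvable (hP : IsPGroup p P) (n : ℕ) : ∀ {G : Type u} [Group G] [Finite G] (φ : P →* G)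
    {M : Subgroup G}, ♯M = n → φ.range ≤ N⟦M⟧ → (♯M).Coprime (♯φ.range) → Group.IsSolvable M →
    ∏ x, ♯(M ⊓ C⟦zpowers (φ x)⟧) ^ p ∣
      ♯(M ⊓ C⟦φ.range⟧) ^ ((p - 1) * Nat.card P) * ♯M ^ Nat.card P := by
  induction n using Nat.strong_induction_on with | _ n ih =>
  intro G _ _ φ M hn hH hcop hM
  by_cases h1 : M = ⊥
  · simp [h1]
  obtain ⟨r, W, hr, hW, hWM, hWn, he⟩ := exists_elem_normalIn (NormalIn.sup_left hH) hM h1
  have := Fact.mk hr
  have hHW : φ.range ≤ N⟦W⟧ := le_sup_right.trans hWn.norm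
  have hcW := coprime_of_le_left hcop hWM
  have hWM' : W ⊴ M := hWn.of_le hWM le_sup_left
  have h2 := nr_abelem hP φ he hHW (BG.coprime_prime_of_elem he hW.1 hcW)
  let ψ : P →* Cos W := (cosHom W).comp (φ.codRestrict _ fun x => hHW ⟨x, rfl⟩)
  have hψ : ∀ x, ψ x = cos W (φ x) := fun x => (cos_of_mem (hHW ⟨x, rfl⟩)).symm
  have hψr : ψ.range = quo φ.range W := by
    ext z
    rw [mem_quo]
    constructor
    · rintro ⟨x, rfl⟩
      exact ⟨φ x, ⟨x, rfl⟩, hHW ⟨x, rfl⟩, (hψ x).symm⟩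
    · rintro ⟨_, ⟨x, rfl⟩, -, rfl⟩
      exact ⟨x, hψ x⟩
  have h3 := ih _ (hn ▸ card_quo_lt hWM' hW.1) ψ rfl (hψr ▸ quo_norm _ hH)
    (hψr ▸ coprime_quo_quo hcop _) (quo_solvable hM _)
  have h4 : ∀ A ≤ φ.range, _ := fun A hA => BG.card_inf_cent_eq_mul hWM' (hA.trans hHW)
    (coprime_of_le_right hcW hA) (Or.inr (sol_of_comm he.1))
  have h5 : ∀ x, ♯(M ⊓ C⟦zpowers (φ x)⟧) =
      ♯(W ⊓ C⟦zpowers (φ x)⟧) * ♯(quo M W ⊓ C⟦zpowers (ψ x)⟧) := fun x => by
    rw [h4 _ (zpowers_le.2 ⟨x, rfl⟩), quo_zpowers (hHW ⟨x, rfl⟩), hψ]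
  simp only [h5, mul_pow, Finset.prod_mul_distrib]
  rw [h4 _ le_rfl, ← card_mul_card_quo hWM', mul_pow, mul_pow, mul_mul_mul_comm, ← hψr]
  exact mul_dvd_mul h2 h3

theorem nr_dvd {G : Type*} [Group G] [Finite G] (hP : IsPGroup p P) (φ : P →* G) {M : Subgroup G}
    (hH : φ.range ≤ N⟦M⟧) (hcop : ¬ p ∣ ♯M) :
    ∏ x, ♯(M ⊓ C⟦zpowers (φ x)⟧) ^ p ∣
      ♯(M ⊓ C⟦φ.range⟧) ^ ((p - 1) * Nat.card P) * ♯M ^ Nat.card P := by
  have hR : IsPGroup p φ.range := hP.of_surjective _ φ.rangeRestrict_surjective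
  have hc : (♯φ.range).Coprime ♯M := by
    obtain ⟨k, hk⟩ := hR.exists_card_eq
    rw [hk]
    exact ((hp.out.coprime_iff_not_dvd).2 hcop).pow_left k
  have hpos : ∀ A : Subgroup G, ♯A ≠ 0 := fun A => (card_pos A).ne'
  rw [← Nat.factorization_prime_le_iff_dvd (Finset.prod_ne_zero_iff.2 fun x _ => pow_ne_zero _ (hpos _))
    (mul_ne_zero (pow_ne_zero _ (hpos _)) (pow_ne_zero _ (hpos _)))]
  intro r hr
  have := Fact.mk hr
  obtain ⟨R, hRM, hRn⟩ := H1.exists_invariant_isSylowIn r hH hc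
    (Or.inl (H1.isSolvable_of_isPGroup hR))
  have h1 := nr_solvable hP _ φ rfl hRn (hc.symm.coprime_dvd_left (card_dvd_of_le hRM.le))
    (H1.isSolvable_of_isPGroup hRM.isPGroup)
  have h2 : ∀ A ≤ φ.range, ♯(R ⊓ C⟦A⟧) = r ^ (♯(M ⊓ C⟦A⟧)).factorization r := fun A hA =>
    (H1.isSylowIn_inf_centralizer (hA.trans hH) (hc.coprime_dvd_left (card_dvd_of_le hA))
      (Or.inl (H1.isSolvable_of_isPGroup (hR.to_le hA))) hRM (hA.trans hRn)).card_eq_pow
  have h3 : ∀ x, ♯(R ⊓ C⟦zpowers (φ x)⟧) = _ := fun x => h2 _ (zpowers_le.2 ⟨x, rfl⟩)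
  simp only [h3, h2 _ le_rfl, hRM.card_eq_pow, ← pow_mul, ← pow_add, Finset.prod_pow_eq_pow_sum,
    Nat.pow_dvd_pow_iff_le_right hr.one_lt] at h1
  rw [Nat.factorization_prod (fun x _ => pow_ne_zero _ (hpos _)),
    Nat.factorization_mul (pow_ne_zero _ (hpos _)) (pow_ne_zero _ (hpos _))]
  simp only [Finsupp.finsetSum_apply, Nat.factorization_pow, Finsupp.smul_apply, smul_eq_mul,
    Finsupp.add_apply]
  simpa only [mul_comm] using h1

end Cfsg.Agent.H8
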