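import Cfsg.Agent.H8.NR1
import Cfsg.Agent.H9.PSolv

/-!
The number of `p`-elements of a `p`-solvable group.
-/

set_option autoImplicit false

namespace Cfsg.Agent.H8

open Subgroup Cfsg.Agent.H20 Cfsg.Agent.H21
open scoped Pointwise

universe u

variable {G : Type*} [Group G] [Finite G] {p : ℕ} [hp : Fact p.Prime]

/-- number of Sylow subgroups containing `x` -/
noncomputable def sylCt (p : ℕ) {G : Type*} [Group G] (x : G) : ℕ :=
  Nat.card {Q : Sylow p G // x ∈ (Q : Subgroup G)}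

theorem sylCt_one : sylCt p (1 : G) = Nat.card (Sylow p G) :=
  Nat.card_congr (Equiv.subtypeUnivEquiv fun Q => (Q : Subgroup G).one_mem)

theorem sylCt_pos {P : Sylow p G} {x : G} (hx : x ∈ (P : Subgroup G)) : 0 < sylCt p x :=
  Nat.card_pos_iff.2 ⟨⟨⟨P, hx⟩⟩, inferInstance⟩

omit [Finite G] hp in
theorem mem_smul_sylow {Q : Sylow p G} {g x : G} :
    x ∈ ((g • Q : Sylow p G) : Subgroup G) ↔ g⁻¹ * x * g ∈ (Q : Subgroup G) := by
  rw [Sylow.coe_subgroup_smul, mem_pointwise_smul_iff_inv_smul_mem]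
  simp

omit [Finite G] hp in
theorem sylCt_conj (g x : G) : sylCt p (g * x * g⁻¹) = sylCt p x := by
  refine Nat.card_congr (Equiv.subtypeEquiv (MulAction.toPerm g⁻¹) fun Q => ?_)
  rw [MulAction.toPerm_apply, mem_smul_sylow, inv_inv]

theorem card_eq_mul_of_fiber {X Y : Type*} [Finite X] [Finite Y] (f : X → Y) {k : ℕ}
    (h : ∀ y, Nat.card {x // f x = y} = k) : Nat.card X = Nat.card Y * k := by
  have := Fintype.ofFinite Y
  rw [← Nat.card_congr (Equiv.sigmaFiberEquiv f), Nat.card_sigma]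
  simp [h]

theorem sylCt_quot_of_isPGroup (N : Subgroup G) [N.Normal] (hN : IsPGroup p N) (x : G) :
    sylCt p x = sylCt p (QuotientGroup.mk' N x) := by
  have h1 : ∀ (Q : Sylow p G) (y : G), y ∈ (Q : Subgroup G) ↔ QuotientGroup.mk' N y ∈
      (Q.mapSurjective (QuotientGroup.mk'_surjective N) : Subgroup _) := fun Q y => by
    rw [Sylow.coe_mapSurjective, ← mem_comap, comap_map_eq, QuotientGroup.ker_mk',
      sup_eq_left.2 (hN.le_sylow_of_normal Q)]
  refine Nat.card_congr (Equiv.subtypeEquiv (Equiv.ofBijective _ ⟨fun Q Q' h => ?_,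
    Sylow.mapSurjective_surjective (QuotientGroup.mk'_surjective N) p⟩) fun Q => h1 Q x)
  apply Sylow.ext
  ext y
  rw [h1, h1, h]

theorem sylCt_quot_of_not_dvd (N : Subgroup G) [hNn : N.Normal] (hN : ¬ p ∣ ♯N) (P : Sylow p G)
    {x : G} (hx : x ∈ (P : Subgroup G)) :
    sylCt p (QuotientGroup.mk' N x) * ♯(N ⊓ C⟦zpowers x⟧) =
      sylCt p x * ♯(N ⊓ C⟦(P : Subgroup G)⟧) := by
  let π := QuotientGroup.mk' N
  let Φ : Sylow p G → Sylow p (G ⧸ N) := fun Q => Q.mapSurjective (QuotientGroup.mk'_surjective N)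
  have hΦ : ∀ (Q : Sylow p G) (y : G), π y ∈ (Φ Q : Subgroup _) ↔ y ∈ (Q : Subgroup G) ⊔ N :=
    fun Q y => by rw [Sylow.coe_mapSurjective, ← mem_comap, comap_map_eq, QuotientGroup.ker_mk']
  have hdis : ∀ (Q : Sylow p G) (y : G), y ∈ (Q : Subgroup G) → y ∈ N → y = 1 := fun Q y h1 h2 => by
    obtain ⟨k, hk⟩ := IsPGroup.iff_orderOf.1 Q.2 ⟨y, h1⟩
    rw [orderOf_mk] at hk
    have h3 : orderOf y ∣ ♯N := by rw [← orderOf_mk y h2]; exact orderOf_dvd_natCard _
    exact orderOf_eq_one_iff.1 (Nat.eq_one_of_dvd_coprimes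
      (((hp.out.coprime_iff_not_dvd).2 hN).pow_left k) hk.dvd h3)
  have hΦn : ∀ (Q : Sylow p G), ∀ n ∈ N, Φ (n • Q) = Φ Q := fun Q n hn => by
    apply Sylow.ext
    ext y
    obtain ⟨y, rfl⟩ := QuotientGroup.mk'_surjective N y
    have key : ∀ (Q : Sylow p G), ∀ n ∈ N, ((n • Q : Sylow p G) : Subgroup G) ⊔ N ≤
        (Q : Subgroup G) ⊔ N := by
      intro Q n hn
      refine sup_le (fun z hz => ?_) le_sup_right
      have h1 : z = n * (n⁻¹ * z * n) * n⁻¹ := by group
      rw [h1]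
      exact mul_mem (mul_mem (mem_sup_right hn) (mem_sup_left (mem_smul_sylow.1 hz)))
        (mem_sup_right (inv_mem hn))
    rw [hΦ, hΦ]
    refine ⟨fun h => key Q n hn h, fun h => ?_⟩
    have := key (n • Q) n⁻¹ (inv_mem hn)
    rw [inv_smul_smul] at this
    exact this h
  have hconj : ∀ Q Q' : Sylow p G, Φ Q = Φ Q' → ∃ n ∈ N, n • Q = Q' := fun Q Q' h => by
    have h1 : (Q' : Subgroup G) ≤ (Q : Subgroup G) ⊔ N := fun y hy => by
      rw [← hΦ, h, hΦ]; exact mem_sup_left hy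
    obtain ⟨g, hg⟩ := MulAction.exists_smul_eq ((Q : Subgroup G) ⊔ N : Subgroup G)
      (Q.subtype le_sup_left) (Q'.subtype h1)
    have h2 : (g : G) • Q = Q' := by
      rw [Sylow.smul_subtype] at hg
      exact Sylow.subtype_injective hg
    have hg2 : (g : G) ∈ N ⊔ (Q : Subgroup G) := by rw [sup_comm]; exact g.2
    obtain ⟨n, hn, q, hq, hnq⟩ := mem_sup_of_normal_left.1 hg2
    refine ⟨n, hn, ?_⟩
    rw [← h2, ← hnq, mul_smul, Sylow.smul_eq_iff_mem_normalizer.2 (le_normalizer hq)]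
  have hsec : ∀ R : {R : Sylow p (G ⧸ N) // π x ∈ (R : Subgroup _)},
      ∃ Q : Sylow p G, x ∈ (Q : Subgroup G) ∧ Φ Q = R.1 := by
    rintro ⟨R, hR⟩
    obtain ⟨Q, rfl⟩ : ∃ Q, Φ Q = R :=
      Sylow.mapSurjective_surjective (QuotientGroup.mk'_surjective N) p R
    rw [hΦ] at hR
    have h1 : IsPGroup p (zpowers (⟨x, hR⟩ : ((Q : Subgroup G) ⊔ N : Subgroup G))) := by
      obtain ⟨k, hk⟩ := IsPGroup.iff_orderOf.1 P.2 ⟨x, hx⟩
      exact IsPGroup.of_card (n := k) (by rw [Nat.card_zpowers, orderOf_mk, ← hk, orderOf_mk])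
    obtain ⟨S, hS⟩ := h1.exists_le_sylow
    obtain ⟨g, hg⟩ := MulAction.exists_smul_eq ((Q : Subgroup G) ⊔ N : Subgroup G)
      (Q.subtype le_sup_left) S
    have hg2 : (g : G) ∈ N ⊔ (Q : Subgroup G) := by rw [sup_comm]; exact g.2
    obtain ⟨n, hn, q, hq, hnq⟩ := mem_sup_of_normal_left.1 hg2
    refine ⟨n • Q, ?_, hΦn Q n hn⟩
    have h2 := hS (mem_zpowers _)
    rw [← hg, Sylow.smul_subtype] at h2
    have h3 : x ∈ (((g : G) • Q : Sylow p G) : Subgroup G) := h2
    rwa [← hnq, mul_smul, Sylow.smul_eq_iff_mem_normalizer.2 (le_normalizer hq)] at h3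
  choose s hs1 hs2 using hsec
  have hC : ∀ c, c ∈ N ⊓ C⟦zpowers x⟧ ↔ c ∈ N ∧ c * x = x * c := fun c => by
    rw [mem_inf, cent_zpowers, mem_cent1]
  let T : {R : Sylow p (G ⧸ N) // π x ∈ (R : Subgroup _)} × (N ⊓ C⟦zpowers x⟧ : Subgroup G) →
      {Q : Sylow p G // x ∈ (Q : Subgroup G)} := fun t => ⟨(t.2 : G) • s t.1, by
    rw [mem_smul_sylow, mul_assoc, ← ((hC _).1 t.2.2).2, inv_mul_cancel_left]
    exact hs1 _⟩
  rw [sylCt, sylCt, ← Nat.card_prod]
  refine card_eq_mul_of_fiber T ?_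
  rintro ⟨Q, hQ⟩
  have hcard : ♯(N ⊓ C⟦(Q : Subgroup G)⟧) = ♯(N ⊓ C⟦(P : Subgroup G)⟧) := by
    obtain ⟨g, rfl⟩ := MulAction.exists_smul_eq G P Q
    refine Nat.card_congr (Equiv.subtypeEquiv (MulAut.conj g⁻¹).toEquiv fun y => ?_)
    simp only [mem_inf, mem_cent, mem_smul_sylow, MulEquiv.toEquiv_eq_coe, EquivLike.coe_coe,
      MulAut.conj_apply, inv_inv]
    refine and_congr ⟨fun h => by simpa using hNn.conj_mem _ h g⁻¹,
      fun h => by simpa [mul_assoc] using hNn.conj_mem _ h g⟩ ⟨fun h a ha => ?_, fun h a ha => ?_⟩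
    · have := h (g * a * g⁻¹) (by simpa [mul_assoc] using ha)
      calc a * (g⁻¹ * y * g) = g⁻¹ * (g * a * g⁻¹ * y) * g := by group
        _ = g⁻¹ * y * g * a := by rw [this]; group
    · have := h _ ha
      calc a * y = g * (g⁻¹ * a * g * (g⁻¹ * y * g)) * g⁻¹ := by group
        _ = y * a := by rw [this]; group
  rw [← hcard]
  let R₀ : {R : Sylow p (G ⧸ N) // π x ∈ (R : Subgroup _)} := ⟨Φ Q, (hΦ Q x).2 (mem_sup_left hQ)⟩
  obtain ⟨c, hcN, hc⟩ := hconj (s R₀) Q (hs2 R₀)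
  have hcx : c * x = x * c := by
    have h1 : c⁻¹ * x * c ∈ (s R₀ : Subgroup G) := by rw [← mem_smul_sylow, hc]; exact hQ
    have h2 := hdis _ _ (mul_mem h1 (inv_mem (hs1 R₀))) (by
      have := mul_mem (inv_mem hcN) (hNn.conj_mem _ hcN x)
      simpa [mul_assoc] using this)
    calc c * x = c * (c⁻¹ * x * c * x⁻¹ * x) := by rw [h2, one_mul]
      _ = x * c := by group
  symm
  refine Nat.card_eq_of_bijective (fun d => ⟨(R₀, ⟨d * c, (hC _).2 ⟨mul_mem d.2.1 hcN, ?_⟩⟩), ?_⟩)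
    ⟨?_, ?_⟩
  · rw [mul_assoc, hcx, ← mul_assoc, ← mem_cent.1 d.2.2 x hQ, mul_assoc]
  · apply Subtype.ext
    change ((d : G) * c) • s R₀ = Q
    rw [mul_smul, hc, Sylow.smul_eq_iff_mem_normalizer]
    exact centralizer_le_normalizer _ d.2.2
  · intro d d' h
    have h1 : (d : G) * c = d' * c := congrArg (fun t => (t.1.2 : G)) h
    exact Subtype.ext (mul_right_cancel h1)
  · rintro ⟨⟨R, e⟩, he⟩
    have h1 : (e : G) • s R = Q := congrArg Subtype.val he
    obtain rfl : R = R₀ := Subtype.ext (by rw [← hs2 R, ← hΦn _ _ e.2.1, h1])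
    have h2 : (e : G) * c⁻¹ ∈ normalizer ((Q : Subgroup G) : Set G) :=
      Sylow.smul_eq_iff_mem_normalizer.1 (by rw [mul_smul, inv_smul_eq_iff.2 hc.symm, h1])
    have h3 : (e : G) * c⁻¹ ∈ N := mul_mem e.2.1 (inv_mem hcN)
    refine ⟨⟨e * c⁻¹, h3, mem_cent.2 fun a ha => ?_⟩, ?_⟩
    · have h4 := hdis Q _ (mul_mem ((mem_normalizer_iff.1 h2 a).1 ha) (inv_mem ha)) (by
        have := mul_mem h3 (hNn.conj_mem _ (inv_mem h3) a)
        simpa [mul_assoc] using this)
      rw [mul_inv_eq_one, mul_inv_eq_iff_eq_mul] at h4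
      exact h4.symm
    · apply Subtype.ext
      simp

theorem card_mul_sum_comp_real {A B : Type*} [Group A] [Group B] [Fintype A] [Fintype B]
    (F : A →* B) (hF : Function.Surjective F) (g : B → ℝ) :
    (Nat.card B : ℝ) * ∑ x, g (F x) = Nat.card A * ∑ a, g a := by
  have := card_mul_sum_comp F hF fun b => (g b : ℂ)
  exact_mod_cast this

theorem gheri_log (G : Type u) [Group G] [Finite G] : IsPSolvable p G → ∀ (P : Sylow p G)
    [Fintype (P : Subgroup G)], (p : ℝ) * ∑ x : (P : Subgroup G), Real.log (sylCt p (x : G)) ≤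
      Nat.card (P : Subgroup G) * Real.log (sylCt p (1 : G)) := by
  refine H2.card_induction (P := fun G _ _ => IsPSolvable p G → ∀ (P : Sylow p G)
    [Fintype (P : Subgroup G)], (p : ℝ) * ∑ x : (P : Subgroup G), Real.log (sylCt p (x : G)) ≤
      Nat.card (P : Subgroup G) * Real.log (sylCt p (1 : G))) ?_ G
  intro G _ _ ih hG P _
  rcases subsingleton_or_nontrivial G with h | h
  · have h1 : ∀ x : G, sylCt p x = 1 := fun x => by
      rw [Subsingleton.elim x 1, sylCt_one]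
      have : Subsingleton (Sylow p G) := ⟨fun a b => Sylow.ext (Subsingleton.elim _ _)⟩
      exact Nat.card_unique
    simp [h1]
  have key : ∀ (N : Subgroup G) [N.Normal], N ≠ ⊥ →
      (p : ℝ) * ∑ x : (P : Subgroup G), Real.log (sylCt p (QuotientGroup.mk' N x)) ≤
        Nat.card (P : Subgroup G) * Real.log (sylCt p (1 : G ⧸ N)) := by
    intro N _ hN
    let R := P.mapSurjective (QuotientGroup.mk'_surjective N)
    have := Fintype.ofFinite (R : Subgroup (G ⧸ N))
    have h1 := ih (G ⧸ N) (by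
      rw [card_eq_card_quotient_mul_card_subgroup N]
      exact lt_mul_of_one_lt_right Nat.card_pos (one_lt_card hN)) (H9.isPSolvable_quotient hG N) R
    have h2 := card_mul_sum_comp_real (B := (R : Subgroup (G ⧸ N)))
      ((QuotientGroup.mk' N).subgroupMap P) ((QuotientGroup.mk' N).subgroupMap_surjective P)
      (fun a => Real.log (sylCt p (a : G ⧸ N)))
    have h3 : (0 : ℝ) < Nat.card (R : Subgroup (G ⧸ N)) := by exact_mod_cast Nat.card_pos
    refine le_of_mul_le_mul_left ?_ h3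
    rw [mul_left_comm]
    refine (congrArg (_ * ·) h2).le.trans ?_
    rw [mul_left_comm, mul_left_comm (Nat.card (R : Subgroup (G ⧸ N)) : ℝ)]
    exact mul_le_mul_of_nonneg_left h1 (by positivity)
  rcases H9.core_ne_bot_of_isPSolvable hG with h1 | h1
  · have h2 := key _ h1
    simp only [← sylCt_quot_of_isPGroup _ (H1.isPGroup_pCore p G)] at h2
    rwa [sylCt_quot_of_isPGroup _ (H1.isPGroup_pCore p G) 1]
  · have h2 := key _ h1
    set N := pPrimeCore p G
    have hN : ¬ p ∣ ♯N := H1.not_dvd_card_pPrimeCore p G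
    have hpos : ∀ A : Subgroup G, (♯A : ℝ) ≠ 0 := fun A => by exact_mod_cast (card_pos A).ne'
    have h3 : ∀ x ∈ (P : Subgroup G), Real.log (sylCt p x) =
        Real.log (sylCt p (QuotientGroup.mk' N x)) + Real.log ♯(N ⊓ C⟦zpowers x⟧) -
          Real.log ♯(N ⊓ C⟦(P : Subgroup G)⟧) := fun x hx => by
      have h4 : (sylCt p x : ℝ) ≠ 0 := by exact_mod_cast (sylCt_pos hx).ne'
      have h5 : (sylCt p (QuotientGroup.mk' N x) : ℝ) ≠ 0 := by
        exact_mod_cast (sylCt_pos (P := P.mapSurjective (QuotientGroup.mk'_surjective N))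
          ⟨x, hx, rfl⟩).ne'
      rw [eq_sub_iff_add_eq, ← Real.log_mul h4 (hpos _), ← Real.log_mul h5 (hpos _)]
      exact_mod_cast congrArg (fun n : ℕ => Real.log n) (sylCt_quot_of_not_dvd N hN P hx).symm
    have h4 := Nat.le_of_dvd (Nat.mul_pos (pow_pos (card_pos _) _) (pow_pos (card_pos _) _))
      (nr_dvd P.2 (P : Subgroup G).subtype (M := N) le_normalizer_of_normal hN)
    rw [range_subtype] at h4
    have h5 := Real.log_le_log (by
      exact_mod_cast Finset.prod_pos fun x _ => pow_pos (card_pos _) _) (Nat.cast_le.2 h4)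
    rw [Nat.cast_prod, Nat.cast_mul] at h5
    simp only [Nat.cast_pow] at h5
    rw [Real.log_prod (fun x _ => pow_ne_zero _ (hpos _)),
      Real.log_mul (pow_ne_zero _ (hpos _)) (pow_ne_zero _ (hpos _))] at h5
    simp only [Real.log_pow, ← Finset.mul_sum, coe_subtype] at h5
    rw [Nat.cast_mul, Nat.cast_sub hp.out.one_le, Nat.cast_one] at h5
    rw [Finset.sum_congr rfl fun (x : (P : Subgroup G)) _ => h3 x x.2, h3 1 (one_mem _), zpowers_one_eq_bot, cent_bot,
      inf_top_eq, map_one, Finset.sum_sub_distrib, Finset.sum_add_distrib, Finset.sum_const,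
      Finset.card_univ, nsmul_eq_mul, ← Nat.card_eq_fintype_card]
    nlinarith

theorem card_pElements_eq (P : Sylow p G) [Fintype (P : Subgroup G)] :
    (Nat.card {g : G // ∃ k : ℕ, orderOf g = p ^ k} : ℝ) =
      Nat.card (Sylow p G) * ∑ x : (P : Subgroup G), (sylCt p (x : G) : ℝ)⁻¹ := by
  classical
  have := Fintype.ofFinite G
  have := Fintype.ofFinite (Sylow p G)
  have h1 : ∀ Q : Sylow p G, ∑ x : (P : Subgroup G), (sylCt p (x : G) : ℝ)⁻¹ =
      ∑ g : G, if g ∈ (Q : Subgroup G) then (sylCt p g : ℝ)⁻¹ else 0 := fun Q => by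
    obtain ⟨c, rfl⟩ := MulAction.exists_smul_eq G P Q
    rw [← Equiv.sum_comp (MulAut.conj c).toEquiv, ← Finset.sum_filter]
    refine Eq.trans ?_ (Finset.sum_subtype (p := (· ∈ (P : Subgroup G))) (F := inferInstance) _
      (by simp [mem_smul_sylow, mul_assoc]) _).symm
    simp [sylCt_conj]
  rw [Nat.card_eq_fintype_card (α := Sylow p G), ← nsmul_eq_mul, ← Finset.card_univ,
    ← Finset.sum_const, Finset.sum_congr rfl fun Q _ => h1 Q, Finset.sum_comm,
    H4.natCard_subtype_eq_sum]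
  refine Finset.sum_congr rfl fun g _ => ?_
  have h2 : ∑ Q : Sylow p G, (if g ∈ (Q : Subgroup G) then (sylCt p g : ℝ)⁻¹ else 0) =
      sylCt p g * (sylCt p g : ℝ)⁻¹ := by
    rw [← Finset.sum_filter, Finset.sum_const, nsmul_eq_mul, sylCt, Nat.card_eq_fintype_card,
      Fintype.card_subtype]
  rw [h2]
  split_ifs with h
  · obtain ⟨k, hk⟩ := h
    obtain ⟨Q, hQ⟩ := (IsPGroup.of_card (G := zpowers g) (by rw [Nat.card_zpowers, hk])).exists_le_sylow
    rw [mul_inv_cancel₀ (by exact_mod_cast (sylCt_pos (hQ (mem_zpowers g))).ne')]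
  · have : sylCt p g = 0 := by
      rw [sylCt, Nat.card_eq_zero]
      left
      refine ⟨fun Q => h ?_⟩
      obtain ⟨k, hk⟩ := IsPGroup.iff_orderOf.1 Q.1.2 ⟨g, Q.2⟩
      exact ⟨k, by rw [← hk, orderOf_mk]⟩
    simp [this]

theorem gheri (hG : IsPSolvable p G) (P : Sylow p G) :
    Nat.card (P : Subgroup G) ^ p * Nat.card (Sylow p G) ^ (p - 1) ≤
      Nat.card {g : G // ∃ k : ℕ, orderOf g = p ^ k} ^ p := by
  have := Fintype.ofFinite (P : Subgroup G)
  have h1 := gheri_log G hG P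
  rw [sylCt_one] at h1
  have h2 := card_pElements_eq P
  set n : ℝ := (Nat.card (Sylow p G) : ℝ) with hn
  have hn0 : 0 < n := by rw [hn]; exact_mod_cast Nat.card_pos
  have hp0 : (0 : ℝ) < p := by exact_mod_cast hp.out.pos
  set c := Real.log n / p with hc
  have h3 : ∀ x : (P : Subgroup G), Real.exp (-c) * (c - Real.log (sylCt p (x : G)) + 1) ≤
      (sylCt p (x : G) : ℝ)⁻¹ := fun x => by
    have h4 : (0 : ℝ) < sylCt p (x : G) := by exact_mod_cast sylCt_pos x.2
    refine (mul_le_mul_of_nonneg_left (Real.add_one_le_exp _) (Real.exp_pos _).le).trans ?_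
    rw [← Real.exp_add, show -c + (c - Real.log (sylCt p (x : G))) = -Real.log (sylCt p (x : G)) by
      ring, Real.exp_neg, Real.exp_log h4]
  have h4 := Finset.sum_le_sum fun x (_ : x ∈ Finset.univ) => h3 x
  rw [← Finset.mul_sum, Finset.sum_add_distrib, Finset.sum_sub_distrib, Finset.sum_const,
    Finset.sum_const, Finset.card_univ, ← Nat.card_eq_fintype_card, nsmul_eq_mul, nsmul_eq_mul,
    mul_one] at h4
  have h5 : ∑ x : (P : Subgroup G), Real.log (sylCt p (x : G)) ≤ Nat.card (P : Subgroup G) * c := by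
    rw [hc, mul_div_assoc', le_div_iff₀ hp0, mul_comm]
    exact h1
  have h6 : n * (Real.exp (-c) * Nat.card (P : Subgroup G)) ≤
      Nat.card {g : G // ∃ k : ℕ, orderOf g = p ^ k} := by
    rw [h2]
    refine mul_le_mul_of_nonneg_left (le_trans ?_ h4) hn0.le
    exact mul_le_mul_of_nonneg_left (by linarith) (Real.exp_pos _).le
  have h7 := pow_le_pow_left₀ (by positivity) h6 p
  rw [mul_pow, mul_pow, ← Real.exp_nat_mul, mul_neg, hc, mul_div_cancel₀ _ hp0.ne', Real.exp_neg,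
    Real.exp_log hn0] at h7
  have h8 : n ^ p = n ^ (p - 1) * n := by rw [← pow_succ, Nat.sub_add_cancel hp.out.one_le]
  rw [h8, mul_assoc, mul_inv_cancel_left₀ hn0.ne', mul_comm, hn] at h7
  exact_mod_cast h7

end Cfsg.Agent.H8
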