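import Cfsg.Agent.H8.Oct1

/-! Sylow `2`-subgroups of `G₂(q)`, `q` odd. -/

set_option autoImplicit false

namespace Cfsg.Agent.H8

open Subgroup Function Module QuadraticMap H13 Cfsg.Lie Equiv SemidirectProduct
open scoped Pointwise

variable {F : Type*} [Field F]

/-- The standard involution. -/
def z0 (F : Type*) [Field F] : AutO F :=
  ⟨sgnL F (Fin 8) ![1, 1, -1, -1, 1, -1, -1, 1], fun x y => funext fun i => by
    fin_cases i <;> simp [sgnL_apply, zM_apply, zornMul_eq] <;> ring⟩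

theorem z0_mul_self : z0 F * z0 F = 1 := Subtype.ext (sgnL_mul_self _)

theorem z0_ne_one (h2 : (2 : F) ≠ 0) : z0 F ≠ 1 := fun h =>
  absurd (congrFun (sgnL_injective h2 ((congrArg Subtype.val h).trans (map_one _).symm)) 2)
    (by decide)

theorem mem_negS_z0 (h2 : (2 : F) ≠ 0) {x : Fin 8 → F} :
    x ∈ negS (z0 F) ↔ x 0 = 0 ∧ x 1 = 0 ∧ x 4 = 0 ∧ x 7 = 0 := by
  have key : ∀ a : F, a = -a ↔ a = 0 := fun a => by
    rw [eq_neg_iff_add_eq_zero, ← two_mul, mul_eq_zero, or_iff_right h2]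
  change sgnL F (Fin 8) _ x = -x ↔ _
  simp [funext_iff, Fin.forall_fin_succ, sgnL_apply, key]

/-- A multiple of an automorphism centralizing the standard involution. -/
def gL (a : Fin 8 → F) : (Fin 8 → F) →ₗ[F] (Fin 8 → F) where
  toFun x := ![-a 2 * a 5 * x 0 - a 2 * a 6 * x 4 - a 3 * a 5 * x 1 - a 3 * a 6 * x 7,
    -a 5 * a 6 * x 0 + a 5 * a 6 * x 7 + a 5 ^ 2 * x 1 - a 6 ^ 2 * x 4,
    a 2 * a 3 * x 6 + a 2 * a 6 * x 3 + a 2 ^ 2 * x 2 - a 3 * a 6 * x 5,
    a 2 * a 3 * x 2 - a 2 * a 5 * x 3 + a 3 * a 5 * x 5 + a 3 ^ 2 * x 6,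
    -a 2 * a 3 * x 0 + a 2 * a 3 * x 7 + a 2 ^ 2 * x 4 - a 3 ^ 2 * x 1,
    a 3 * a 5 * x 6 - a 3 * a 6 * x 2 + a 5 * a 6 * x 3 + a 5 ^ 2 * x 5,
    -a 2 * a 5 * x 6 + a 2 * a 6 * x 2 + a 5 * a 6 * x 5 + a 6 ^ 2 * x 3,
    -a 2 * a 5 * x 7 + a 2 * a 6 * x 4 + a 3 * a 5 * x 1 - a 3 * a 6 * x 0]
  map_add' x y := funext fun i => by fin_cases i <;> simp <;> ring
  map_smul' c x := funext fun i => by fin_cases i <;> simp <;> ring

theorem gL_mul (a x y : Fin 8 → F) :
    zM (gL a x) (gL a y) = -(a 2 * a 5 + a 3 * a 6) • gL a (zM x y) :=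
  funext fun i => by fin_cases i <;> simp [gL, zM_apply, zornMul_eq] <;> ring

theorem polar_gL (a x y : Fin 8 → F) : polar (zN F) (gL a x) (gL a y) =
    (a 2 * a 5 + a 3 * a 6) ^ 2 * polar (zN F) x y := by
  simp [gL, polar_zN]; ring

theorem gL_eq {a w v : Fin 8 → F} (ha : a 0 = 0 ∧ a 1 = 0 ∧ a 4 = 0 ∧ a 7 = 0)
    (hw : w 0 = 0 ∧ w 1 = 0 ∧ w 4 = 0 ∧ w 7 = 0) (hv : v = ![0, 0, 1, 0, 0, -1, 0, 0]) :
    gL a w = zN F a • (w - polar (zN F) v w • v) -
      polar (zN F) a (w - polar (zN F) v w • v) • a := by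
  obtain ⟨a0, a1, a4, a7⟩ := ha
  obtain ⟨w0, w1, w4, w7⟩ := hw
  subst hv
  funext i
  fin_cases i <;> simp [gL, polar_zN, zN_apply, a0, a1, a4, a7, w0, w1, w4, w7, Matrix.vecHead,
    Matrix.vecTail] <;> ring

theorem exists_resW_eq (h2 : (2 : F) ≠ 0) {v0 a : negS (z0 F)}
    (hv : v0.1 = ![0, 0, 1, 0, 0, -1, 0, 0]) (ha : (zN F).restrict (negS (z0 F)) a ≠ 0) :
    refl _ a * refl _ v0 ∈ (resW (z0 F)).range := by
  obtain ⟨a0, a1, a4, a7⟩ := (mem_negS_z0 h2).1 a.2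
  have hn : zN F a = -(a.1 2 * a.1 5 + a.1 3 * a.1 6) := by rw [zN_apply, a0, a1]; ring
  have hn0 : -(a.1 2 * a.1 5 + a.1 3 * a.1 6) ≠ 0 := hn ▸ ha
  let g : (Fin 8 → F) ≃ₗ[F] (Fin 8 → F) := LinearEquiv.ofInjectiveEndo
    ((-(a.1 2 * a.1 5 + a.1 3 * a.1 6))⁻¹ • gL a.1) ((injective_iff_map_eq_zero _).2 fun x hx =>
      nd_zN x fun y => by
        have h1 := polar_gL a.1 x y
        rw [(smul_eq_zero_iff_right (inv_ne_zero hn0)).1 hx, polar_zero_left] at h1
        exact (mul_eq_zero.1 h1.symm).resolve_left (pow_ne_zero _ (neg_ne_zero.1 hn0)))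
  have hg : ∀ x, g x = (-(a.1 2 * a.1 5 + a.1 3 * a.1 6))⁻¹ • gL a.1 x := fun _ => rfl
  have hA : g ∈ AutO F := fun x y => by
    rw [hg, hg, hg, map_smul, map_smul, LinearMap.smul_apply, gL_mul, inv_smul_smul₀ hn0]
  refine ⟨⟨⟨g, hA⟩, mem_centralizer_singleton_iff.2 (Subtype.ext (LinearEquiv.ext fun x => ?_))⟩,
    OG_ext fun w => Subtype.ext ?_⟩
  · change g ((z0 F).1 x) = (z0 F).1 (g x)
    rw [hg, hg, map_smul]
    congr 1
    funext i
    fin_cases i <;> simp [gL, z0, sgnL_apply] <;> ring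
  · have h1 : zN F v0 = 1 := by rw [hv]; simp [zN_apply]
    have hr : ∀ u x : negS (z0 F), ((refl ((zN F).restrict (negS (z0 F))) u).1 x).1 =
        x.1 - (polar (zN F) u x * (zN F u)⁻¹) • u.1 := fun u x => by
      rw [H13.refl_apply, polar_restrict]; rfl
    change g w.1 = ((refl ((zN F).restrict (negS (z0 F))) a).1
      ((refl ((zN F).restrict (negS (z0 F))) v0).1 w)).1
    rw [hr, hr, hg, gL_eq ⟨a0, a1, a4, a7⟩ ((mem_negS_z0 h2).1 w.2) hv, h1, inv_one, mul_one, ← hn,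
      smul_sub, inv_smul_smul₀ (hn ▸ hn0), smul_smul, mul_comm]

theorem ker_dickson_le (h2 : (2 : F) ≠ 0) :
    (dickson (nd_negS h2 z0_mul_self) (good_of_two_ne_zero h2)).ker ≤ (resW (z0 F)).range := by
  have hW := nd_negS (z := z0 F) h2 z0_mul_self
  have hG : Good ((zN F).restrict (negS (z0 F))) := good_of_two_ne_zero h2
  let v0 : negS (z0 F) := ⟨![0, 0, 1, 0, 0, -1, 0, 0], (mem_negS_z0 h2).2 (by simp)⟩
  have key : ∀ g, (dickson hW hG g = 1 → g ∈ (resW (z0 F)).range) ∧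
      (dickson hW hG g = -1 → refl _ v0 * g ∈ (resW (z0 F)).range) := fun g => by
    refine hW.refl_induction hG (p := fun g => (dickson hW hG g = 1 → g ∈ (resW (z0 F)).range) ∧
      (dickson hW hG g = -1 → refl _ v0 * g ∈ (resW (z0 F)).range))
      ⟨fun _ => one_mem _, fun h => absurd h (by rw [map_one]; decide)⟩ (fun v g hv ih => ?_) g
    have h1 := exists_resW_eq h2 (v0 := v0) rfl hv
    rw [map_mul, dickson_refl _ _ hv]
    refine ⟨fun h => ?_, fun h => ?_⟩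
    · have := mul_mem h1 (ih.2 (by simpa [neg_eq_iff_eq_neg] using h))
      rwa [mul_assoc, ← mul_assoc (refl _ v0), refl_mul_self, one_mul] at this
    · have := mul_mem (inv_mem h1) (ih.1 (by simpa using h))
      rwa [mul_inv_rev, refl_inv, refl_inv, mul_assoc] at this
  exact fun g hg => (key g).1 hg

theorem isPlus_negS_z0 (h2 : (2 : F) ≠ 0) : IsPlus ((zN F).restrict (negS (z0 F))) := by
  let L : (Fin 2 → F) →ₗ[F] negS (z0 F) :=
    { toFun := fun v => ⟨![0, 0, v 0, v 1, 0, 0, 0, 0], (mem_negS_z0 h2).2 (by simp)⟩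
      map_add' := fun _ _ => Subtype.ext (funext fun i => by fin_cases i <;> simp)
      map_smul' := fun _ _ => Subtype.ext (funext fun i => by fin_cases i <;> simp) }
  refine ⟨LinearMap.range L, ?_, ?_⟩
  · rw [LinearMap.finrank_range_of_inj, finrank_fin_fun,
      finrank_negS h2 z0_mul_self (z0_ne_one h2)]
    intro v w h
    funext i
    fin_cases i
    · exact congrFun (congrArg Subtype.val h) 2
    · exact congrFun (congrArg Subtype.val h) 3
  · rintro _ ⟨v, rfl⟩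
    simp [restrict_apply', zN_apply, L]

variable [Fintype F]

theorem fac2_card_O4 (hF : Odd (Fintype.card F)) {V : Type*} [AddCommGroup V] [Module F V]
    [FiniteDimensional F V] {Q : QuadraticForm F V} (hQ : ND Q) (hV : finrank F V = 4) :
    (Nat.card (OG Q)).factorization 2 ≤ 1 + 2 * (Fintype.card F ^ 2 - 1).factorization 2 ∧
      (IsPlus Q → (Nat.card (OG Q)).factorization 2 =
        1 + 2 * (Fintype.card F ^ 2 - 1).factorization 2) := by
  have h1 : 1 < Fintype.card F := Fintype.one_lt_card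
  have h3 := pow_sub_one_ne_zero h1 two_ne_zero
  have hP : IsPlus Q → (Nat.card (OG Q)).factorization 2 =
      1 + 2 * (Fintype.card F ^ 2 - 1).factorization 2 := fun h => by
    rw [hQ.card_OG_plus h (m := 2) one_le_two hV, Nat.card_eq_fintype_card, Finset.prod_range_one,
      fac2_mul (by positivity) h3, fac2_two_mul_pow hF h1 _ h3]
    ring
  refine ⟨?_, hP⟩
  by_cases h : IsPlus Q
  · exact (hP h).le
  · have h4 := fac2_pos h3 (Nat.Odd.sub_odd hF.pow odd_one)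
    obtain ⟨k, hk⟩ := hF
    rw [hQ.card_OG_minus h (m := 2) one_le_two hV, Nat.card_eq_fintype_card, Finset.prod_range_one,
      fac2_mul (by positivity) h3, fac2_two_mul_pow ⟨k, hk⟩ h1 _ (by omega),
      fac2_eq_one (n := Fintype.card F ^ 2 + 1) (by
        rw [hk, show (2 * k + 1) ^ 2 + 1 = 2 + 4 * (k ^ 2 + k) by ring, Nat.add_mul_mod_self_left])]
    omega

instance finite_AutO : Finite (AutO F) :=
  haveI : Finite ((Fin 8 → F) ≃ₗ[F] (Fin 8 → F)) := DFunLike.finite _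
  inferInstance

omit [Fintype F] in
theorem exists_central_invol {G : Type*} [Group G] [Finite G] {S : Subgroup G} [Nontrivial S]
    (hS : IsPGroup 2 S) : ∃ z : G, z * z = 1 ∧ z ≠ 1 ∧ S ≤ centralizer {z} := by
  haveI := hS.center_nontrivial
  obtain ⟨z, hz⟩ := exists_prime_orderOf_dvd_card' 2
    (((hS.to_subgroup (center S)).card_eq_or_dvd).resolve_left Finite.one_lt_card.ne')
  refine ⟨z.1.1, ?_, fun h => ?_, fun g hg =>
    mem_centralizer_singleton_iff.2 (congrArg Subtype.val (mem_center_iff.1 z.2 ⟨g, hg⟩))⟩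
  · rw [← coe_mul, ← coe_mul, ← pow_two, ← hz, pow_orderOf_eq_one]; rfl
  · rw [show z = 1 from Subtype.ext (Subtype.ext h), orderOf_one] at hz
    exact absurd hz (by decide)

theorem fac2_lt_of_ne_refl {V S : Type*} [AddCommGroup V] [Module F V] [FiniteDimensional F V]
    {Q : QuadraticForm F V} [Group S] (hS : IsPGroup 2 S) (φ : S →* OG Q) (hφ : Injective φ)
    {v : V} (hv : Q v ≠ 0) (h : ∀ g v, Q v ≠ 0 → φ g ≠ refl Q v) :
    (Nat.card S).factorization 2 < (Nat.card (OG Q)).factorization 2 := by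
  haveI : Finite V := Module.finite_of_finite F
  haveI : Finite S := .of_injective φ hφ
  obtain ⟨S', hS'⟩ := (hS.of_surjective _ φ.rangeRestrict_surjective).exists_le_sylow
  obtain ⟨v, hv⟩ : ∃ v, Q v ≠ 0 ∧ refl _ v ∈ S' := by
    obtain ⟨S0, h0'⟩ := exists_sylow_mem (p := 2) (k := 1) (x := refl Q v)
      (by rw [pow_one, pow_two, refl_mul_self])
    obtain ⟨g, rfl⟩ := MulAction.exists_smul_eq (OG Q) S0 S'
    exact ⟨g.1 v, by rwa [OG_map], ⟨_, h0', conj_refl g _⟩⟩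
  have hlt : φ.range < S' := lt_of_le_of_ne hS' fun h' => by
    obtain ⟨g, hg⟩ : refl _ v ∈ φ.range := h' ▸ hv.2
    exact h g v hv.1 hg
  have h3 : Nat.card φ.range < Nat.card S' := lt_of_le_of_ne (card_le_of_le hlt.le) fun h' =>
    hlt.ne (eq_of_le_of_card_ge hlt.le h'.ge)
  obtain ⟨k, hk⟩ := hS.exists_card_eq
  rw [← Nat.card_congr (MonoidHom.ofInjective hφ).toEquiv, hk,
    S'.card_eq_multiplicity, Nat.pow_lt_pow_iff_right one_lt_two] at h3
  rwa [hk, Nat.factorization_pow_self Nat.prime_two]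

theorem fac2_card_AutO (hF : Odd (Fintype.card F)) :
    (Nat.card (AutO F)).factorization 2 ≤ 2 * (Fintype.card F ^ 2 - 1).factorization 2 := by
  have h2 := two_ne_zero_of_odd_card hF
  obtain ⟨S⟩ : Nonempty (Sylow 2 (AutO F)) := inferInstance
  rw [← factorization_card_sylow S]
  rcases (S : Subgroup (AutO F)).bot_or_nontrivial with h | h
  · simp [h]
  obtain ⟨z, hz2, hz1, hle⟩ := exists_central_invol S.isPGroup'
  obtain ⟨v, hv, h0⟩ := exists_aniso h2 hz2 hz1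
  have h3 := fac2_lt_of_ne_refl S.isPGroup' ((resW z).comp (inclusion hle))
    ((resW_injective h2 hz2 hz1).comp (inclusion_injective hle)) (v := ⟨v, hv⟩) h0
    fun g _ hw => resW_ne_refl h2 hz2 hz1 _ hw
  have h4 := (fac2_card_O4 hF (nd_negS h2 hz2) (finrank_negS h2 hz2 hz1)).1
  omega

theorem wrO_aux' {I : Type} [Fintype I] [DecidableEq I] [Nontrivial I] (h2 : (2 : F) ≠ 0)
    (D0 : Sylow 2 (OG (sqQ (Fin 2) F))) (T : Sylow 2 (Perm I))
    (χ : OG (wrQ I (1 : Fin 0 → F)) →* ℤˣ) (hχ : ∀ v, wrQ I 1 v ≠ 0 → χ (refl _ v) = -1)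
    (ψ : Wr (OG (sqQ (Fin 2) F)) I × (Fin 0 → ℤˣ) →* ℤˣ) (hψ : ∀ x, ψ x = χ (wrO I 1 x)) :
    (wsub D0.1 T.1).prod ⊤ ⊓ ψ.ker ≤ goodSub 2 ((wsub D0.1 T.1).prod ⊤ ⊓ ψ.ker) := by
  obtain ⟨i0⟩ : Nonempty I := inferInstance
  have hW := nd_sq_two h2
  have hG : Good (sqQ (Fin 2) F) := good_of_two_ne_zero h2
  let δ : OG (sqQ (Fin 2) F) →* ℤˣ := ψ.comp ((MonoidHom.inl _ _).comp (sg i0))
  have hδ : ∀ v, sqQ (Fin 2) F v ≠ 0 → δ (refl _ v) = -1 := fun v hv => by
    change ψ (sg i0 (refl _ v), 1) = _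
    rw [hψ, wrO_sg_refl, hχ _ (by rwa [wrQ_single_left])]
  obtain ⟨a, ha0, ha⟩ : ∃ v, sqQ (Fin 2) F v ≠ 0 ∧ refl _ v ∈ D0.1 := by
    obtain ⟨w, hw⟩ := hW.exists_ne_zero
    obtain ⟨a, ha, h⟩ := exists_mem_sylow_map_eq (dickson hW hG)
      (.of_card (n := 1) (by simp)) D0 (refl _ w)
    rw [dickson_refl _ _ hw] at h
    obtain ⟨v, hv, rfl⟩ := eq_refl_of_dickson h2 (d := a) (by rw [h]; decide)
    exact ⟨v, hv, ha⟩
  have hrot : ∀ d, dickson hW hG d = 1 → d * refl _ a * (d * refl _ a) = 1 := fun d hd => by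
    obtain ⟨v, -, h⟩ := eq_refl_of_dickson h2 (d := d * refl _ a)
      (by rw [map_mul, hd, dickson_refl _ _ ha0]; decide)
    rw [h, refl_mul_self]
  refine wr_ker ψ i0 δ (fun _ => rfl) (fun t _ => ?_) (genP_sylow_perm 2 T).le_goodSub
    (fun d hd => ?_) (fun d hd h => Or.inr ⟨inferInstance, _, ha, refl_mul_self a, ?_⟩)
    (signs_le fun k => k.elim0)
  · rw [hψ, wrO_inr]
    exact map_eq_one_of_sign (A := ℤˣ) (χ.comp (pmO I 1))
      (sign_prodCongrLeft_two (Fintype.card_fin 2) t)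
  · by_cases h : dickson hW hG d = 1
    · rw [show d = d * refl _ a * refl _ a by rw [mul_assoc, refl_mul_self, mul_one]]
      exact mul_mem (subset_closure ⟨mul_mem hd ha, Or.inr (hrot d h)⟩)
        (subset_closure ⟨ha, Or.inr (refl_mul_self a)⟩)
    · obtain ⟨v, -, rfl⟩ := eq_refl_of_dickson h2 h
      exact subset_closure ⟨hd, Or.inr (refl_mul_self v)⟩
  · by_cases h' : dickson hW hG d = 1
    · rw [refl_inv, eq_inv_iff_mul_eq_one, ← conj_eq_one_iff (a := d), ← hrot d h']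
      group
    · obtain ⟨v, hv, rfl⟩ := eq_refl_of_dickson h2 h'
      rw [hδ v hv] at h
      exact absurd h (by decide)

theorem sylow_SO4 (hF : Odd (Fintype.card F)) {V : Type*} [AddCommGroup V] [Module F V]
    [FiniteDimensional F V] {Q : QuadraticForm F V} (hQ : ND Q) (hG : Good Q)
    (hV : finrank F V = 4) (hP : IsPlus Q) (S : Sylow 2 (dickson hQ hG).ker)
    (x : (S : Subgroup (dickson hQ hG).ker)) :
    x ^ 2 ∈ commutator (S : Subgroup (dickson hQ hG).ker) := by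
  have h2 := two_ne_zero_of_odd_card hF
  haveI : Finite V := Module.finite_of_finite F
  have hc : ∀ k, (1 : Fin 0 → F) k ≠ 0 := fun _ => one_ne_zero
  have hV' : finrank F ((Fin 2 → Fin 2 → F) × (Fin 0 → F)) = 2 * 2 := by
    rw [finrank_wrQ]; simp
  obtain ⟨s⟩ := (nd_wrQ (I := Fin 2) h2 hc).nonempty_semiSim_even hQ hV' hV (by
    rw [(nd_wrQ h2 hc).isPlus_iff_disc h2 hV', disc_wrQ h2 hc (by simp)]; simp [sgn_one, hP])
  obtain ⟨D0⟩ : Nonempty (Sylow 2 (OG (sqQ (Fin 2) F))) := inferInstance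
  obtain ⟨T⟩ : Nonempty (Sylow 2 (Perm (Fin 2))) := inferInstance
  have h1 : IsPGroup 2 ((wsub D0.1 T.1).prod (⊤ : Subgroup (Fin 0 → ℤˣ))) :=
    isPGroup_prod_top (isPGroup_wsub D0.isPGroup' T.isPGroup') (isPGroup_signs _)
  have h3 := wrO_aux' h2 D0 T ((dickson hQ hG).comp s.conj.toMonoidHom) (fun v hv => by
    change dickson hQ hG (s.conj _) = _
    rw [s.conj_refl, dickson_refl _ _ (by
      rw [s.map_Q]; exact mul_ne_zero s.c_ne ((map_ne_zero _).2 hv))])
    ((dickson hQ hG).comp (s.conj.toMonoidHom.comp (wrO (Fin 2) 1))) fun _ => rfl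
  refine sylow_ker_pow_mem _ (s.conj.injective.comp (wrO_injective h2)) _ h1 ?_ h3 S x
  rw [factorization_card_prod_top, factorization_card_wsub, factorization_card_sylow,
    factorization_card_sylow_perm, (fac2_card_O4 hF hQ hV).2 hP]
  have h4 := fac2_card_O2 hF
  have h5 : (Fintype.card (Fin 2)).factorial.factorization 2 = 1 := fac2_eq_one (by simp)
  rw [h5, Nat.card_eq_fintype_card (α := Fin 2), Fintype.card_fin]
  omega

theorem sylow_AutO (hF : Odd (Fintype.card F)) (S : Sylow 2 (AutO F))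
    (x : (S : Subgroup (AutO F))) : x ^ 2 ∈ commutator (S : Subgroup (AutO F)) := by
  have h2 := two_ne_zero_of_odd_card hF
  have hW := nd_negS (z := z0 F) h2 z0_mul_self
  have hG : Good ((zN F).restrict (negS (z0 F))) := good_of_two_ne_zero h2
  have hV := finrank_negS h2 z0_mul_self (z0_ne_one h2)
  have hi := resW_injective h2 z0_mul_self (z0_ne_one h2)
  obtain ⟨P⟩ : Nonempty (Sylow 2 (dickson hW hG).ker) := inferInstance
  refine sylow_pow_mem ((centralizer {z0 F}).subtype.comp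
    ((MonoidHom.ofInjective hi).symm.toMonoidHom.comp (inclusion (ker_dickson_le h2))))
    ((subtype_injective _).comp ((MonoidHom.ofInjective hi).symm.injective.comp
      (inclusion_injective (ker_dickson_le h2))))
    P.isPGroup' ((fac2_card_AutO hF).trans ?_)
    (le_goodSub_of_pow_mem (sylow_SO4 hF hW hG hV (isPlus_negS_z0 h2) P)) S x
  have h3 := (fac2_card_O4 hF hW hV).2 (isPlus_negS_z0 h2)
  have h4 := (dickson hW hG).ker.card_mul_index
  rw [index_ker] at h4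
  have h5 : (Nat.card (dickson hW hG).range).factorization 2 ≤ 1 :=
    (Nat.factorization_le_factorization_of_dvd_right (card_subgroup_dvd_card _) Nat.card_pos.ne'
      Nat.card_pos.ne').trans (fac2_eq_one (by simp)).le
  rw [← h4, fac2_mul Nat.card_pos.ne' Nat.card_pos.ne'] at h3
  rw [factorization_card_sylow]
  omega

end Cfsg.Agent.H8
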