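import Cfsg.Agent.H8.Basic
import Cfsg.Agent.H7.NormalP
import Mathlib.RingTheory.Valuation.LocalSubring

/-!
A nonprincipal irreducible character with a vector fixed by an overgroup of the normalizer of a
trivial intersection Sylow subgroup `P` has degree at least `|P|`.
-/

namespace Cfsg.Agent.H8

open Cfsg Cfsg.Agent.H4 Module
open scoped ComplexConjugate Pointwise

theorem sum_eq_of_free_orbits {P X A : Type*} [Group P] [Fintype P] [Fintype X] [MulAction P X]
    [AddCommMonoid A] {x₀ : X} (h0 : ∀ u : P, u • x₀ = x₀)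
    (hfree : ∀ (u : P) (x : X), x ≠ x₀ → u • x = x → u = 1) (f : X → A)
    (hf : ∀ x, x ≠ x₀ → ∑ u : P, f (u • x) = 0) : ∑ x, f x = f x₀ := by
  classical
  let q : X → MulAction.orbitRel.Quotient P X := Quotient.mk _
  have hq : ∀ x y, q x = q y ↔ ∃ u : P, u • y = x := fun x y => by
    rw [Quotient.eq]; exact MulAction.orbitRel_apply
  have : Fintype (MulAction.orbitRel.Quotient P X) := Fintype.ofFinite _
  rw [← Finset.sum_fiberwise (s := Finset.univ) (g := q), Finset.sum_eq_single (q x₀)]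
  · have : (Finset.univ.filter fun x => q x = q x₀) = {x₀} := by
      ext x
      simp only [Finset.mem_filter, Finset.mem_univ, true_and, Finset.mem_singleton, hq]
      constructor
      · rintro ⟨u, rfl⟩; exact h0 u
      · rintro rfl; exact ⟨1, one_smul _ _⟩
    rw [this, Finset.sum_singleton]
  · intro b _ hb
    obtain ⟨y, rfl⟩ := Quotient.exists_rep b
    have hy : y ≠ x₀ := fun h => hb (by rw [h])
    rw [← hf y hy]
    symm
    refine Finset.sum_bij (fun u _ => u • y) ?_ ?_ ?_ ?_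
    · intro u _
      simp only [Finset.mem_filter, Finset.mem_univ, true_and]
      exact (hq _ _).2 ⟨u, rfl⟩
    · intro u _ v _ huv
      have : (v⁻¹ * u) • y = y := by rw [mul_smul, huv, inv_smul_smul]
      have := hfree _ _ hy this
      rw [inv_mul_eq_one] at this
      exact this.symm
    · intro x hx
      simp only [Finset.mem_filter, Finset.mem_univ, true_and] at hx
      obtain ⟨u, hu⟩ := (hq _ _).1 hx
      exact ⟨u, Finset.mem_univ _, hu⟩
    · intro u _; rfl
  · intro h; exact absurd (Finset.mem_univ _) h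

theorem exists_valuationSubring_prime (p : ℕ) [hp : Fact p.Prime] :
    ∃ O : ValuationSubring ℂ, (p : ℂ) ∈ O.nonunits := by
  let A : Subring ℂ := ⊥
  let I : Ideal A := Ideal.span {(p : A)}
  have hI : I ≠ ⊤ := by
    intro h
    have h1 : (1 : A) ∈ I := h ▸ Submodule.mem_top
    obtain ⟨a, ha⟩ := Ideal.mem_span_singleton'.1 h1
    obtain ⟨n, hn⟩ := Subring.mem_bot.1 a.2
    have h2 : ((n * p : ℤ) : ℂ) = ((1 : ℤ) : ℂ) := by
      have := congrArg (Subtype.val) ha
      push_cast at this ⊢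
      rw [hn]; exact this
    have h3 : n * p = 1 := by exact_mod_cast h2
    have h4 : (p : ℤ) ∣ 1 := ⟨n, by rw [← h3, mul_comm]⟩
    have h5 : p ∣ 1 := by exact_mod_cast h4
    exact hp.out.one_lt.ne' (Nat.dvd_one.1 h5)
  obtain ⟨O, -, hO⟩ := Ideal.image_subset_nonunits_valuationSubring I hI
  refine ⟨O, hO ⟨(p : A), Ideal.subset_span rfl, by simp⟩⟩

theorem exists_max_val {ι : Type*} [Finite ι] (O : ValuationSubring ℂ) (c : ι → ℂ) {i₁ : ι}
    (h : c i₁ ≠ 0) : ∃ i₀, c i₀ ≠ 0 ∧ ∀ i, c i / c i₀ ∈ O := by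
  have : Nonempty ι := ⟨i₁⟩
  obtain ⟨i₀, hi₀⟩ := Finite.exists_max fun i => O.valuation (c i)
  have h0 : c i₀ ≠ 0 := by
    intro h1
    have := hi₀ i₁
    rw [h1, map_zero, le_zero_iff, map_eq_zero] at this
    exact h this
  refine ⟨i₀, h0, fun i => ?_⟩
  rw [← O.valuation_le_one_iff, map_div₀, div_le_one₀ (by simpa [zero_lt_iff] using h0)]
  exact hi₀ i

theorem linearIndependent_translates {p : ℕ} [hp : Fact p.Prime] {P X : Type*} [Group P]
    [Fintype P] [Fintype X] [MulAction P X] (hP : IsPGroup p P) {x₀ : X}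
    (h0 : ∀ u : P, u • x₀ = x₀) (hfree : ∀ (u : P) (x : X), x ≠ x₀ → u • x = x → u = 1)
    (O : ValuationSubring ℂ) (hO : (p : ℂ) ∈ O.nonunits) (s : X → ℂ) (hs : ∀ x, s x ∈ O)
    (hs1 : s x₀ = 1) (hsum : ∑ x, s x = 0) :
    LinearIndependent ℂ (fun (u : P) (x : X) => s (u • x)) := by
  classical
  rw [Fintype.linearIndependent_iff]
  intro c hc
  by_contra hne
  push Not at hne
  obtain ⟨u₁, hu₁⟩ := hne
  obtain ⟨u₀, hu₀, hcO⟩ := exists_max_val O c hu₁
  let k := IsLocalRing.ResidueField O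
  let r : O →+* k := IsLocalRing.residue O
  have : CharP k p := by
    have : ((p : ℕ) : k) = 0 := by
      rw [← map_natCast r, IsLocalRing.residue_eq_zero_iff, ← O.coe_mem_nonunits_iff]
      simpa using hO
    exact (CharP.charP_iff_prime_eq_zero hp.out).2 this
  let sO : X → O := fun x => ⟨s x, hs x⟩
  let cO : P → O := fun u => ⟨c u / c u₀, hcO u⟩
  let ρ : P →* Module.End k (P → k) :=
    { toFun := fun v => LinearMap.funLeft k k (fun u => u * v)
      map_one' := by ext d u; simp
      map_mul' := fun v w => by ext d u; simp [mul_assoc] }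
  have hρ : ∀ v d u, ρ v d u = d (u * v) := fun _ _ _ => rfl
  let V : AddSubgroup (P → k) :=
    { carrier := {d | ∀ x, ∑ u, d u * r (sO (u • x)) = 0}
      zero_mem' := fun x => by simp
      add_mem' := fun {a b} ha hb x => by
        simp only [Pi.add_apply, add_mul, Finset.sum_add_distrib]
        rw [ha x, hb x, add_zero]
      neg_mem' := fun {a} ha x => by
        rw [← neg_zero, ← ha x, ← Finset.sum_neg_distrib]
        exact Finset.sum_congr rfl fun u _ => neg_mul _ _ }
  have hV : ∀ v, ∀ d ∈ V, ρ v d ∈ V := by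
    intro v d hd x
    rw [← hd (v⁻¹ • x), ← Equiv.sum_comp (Equiv.mulRight v) (fun u => d u * r (sO (u • v⁻¹ • x)))]
    refine Finset.sum_congr rfl fun u _ => ?_
    simp [hρ, mul_smul]
  have hmem : (fun u => r (cO u)) ∈ V := by
    intro x
    have h1 : ∑ u, cO u * sO (u • x) = 0 := by
      apply Subtype.ext
      have h2 := congrFun hc x
      simp only [Finset.sum_apply, Pi.smul_apply, smul_eq_mul, Pi.zero_apply] at h2
      have h3 : ((∑ u, cO u * sO (u • x) : O) : ℂ) = ∑ u, c u / c u₀ * s (u • x) := by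
        rw [AddSubmonoidClass.coe_finsetSum]; rfl
      rw [h3]
      have h4 : ∑ u, c u / c u₀ * s (u • x) = (∑ u, c u * s (u • x)) / c u₀ := by
        rw [Finset.sum_div]; exact Finset.sum_congr rfl fun u _ => by ring
      rw [h4, h2]; simp
    have := congrArg r h1
    simpa [map_sum] using this
  have hne0 : (fun u => r (cO u)) ≠ 0 := by
    intro h
    have h1 := congrFun h u₀
    have h2 : cO u₀ = 1 := Subtype.ext (div_self hu₀)
    simp [h2] at h1
  obtain ⟨w, hw, hw0, hwfix⟩ := H7.exists_ne_zero_fixed p hP ρ V hV hmem hne0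
  have hconst : ∀ u, w u = w 1 := fun u => by
    have := congrFun (hwfix u) 1
    rw [hρ, one_mul] at this
    exact this
  have hw1 : w 1 ≠ 0 := fun h => hw0 (funext fun u => by rw [hconst u, h]; rfl)
  have hT : ∀ x, ∑ u : P, r (sO (u • x)) = 0 := fun x => by
    have := hw x
    simp only [hconst _, ← Finset.mul_sum] at this
    exact (mul_eq_zero.1 this).resolve_left hw1
  have h5 := sum_eq_of_free_orbits h0 hfree (fun x => r (sO x)) fun x _ => hT x
  have h6 : ∑ x, sO x = 0 := by
    apply Subtype.ext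
    rw [AddSubmonoidClass.coe_finsetSum]; exact hsum
  have h7 : sO x₀ = 1 := Subtype.ext hs1
  rw [← map_sum, h6, map_zero, h7, map_one] at h5
  exact zero_ne_one h5

variable {G : Type*} [Group G]

theorem free_on_cosets [Finite G] {p : ℕ} [Fact p.Prime] (P : Sylow p G)
    (hTI : ∀ g : G, g ∉ Subgroup.normalizer ((P : Subgroup G) : Set G) →
      (P : Subgroup G) ⊓ (MulAut.conj g • (P : Subgroup G)) = ⊥) {H : Subgroup G}
    (hH : Subgroup.normalizer ((P : Subgroup G) : Set G) ≤ H) (u : (P : Subgroup G))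
    (x : G ⧸ H) (hx : x ≠ ((1 : G) : G ⧸ H)) (hu : u • x = x) : u = 1 := by
  obtain ⟨g, rfl⟩ := QuotientGroup.mk_surjective x
  have hPH : (P : Subgroup G) ≤ H := Subgroup.le_normalizer.trans hH
  have h1 : g⁻¹ * u * g ∈ H := by
    have : (((u : G) * g : G) : G ⧸ H) = (g : G ⧸ H) := hu
    rw [eq_comm, QuotientGroup.eq] at this
    simpa [mul_assoc] using this
  have h2 : IsPGroup p (Subgroup.zpowers (⟨g⁻¹ * u * g, h1⟩ : H)) := by
    obtain ⟨j, hj⟩ := P.2 u
    apply IsPGroup.of_card_dvd_pow (n := j)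
    rw [Nat.card_zpowers]
    apply orderOf_dvd_of_pow_eq_one
    apply Subtype.ext
    have h3 : (u : G) ^ p ^ j = 1 := by simpa using congrArg Subtype.val hj
    have h4 : (g⁻¹ * u * g) ^ p ^ j = g⁻¹ * (u : G) ^ p ^ j * g := by
      simpa using conj_pow (a := g⁻¹) (b := (u : G)) (i := p ^ j)
    simp [h4, h3]
  obtain ⟨Q, hQ⟩ := h2.exists_le_sylow
  obtain ⟨h, hh⟩ := MulAction.exists_smul_eq H (P.subtype hPH) Q
  have h5 : (⟨g⁻¹ * u * g, h1⟩ : H) ∈ (h • P.subtype hPH : Sylow p H) := by
    rw [hh]; exact hQ (Subgroup.mem_zpowers _)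
  have h6 : (h : G)⁻¹ * (g⁻¹ * u * g) * h ∈ (P : Subgroup G) := by
    have : (⟨g⁻¹ * u * g, h1⟩ : H) ∈ ((h • P.subtype hPH : Sylow p H) : Subgroup H) := h5
    rw [Sylow.coe_subgroup_smul, Subgroup.mem_pointwise_smul_iff_inv_smul_mem] at this
    simpa [Subgroup.mem_subgroupOf] using this
  by_contra hu1
  have h7 : g * h ∈ Subgroup.normalizer ((P : Subgroup G) : Set G) := by
    by_contra h8
    have h9 : (u : G) ∈ (P : Subgroup G) ⊓ (MulAut.conj (g * h) • (P : Subgroup G)) := by
      refine ⟨u.2, ?_⟩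
      change (u : G) ∈ (MulAut.conj (g * h) • (P : Subgroup G))
      rw [Subgroup.mem_pointwise_smul_iff_inv_smul_mem]
      simpa [mul_assoc] using h6
    rw [hTI _ h8, Subgroup.mem_bot] at h9
    exact hu1 (Subtype.ext h9)
  apply hx
  rw [eq_comm, QuotientGroup.eq]
  simpa using H.mul_mem (hH h7) (H.inv_mem h.2)

theorem card_le_degree_of_TI [Finite G] {p : ℕ} [Fact p.Prime] (P : Sylow p G)
    (hTI : ∀ g : G, g ∉ Subgroup.normalizer ((P : Subgroup G) : Set G) →
      (P : Subgroup G) ⊓ (MulAut.conj g • (P : Subgroup G)) = ⊥) {H : Subgroup G} [Fintype H]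
    (hH : Subgroup.normalizer ((P : Subgroup G) : Set G) ≤ H) {θ : G → ℂ}
    (hθ : IsIrrCharacter G θ) (h1 : θ ≠ fun _ => 1)
    (hfix : classInner (fun h : H => θ h) (fun _ => 1) ≠ 0) :
    Nat.card (P : Subgroup G) ≤ charDegree θ := by
  classical
  have : Fintype G := Fintype.ofFinite G
  have : Fintype (P : Subgroup G) := Fintype.ofFinite _
  have : Fintype (G ⧸ H) := Fintype.ofFinite _
  have hPH : (P : Subgroup G) ≤ H := Subgroup.le_normalizer.trans hH
  have hinv0 := hθ.classInner_of_ne isIrrCharacter_one h1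
  obtain ⟨n, ρ, hirr, rfl⟩ := hθ
  rw [classInner_character_one, Nat.cast_eq_zero, Submodule.finrank_eq_zero] at hinv0
  have h2 := classInner_character_one (ρ.comp H.subtype : Representation ℂ H (Fin n → ℂ))
  have h3 : (Representation.invariants (ρ.comp H.subtype : Representation ℂ H (Fin n → ℂ))) ≠ ⊥ := by
    intro h
    apply hfix
    rw [h, finrank_bot, Nat.cast_zero] at h2
    exact h2
  obtain ⟨v, hv, hv0⟩ := Submodule.exists_mem_ne_zero_of_ne_bot h3
  have hvH : ∀ h ∈ H, ρ h v = v := fun h hh => hv ⟨h, hh⟩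
  let F : G ⧸ H → (Fin n → ℂ) := fun x => Quotient.liftOn' x (fun g => ρ g v) (by
    intro a b hab
    rw [QuotientGroup.leftRel_apply] at hab
    have : b = a * (a⁻¹ * b) := by group
    rw [this, map_mul, Module.End.mul_apply, hvH _ hab])
  have hF : ∀ g : G, F (g : G ⧸ H) = ρ g v := fun _ => rfl
  have hFs : ∀ (g : G) (x : G ⧸ H), F (g • x) = ρ g (F x) := by
    intro g x
    obtain ⟨a, rfl⟩ := QuotientGroup.mk_surjective x
    rw [MulAction.Quotient.smul_mk, hF, hF, smul_eq_mul, map_mul, Module.End.mul_apply]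
  have hsum : ∑ x, F x = 0 := by
    rw [← Submodule.mem_bot ℂ, ← hinv0]
    intro g
    rw [map_sum, ← Equiv.sum_comp (MulAction.toPerm g) F]
    exact Finset.sum_congr rfl fun x _ => (hFs g x).symm
  obtain ⟨f, hf⟩ := Module.Projective.exists_dual_ne_zero ℂ hv0
  obtain ⟨O, hO⟩ := exists_valuationSubring_prime p
  obtain ⟨x₁, hx₁, hxO⟩ := exists_max_val O (fun x => f (F x)) (i₁ := ((1 : G) : G ⧸ H))
    (by simpa [hF] using hf)
  obtain ⟨g₁, rfl⟩ := QuotientGroup.mk_surjective x₁
  let f' : Module.Dual ℂ (Fin n → ℂ) := (f (F g₁))⁻¹ • (f ∘ₗ ρ g₁)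
  have hf' : ∀ x, f' (F x) = f (F (g₁ • x)) / f (F g₁) := fun x => by
    simp only [f', LinearMap.smul_apply, LinearMap.comp_apply, smul_eq_mul, hFs]
    ring
  have hli := linearIndependent_translates (P := (P : Subgroup G)) (X := G ⧸ H) P.2
    (x₀ := ((1 : G) : G ⧸ H)) (fun u => by
      change (((u : G) * 1 : G) : G ⧸ H) = _
      rw [QuotientGroup.eq]
      simpa using hPH u.2)
    (free_on_cosets P hTI hH) O hO (fun x => f' (F x)) (fun x => by rw [hf']; exact hxO _)
    (by
      rw [hf', MulAction.Quotient.smul_mk, smul_eq_mul, mul_one]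
      exact div_self hx₁)
    (by rw [← map_sum, hsum, map_zero])
  let L : Module.Dual ℂ (Fin n → ℂ) →ₗ[ℂ] (G ⧸ H → ℂ) :=
    { toFun := fun φ x => φ (F x)
      map_add' := fun _ _ => rfl
      map_smul' := fun _ _ => rfl }
  have hli2 : LinearIndependent ℂ (fun u : (P : Subgroup G) => f' ∘ₗ ρ u) := by
    apply LinearIndependent.of_comp L
    convert hli using 1
    funext u x
    change f' (ρ u (F x)) = f' (F ((u : G) • x))
    rw [hFs]
  have h5 := hli2.fintype_card_le_finrank
  rw [Subspace.dual_finrank_eq, finrank_fin_fun] at h5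
  rw [Nat.card_eq_fintype_card, charDegree_eq_of_apply_one (n := n) (by simp)]
  exact h5

theorem classInner_restrict_of_TI [Fintype G] {p : ℕ} [Fact p.Prime] (P : Sylow p G)
    (hTI : ∀ g : G, g ∉ Subgroup.normalizer ((P : Subgroup G) : Set G) →
      (P : Subgroup G) ⊓ (MulAut.conj g • (P : Subgroup G)) = ⊥) {χ : G → ℂ}
    (hχ : IsCharacter G χ) (hdeg : charDegree χ ^ 2 ≤ Nat.card (P : Subgroup G))
    (H : Subgroup G) [Fintype H] (hH : Subgroup.normalizer ((P : Subgroup G) : Set G) ≤ H) :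
    classInner χ χ = classInner (fun h : H => χ h) (fun h : H => χ h) := by
  classical
  by_cases h0 : χ = 0
  · subst h0
    rw [classInner_zero_left]
    exact (classInner_zero_left _).symm
  have hΨ : IsCharacter G (χ * fun g => conj (χ g)) := hχ.mul hχ.conj
  set Ψ : G → ℂ := χ * fun g => conj (χ g) with hΨdef
  have e1 : classInner χ χ = classInner Ψ (fun _ => 1) := classInner_eq_mul_conj_one _ _
  have e2 : classInner (fun h : H => χ h) (fun h : H => χ h)
      = classInner (fun h : H => Ψ h) (fun _ => 1) := classInner_eq_mul_conj_one _ _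
  have hne : classInner Ψ (fun _ => 1) ≠ 0 := by
    rw [← e1, Ne, classInner_self_eq_zero]; exact h0
  have hΨ1 := hΨ.sub_irr isIrrCharacter_one hne
  have e3 : (fun h : H => Ψ h) =
      ∑ θ : IrrCharacter G, classInner Ψ θ • (fun h : H => (θ : G → ℂ) h) := by
    funext h
    rw [hΨ.isClassFunction.apply_eq_sum h]
    simp
  rw [e1, e2, e3, classInner_sum_left, Finset.sum_eq_single (irrOne G)]
  · rw [classInner_smul_left]
    have : classInner (fun h : H => (irrOne G : G → ℂ) h) (fun _ => 1) = 1 :=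
      classInner_one_one
    rw [this, mul_one]; rfl
  · intro θ _ hθ1
    have hθ1' : (θ : G → ℂ) ≠ fun _ => 1 := fun h => hθ1 (Subtype.ext h)
    rw [classInner_smul_left]
    by_contra hc
    obtain ⟨hc1, hc2⟩ := mul_ne_zero_iff.1 hc
    have h1 := card_le_degree_of_TI P hTI hH θ.2 hθ1' hc2
    have h2 : classInner (Ψ - fun _ => 1) θ ≠ 0 := by
      rw [classInner_sub_left, isIrrCharacter_one.classInner_of_ne θ.2 hθ1'.symm, sub_zero]
      exact hc1
    obtain ⟨m, hm⟩ := (hΨ1.sub_irr θ.2 h2).exists_degree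
    simp only [Pi.sub_apply, hΨdef, Pi.mul_apply, hχ.conj_apply_one] at hm
    rw [← coe_charDegree hχ, ← irr_coe_charDegree] at hm
    have h3 : charDegree χ ^ 2 = m + charDegree (θ : G → ℂ) + 1 := by
      have : ((charDegree χ ^ 2 : ℕ) : ℂ) = ((m + charDegree (θ : G → ℂ) + 1 : ℕ) : ℂ) := by
        push_cast; linear_combination hm
      exact_mod_cast this
    omega
  · intro h; exact absurd (Finset.mem_univ _) h

end Cfsg.Agent.H8
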