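import Cfsg.Agent.H8.Wr4
import Cfsg.Agent.H13.Rank2

/-! Sylow `2`-subgroups of the groups `Ω` in odd characteristic. -/

set_option autoImplicit false

namespace Cfsg.Agent.H8

open Subgroup Equiv SemidirectProduct Function Module QuadraticMap H13

variable {F : Type*} [Field F] {I κ : Type} [Fintype I] [Fintype κ]

/-- An orthogonal sum of planes `x² + y²` and a diagonal form. -/
def wrQ (I : Type) [Fintype I] (c : κ → F) : QuadraticForm F ((I → Fin 2 → F) × (κ → F)) :=
  (QuadraticMap.pi fun _ : I => sqQ (Fin 2) F).prod (weightedSumSquares F c)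

variable {c : κ → F}

theorem wrQ_apply (v : (I → Fin 2 → F) × (κ → F)) :
    wrQ I c v = ∑ i, sqQ (Fin 2) F (v.1 i) + weightedSumSquares F c v.2 := by
  simp only [wrQ, QuadraticMap.prod_apply, QuadraticMap.pi_apply]

theorem polar_wrQ (v w : (I → Fin 2 → F) × (κ → F)) : polar (wrQ I c) v w =
    ∑ i, polar (sqQ (Fin 2) F) (v.1 i) (w.1 i) + polar (weightedSumSquares F c) v.2 w.2 := by
  simp only [wrQ, polar_prod, QuadraticMap.Ring.polar_pi]

/-- The coordinates of the model space. -/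
def wrE (F : Type*) [Field F] (I κ : Type) :
    ((I → Fin 2 → F) × (κ → F)) ≃ₗ[F] ((I × Fin 2) ⊕ κ → F) :=
  ((LinearEquiv.curry F F I (Fin 2)).symm.prodCongr (.refl F _)).trans
    (LinearEquiv.sumArrowLequivProdArrow _ _ F F).symm

theorem wrQ_eq (v : (I → Fin 2 → F) × (κ → F)) :
    weightedSumSquares F (Sum.elim 1 c) (wrE F I κ v) = wrQ I c v := by
  simp [wrQ_apply, wrE, weightedSumSquares_apply, Fintype.sum_prod_type, Function.uncurry]

theorem finrank_wrQ : finrank F ((I → Fin 2 → F) × (κ → F)) =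
    2 * Fintype.card I + Fintype.card κ := by
  simp [finrank_pi_fintype, mul_comm]

/-- The imprimitive subgroup of the orthogonal group. -/
def wrO (I : Type) [Fintype I] (c : κ → F) :
    Wr (OG (sqQ (Fin 2) F)) I × (κ → ℤˣ) →* OG (wrQ I c) :=
  (wrL (OG (sqQ (Fin 2) F)).subtype (sgnL F κ)).codRestrict _ fun x v => by
    rw [wrQ_apply, wrQ_apply, wrL_apply,
      ← Equiv.sum_comp x.1.right⁻¹ fun i => sqQ (Fin 2) F (v.1 i)]
    congr 1
    · exact Finset.sum_congr rfl fun i _ => OG_map _ _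
    · simp only [weightedSumSquares_apply, sgnL_apply]
      refine Finset.sum_congr rfl fun k _ => ?_
      rcases Int.units_eq_one_or (x.2 k) with h | h <;> simp [h]

theorem wrO_apply (x : Wr (OG (sqQ (Fin 2) F)) I × (κ → ℤˣ)) (v : (I → Fin 2 → F) × (κ → F)) :
    (wrO I c x).1 v = (fun i => (x.1.left i).1 (v.1 (x.1.right⁻¹ i)), sgnL F κ x.2 v.2) := rfl

theorem wrO_injective (h2 : (2 : F) ≠ 0) : Injective (wrO I c) := fun _ _ h =>
  wrL_injective (subtype_injective _) (sgnL_injective h2) (congrArg Subtype.val h)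

/-- Permuting the coordinates of the planes. -/
def pmO (I : Type) [Fintype I] (c : κ → F) : Perm (I × Fin 2) →* OG (wrQ I c) :=
  (pmL F I (Fin 2) (κ → F)).codRestrict _ fun σ v => by
    rw [wrQ_apply, wrQ_apply, pmL_apply]
    congr 1
    simp only [weightedSumSquares_apply, Pi.one_apply, one_smul]
    rw [← Fintype.sum_prod_type', ← Fintype.sum_prod_type']
    exact Equiv.sum_comp σ⁻¹ fun x => v.1 x.1 x.2 * v.1 x.1 x.2

theorem wrO_inr (t : Perm I) :
    wrO I c (inr t, 1) = pmO I c (prodCongrLeft fun _ : Fin 2 => t) :=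
  Subtype.ext (wrL_inr _ t)

variable [DecidableEq I] [DecidableEq κ]

theorem wrQ_single_left (i : I) (w : Fin 2 → F) :
    wrQ I c (Pi.single i w, 0) = sqQ (Fin 2) F w := by
  rw [wrQ_apply, map_zero, add_zero, Finset.sum_eq_single i
    (fun j _ h => by simp only [Pi.single_eq_of_ne h, map_zero]) (by simp)]
  simp only [Pi.single_eq_same]

theorem wrQ_single_right (k : κ) : wrQ I c (0, Pi.single k 1) = c k := by
  simp [wrQ_apply, weightedSumSquares_apply, Pi.single_apply]

theorem wrO_sg_refl (i : I) (w : Fin 2 → F) :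
    wrO I c (sg i (refl _ w), 1) = refl (wrQ I c) (Pi.single i w, 0) := by
  refine OG_ext fun v => ?_
  rw [wrO_apply, H13.refl_apply, wrQ_single_left, polar_wrQ, polar_zero_left, add_zero,
    Finset.sum_eq_single i (fun j _ h => by simp only [Pi.single_eq_of_ne h, polar_zero_left])
      (by simp)]
  refine Prod.ext (funext fun j => ?_) (by simp)
  by_cases h : j = i
  · subst h; simp [sg_left, sg_right, H13.refl_apply]
  · simp [sg_left, sg_right, Pi.mulSingle_eq_of_ne h, Pi.single_eq_of_ne h]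

theorem wrO_sgn (h2 : (2 : F) ≠ 0) (k : κ) (hk : c k ≠ 0) :
    wrO I c (1, Pi.mulSingle k (-1)) = refl (wrQ I c) (0, Pi.single k 1) := by
  refine OG_ext fun v => ?_
  rw [wrO_apply, H13.refl_apply, wrQ_single_right, polar_wrQ, polar_weightedSumSquares]
  refine Prod.ext (funext fun j => by simp) (funext fun j => ?_)
  by_cases h : j = k
  · subst h
    simp [sgnL_apply, Pi.single_apply]
    field_simp
    ring
  · simp [sgnL_apply, Pi.mulSingle_eq_of_ne h, Pi.single_eq_of_ne h]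

theorem nd_wrQ (h2 : (2 : F) ≠ 0) (hc : ∀ k, c k ≠ 0) : ND (wrQ I c) :=
  (SemiSim.ofIsometry (wrE F I κ) wrQ_eq).symm.nd
    (nd_weightedSumSquares h2 (by rintro (i | k); exacts [one_ne_zero, hc k]))

theorem nd_sq_two (h2 : (2 : F) ≠ 0) : ND (sqQ (Fin 2) F) :=
  nd_weightedSumSquares h2 fun _ => one_ne_zero

theorem eq_refl_of_dickson (h2 : (2 : F) ≠ 0) {d : OG (sqQ (Fin 2) F)}
    (h : dickson (nd_sq_two h2) (good_of_two_ne_zero h2) d ≠ 1) :
    ∃ v, sqQ (Fin 2) F v ≠ 0 ∧ d = refl _ v := by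
  refine (nd_sq_two h2).eq_refl_of_rk_eq_one ?_
  have h1 := rk_add_finrank_fixS d
  rw [Ne, dickson_eq_one_iff, Nat.not_even_iff_odd, Nat.odd_iff] at h
  rw [finrank_fin_fun] at h1
  omega

variable [Fintype F]

theorem disc_wrQ (h2 : (2 : F) ≠ 0) (hc : ∀ k, c k ≠ 0) (he : Even (Fintype.card κ)) :
    disc (wrQ I c) = sgn (∏ k, c k) := by
  rw [← (nd_wrQ h2 hc).disc_of_isometry (wrE F I κ) wrQ_eq, (nd_weightedSumSquares h2
    (by rintro (i | k); exacts [one_ne_zero, hc k])).disc_eq (Pi.basisFun F _),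
    gdet_weightedSumSquares]
  obtain ⟨a, ha⟩ := he
  rw [show Fintype.card ((I × Fin 2) ⊕ κ) = (Fintype.card I + a) * 2 by simp [ha]; ring, pow_mul,
    sgn_sq_mul (pow_ne_zero _ h2) (Finset.prod_ne_zero_iff.2
      (by rintro (i | k) -; exacts [one_ne_zero, hc k]))]
  simp

theorem fac2_card_O2 (hF : Odd (Fintype.card F)) : (Fintype.card F ^ 2 - 1).factorization 2 ≤
    (Nat.card (OG (sqQ (Fin 2) F))).factorization 2 := by
  have h2 := two_ne_zero_of_odd_card hF
  have hQ := nd_sq_two h2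
  have hd : disc (sqQ (Fin 2) F) = 1 := by
    rw [hQ.disc_eq (Pi.basisFun F _), gdet_weightedSumSquares]
    simpa using (sgn_sq_mul h2 one_ne_zero).trans sgn_one
  have hP := hQ.isPlus_iff_disc h2 (m := 1) (by simp)
  have h1 : 1 < Fintype.card F := Fintype.one_lt_card
  have h3 := Nat.odd_iff.1 hF
  rw [hd, eq_comm, sgn_neg_one_pow_eq_one_iff hF, pow_one] at hP
  rw [fac2_sq_sub_one h1]
  by_cases h : IsPlus (sqQ (Fin 2) F)
  · rw [hQ.card_OG_plus h le_rfl (by simp), Nat.card_eq_fintype_card, Finset.prod_range_zero,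
      mul_one, pow_one, fac2_two_mul_pow hF h1 _ (by omega),
      fac2_eq_one (n := Fintype.card F + 1) (by have := hP.1 h; omega), add_comm]
  · rw [hQ.card_OG_minus h le_rfl (by simp), Nat.card_eq_fintype_card, Finset.prod_range_zero,
      mul_one, pow_one, fac2_two_mul_pow hF h1 _ (by omega),
      fac2_eq_one (n := Fintype.card F - 1) (by have := hP.not.1 h; omega)]

theorem wrO_aux [Nontrivial I] (h2 : (2 : F) ≠ 0) (hc : ∀ k, c k ≠ 0)
    (D0 : Sylow 2 (OG (sqQ (Fin 2) F))) (T : Sylow 2 (Perm I))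
    (ψ : Wr (OG (sqQ (Fin 2) F)) I × (κ → ℤˣ) →* ℤˣ × ℤˣ)
    (hψ : ∀ x, ψ x = (dickson (nd_wrQ h2 hc) (good_of_two_ne_zero h2)).prod
      (spinor (nd_wrQ h2 hc) (good_of_two_ne_zero h2)) (wrO I c x)) :
    (wsub D0.1 T.1).prod ⊤ ⊓ ψ.ker ≤ goodSub 2 ((wsub D0.1 T.1).prod ⊤ ⊓ ψ.ker) := by
  obtain ⟨i0⟩ : Nonempty I := inferInstance
  have hW := nd_sq_two h2
  have hG : Good (sqQ (Fin 2) F) := good_of_two_ne_zero h2
  let δ : OG (sqQ (Fin 2) F) →* ℤˣ × ℤˣ := ψ.comp ((MonoidHom.inl _ _).comp (sg i0))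
  have hδ : ∀ v, sqQ (Fin 2) F v ≠ 0 → δ (refl _ v) = (-1, sgn (sqQ (Fin 2) F v)) := fun v hv => by
    change ψ (sg i0 (refl _ v), 1) = _
    rw [hψ, wrO_sg_refl, MonoidHom.prod_apply, dickson_refl _ _ (by rwa [wrQ_single_left]),
      spinor_refl _ _ (by rwa [wrQ_single_left]), wrQ_single_left]
  have hex : ∀ t : F, t ≠ 0 → ∃ v, sqQ (Fin 2) F v ≠ 0 ∧ refl _ v ∈ D0.1 ∧
      sgn (sqQ (Fin 2) F v) = sgn t := fun t ht => by
    obtain ⟨w, rfl⟩ := hW.exists_eq (by simp) t
    obtain ⟨a, ha, h⟩ := exists_mem_sylow_map_eq ((dickson hW hG).prod (spinor hW hG))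
      (.of_card (n := 2) (by simp)) D0 (refl _ w)
    rw [MonoidHom.prod_apply, MonoidHom.prod_apply, dickson_refl _ _ ht, spinor_refl _ _ ht,
      Prod.mk.injEq] at h
    obtain ⟨v, hv, rfl⟩ := eq_refl_of_dickson h2 (d := a) (by rw [h.1]; decide)
    exact ⟨v, hv, ha, (spinor_refl _ _ hv).symm.trans h.2⟩
  obtain ⟨a, ha0, ha, -⟩ := hex 1 one_ne_zero
  have hrot : ∀ d, dickson hW hG d = 1 → d * refl _ a * (d * refl _ a) = 1 := fun d hd => by
    obtain ⟨v, -, h⟩ := eq_refl_of_dickson h2 (d := d * refl _ a)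
      (by rw [map_mul, hd, dickson_refl _ _ ha0]; decide)
    rw [h, refl_mul_self]
  refine wr_ker ψ i0 δ (fun _ => rfl) (fun t _ => ?_) (genP_sylow_perm 2 T).le_goodSub
    (fun d hd => ?_) (fun d hd h => Or.inr ⟨inferInstance, _, ha, refl_mul_self a, ?_⟩)
    (signs_le fun k => subset_closure ⟨funext fun _ => Int.units_mul_self _, ?_⟩)
  · rw [hψ, wrO_inr]
    exact map_eq_one_of_sign (A := ℤˣ × ℤˣ) (((dickson (nd_wrQ h2 hc)
      (good_of_two_ne_zero h2)).prod (spinor (nd_wrQ h2 hc) (good_of_two_ne_zero h2))).comp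
      (pmO I c))
      (sign_prodCongrLeft_two (Fintype.card_fin 2) t)
  · by_cases h : dickson hW hG d = 1
    · rw [show d = d * refl _ a * refl _ a by rw [mul_assoc, refl_mul_self, mul_one]]
      exact mul_mem (subset_closure ⟨mul_mem hd ha, Or.inr (hrot d h)⟩)
        (subset_closure ⟨ha, Or.inr (refl_mul_self a)⟩)
    · obtain ⟨v, -, rfl⟩ := eq_refl_of_dickson h2 h
      exact subset_closure ⟨hd, Or.inr (refl_mul_self v)⟩
  · by_cases h' : dickson hW hG d = 1
    · rw [refl_inv, eq_inv_iff_mul_eq_one, ← conj_eq_one_iff (a := d), ← hrot d h']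
      group
    · obtain ⟨v, hv, rfl⟩ := eq_refl_of_dickson h2 h'
      rw [hδ v hv] at h
      exact absurd (show (-1 : ℤˣ) = 1 from congrArg Prod.fst h) (by decide)
  · obtain ⟨v, hv, h1, h3⟩ := hex (c k) (hc k)
    refine ⟨_, h1, refl_mul_self v, ?_⟩
    rw [hδ v hv, hψ, wrO_sgn h2 k (hc k), MonoidHom.prod_apply,
      dickson_refl _ _ (by rw [wrQ_single_right]; exact hc k),
      spinor_refl _ _ (by rw [wrQ_single_right]; exact hc k), wrQ_single_right, h3]

theorem sylow_Om_of_semiSim [Nontrivial I] (hF : Odd (Fintype.card F)) (hc : ∀ k, c k ≠ 0)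
    {V : Type*} [AddCommGroup V] [Module F V] [FiniteDimensional F V] {Q : QuadraticForm F V}
    (s : SemiSim (wrQ I c) Q)
    (hcard : (Nat.card (OG Q)).factorization 2 ≤
      Fintype.card I * (Fintype.card F ^ 2 - 1).factorization 2 +
        (Fintype.card I).factorial.factorization 2 + Fintype.card κ)
    (S : Sylow 2 (Om Q)) (x : (S : Subgroup (Om Q))) :
    x ^ 2 ∈ commutator (S : Subgroup (Om Q)) := by
  have h2 := two_ne_zero_of_odd_card hF
  haveI : Finite V := Module.finite_of_finite F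
  refine sylow_pow_mem_congr ((MulEquiv.subgroupCongr ((nd_wrQ h2 hc).commutator_eq
    (good_of_two_ne_zero h2)).symm).trans (commutatorEquiv s.conj)) (fun S y => ?_) S x
  obtain ⟨D0⟩ : Nonempty (Sylow 2 (OG (sqQ (Fin 2) F))) := inferInstance
  obtain ⟨T⟩ : Nonempty (Sylow 2 (Perm I)) := inferInstance
  have h1 : IsPGroup 2 ((wsub D0.1 T.1).prod (⊤ : Subgroup (κ → ℤˣ))) :=
    isPGroup_prod_top (isPGroup_wsub D0.isPGroup' T.isPGroup') (isPGroup_signs _)
  refine sylow_ker_pow_mem (wrO I c) (wrO_injective h2) _ h1 ?_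
    (wrO_aux h2 hc D0 T _ fun _ => rfl) S y
  rw [factorization_card_prod_top, factorization_card_wsub, factorization_card_sylow,
    factorization_card_sylow_perm, card_signs, Nat.factorization_pow_self Nat.prime_two,
    Nat.card_congr s.conj.toEquiv, Nat.card_eq_fintype_card (α := I)]
  refine hcard.trans ?_
  gcongr
  exact fac2_card_O2 hF

section main

variable {V : Type*} [AddCommGroup V] [Module F V] [FiniteDimensional F V] {Q : QuadraticForm F V}

theorem sylow_Om_odd (hF : Odd (Fintype.card F)) (hQ : ND Q) {m : ℕ} (hm : 2 ≤ m)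
    (hV : finrank F V = 2 * m + 1) (S : Sylow 2 (Om Q)) (x : (S : Subgroup (Om Q))) :
    x ^ 2 ∈ commutator (S : Subgroup (Om Q)) := by
  have h2 := two_ne_zero_of_odd_card hF
  have h1 : 1 < Fintype.card F := Fintype.one_lt_card
  haveI : Nontrivial (Fin m) := Fin.nontrivial_iff_two_le.2 hm
  have hc : ∀ k, (1 : Fin 1 → F) k ≠ 0 := fun _ => one_ne_zero
  obtain ⟨s⟩ := (nd_wrQ (I := Fin m) h2 hc).nonempty_semiSim_odd hQ
    (by rw [finrank_wrQ]; simp) hV
  refine sylow_Om_of_semiSim hF hc s ?_ S x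
  rw [hQ.card_OG_odd hV, Nat.card_eq_fintype_card,
    fac2_two_mul_pow hF h1 _ (prod_even_pow_ne_zero h1 m), fac2_prod_even_pow hF h1]
  simp [add_comm]

theorem sylow_Om_even (hF : Odd (Fintype.card F)) (hQ : ND Q) {m : ℕ} (hm : 2 ≤ m)
    (hV : finrank F V = 2 * m) (hd : disc Q = 1 ∨ 3 ≤ m) (S : Sylow 2 (Om Q))
    (x : (S : Subgroup (Om Q))) : x ^ 2 ∈ commutator (S : Subgroup (Om Q)) := by
  classical
  have h2 := two_ne_zero_of_odd_card hF
  have h1 : 1 < Fintype.card F := Fintype.one_lt_card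
  obtain ⟨n, rfl⟩ : ∃ n, m = n + 1 := ⟨m - 1, by omega⟩
  have hq : Odd (Fintype.card F ^ (n + 1)) := hF.pow
  have hq1 := pow_sub_one_ne_zero h1 n.succ_ne_zero
  have hP := hQ.isPlus_iff_disc h2 hV
  have hcard : (Nat.card (OG Q)).factorization 2 = 1 + (if IsPlus Q then
      (Fintype.card F ^ (n + 1) - 1).factorization 2 else
      (Fintype.card F ^ (n + 1) + 1).factorization 2) +
      (n * (Fintype.card F ^ 2 - 1).factorization 2 + n.factorial.factorization 2) := by
    split_ifs with h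
    · rw [hQ.card_OG_plus h (by omega) hV, Nat.card_eq_fintype_card,
        fac2_mul (by positivity) (prod_even_pow_ne_zero h1 _), fac2_two_mul_pow hF h1 _ hq1,
        fac2_prod_even_pow hF h1, Nat.add_sub_cancel]
    · rw [hQ.card_OG_minus h (by omega) hV, Nat.card_eq_fintype_card,
        fac2_mul (by positivity) (prod_even_pow_ne_zero h1 _),
        fac2_two_mul_pow hF h1 _ (by omega), fac2_prod_even_pow hF h1, Nat.add_sub_cancel]
  rcases Int.units_eq_one_or (disc Q) with h | h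
  · haveI : Nontrivial (Fin (n + 1)) := Fin.nontrivial_iff_two_le.2 hm
    have hc : ∀ k, (1 : Fin 0 → F) k ≠ 0 := fun _ => one_ne_zero
    have hV' : finrank F ((Fin (n + 1) → Fin 2 → F) × (Fin 0 → F)) = 2 * (n + 1) := by
      rw [finrank_wrQ]; simp
    obtain ⟨s⟩ := (nd_wrQ (I := Fin (n + 1)) h2 hc).nonempty_semiSim_even hQ hV' hV (by
      rw [hP, (nd_wrQ h2 hc).isPlus_iff_disc h2 hV', disc_wrQ h2 hc (by simp), h]; simp [sgn_one])
    refine sylow_Om_of_semiSim hF hc s ?_ S x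
    have h3 := fac2_pow_two_mul h1 n.succ_ne_zero
    have h4 := fac2_pos hq1 (Nat.Odd.sub_odd hq odd_one)
    have h5 := fac2_pos (n := Fintype.card F ^ (n + 1) + 1) (by omega) hq.add_one
    rw [fac2_even_pow hF h1 n.succ_ne_zero] at h3
    rw [hcard, Fintype.card_fin, Nat.factorial_succ,
      fac2_mul n.succ_ne_zero n.factorial_ne_zero, add_one_mul]
    simp only [Nat.succ_eq_add_one, Fintype.card_fin] at *
    split_ifs <;> omega
  · haveI : Nontrivial (Fin n) := Fin.nontrivial_iff_two_le.2 (by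
      rcases hd with hd | hd
      · rw [h] at hd; exact absurd hd (by decide)
      · omega)
    obtain ⟨t, ht⟩ := FiniteField.exists_nonsquare (F := F) (by
      intro h; exact h2 (by simpa [h] using ringChar.Nat.cast_ringChar (R := F)))
    have ht0 : t ≠ 0 := by rintro rfl; exact ht IsSquare.zero
    have hc : ∀ k, (![1, t] : Fin 2 → F) k ≠ 0 := fun k => by fin_cases k <;> simp [ht0]
    have hV' : finrank F ((Fin n → Fin 2 → F) × (Fin 2 → F)) = 2 * (n + 1) := by
      rw [finrank_wrQ]; simp [mul_add]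
    obtain ⟨s⟩ := (nd_wrQ (I := Fin n) h2 hc).nonempty_semiSim_even hQ hV' hV (by
      rw [hP, (nd_wrQ h2 hc).isPlus_iff_disc h2 hV', disc_wrQ h2 hc (by simp), h]
      simp [sgn_eq_neg_one_iff.2 ht])
    refine sylow_Om_of_semiSim hF hc s ?_ S x
    rw [h, eq_comm, sgn_neg_one_pow_eq_neg_one_iff hF] at hP
    have h3 := Nat.odd_iff.1 hq
    rw [hcard, Fintype.card_fin, Fintype.card_fin]
    split_ifs with h4
    · rw [fac2_eq_one (by have := hP.1 h4; omega)]; omega
    · rw [fac2_eq_one (by have := hP.not.1 h4; omega)]; omega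

end main

end Cfsg.Agent.H8
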